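import Mathlib
import Cfsg.Agent.Lib.Helper18.SLMDefs
import Cfsg.Agent.Lib.Helper46.SLnf

/-!
# Project SLM (helper18, S2332), piece EXIST (helper64)

`SL_{m+3}(q)` has an irreducible complex representation of degree `(q^(m+3) - q)/(q - 1)`:
the permutation character on the points of the projective space minus the principal character
(the irreducibility is the part of the proof of `sln_perm_decomp` of helper46, redone here).
-/

set_option autoImplicit false

namespace Cfsg.Agent.Lib.Helper18.SLM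

open Matrix

universe u

variable {F : Type u} [Field F] [Fintype F]

section exist_aux

open Cfsg Cfsg.Agent.Lib.Helper4 Cfsg.Agent.Lib.Helper46 MulAction
open scoped ComplexConjugate
open scoped Classical

/-- the permutation character on the points minus the principal character is irreducible -/
theorem exist_irr_char (m : ℕ) :
    IsIrrCharacter (SpecialLinearGroup (Fin (m + 3)) F)
      (indFun (slnP F m) (slnLam (1 : MulChar F ℂ)) - fun _ => 1) := by
  let _ : Fintype (MulChar F ℂ) := Fintype.ofFinite _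
  have := irr_finite (G := SpecialLinearGroup (Fin (m + 3)) F)
  let _ : Fintype (IrrCharacter (SpecialLinearGroup (Fin (m + 3)) F)) := Fintype.ofFinite _
  set H := stabilizer (SpecialLinearGroup (Fin (m + 3)) F) (slnE0 F m) with hH
  let Pc : MulChar F ℂ → (SpecialLinearGroup (Fin (m + 3)) F → ℂ) :=
    fun θ => indFun (slnP F m) (slnLam θ)
  have hPcchar : ∀ θ, IsCharacter (SpecialLinearGroup (Fin (m + 3)) F) (Pc θ) := fun θ =>
    isCharacter_indFun (slnP F m) _ (isCharacter_of_irr _ (isIrrCharacter_of_hom (slnLam θ)))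
  have hsum : ∀ g, ∑ θ, Pc θ g = indFun H (fun _ => 1) g := sln_sum_ind
  have hπ : indFun H (fun _ => 1) = ∑ θ, Pc θ := by
    funext g; rw [Finset.sum_apply]; exact (hsum g).symm
  choose c hc using fun θ θ' => classInner_char_char_nat (Pc θ) (Pc θ') (hPcchar θ) (hPcchar θ')
  obtain ⟨k, hk, hkq⟩ := sln_norm_le (F := F) (m := m)
  have htot : ∑ θ, ∑ θ', c θ θ' = k := by
    apply Nat.cast_injective (R := ℂ)
    rw [← hk, ← hH, hπ, classInner_finset_sum_left]
    push_cast
    refine Finset.sum_congr rfl fun θ _ => ?_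
    rw [classInner_finset_sum_right]
    exact Finset.sum_congr rfl fun θ' _ => (hc θ θ').symm
  have hG0 : (Nat.card (SpecialLinearGroup (Fin (m + 3)) F) : ℂ) ≠ 0 :=
    Nat.cast_ne_zero.mpr Nat.card_pos.ne'
  have hP0 : (Nat.card (slnP F m) : ℂ) ≠ 0 := Nat.cast_ne_zero.mpr Nat.card_pos.ne'
  have hPcne : ∀ θ, Pc θ ≠ 0 := by
    intro θ h
    have h1 := congrFun h 1
    simp only [Pc, Pi.zero_apply] at h1
    rw [slnInd_one] at h1
    exact div_ne_zero hG0 hP0 h1
  have hdiag : ∀ θ, 1 ≤ c θ θ := by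
    intro θ
    by_contra h
    have h0 : c θ θ = 0 := by omega
    apply hPcne θ
    apply classInner_self_eq_zero
    rw [hc, h0]; simp
  set χ₀ : IrrCharacter (SpecialLinearGroup (Fin (m + 3)) F) :=
    ⟨fun _ => 1, isIrrCharacter_one⟩ with hχ₀
  have hPc1eq : Pc 1 = indFun (slnP F m) (fun _ => 1) := by
    show indFun (slnP F m) (slnLam 1) = _
    congr 1
    funext p
    rw [slnLam_apply, MulChar.one_apply (isUnit_iff_ne_zero.mpr (slnP_entry_ne_zero p.1 p.2))]
  have hinner1 : classInner (Pc 1) (χ₀ : SpecialLinearGroup (Fin (m + 3)) F → ℂ) = 1 := by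
    rw [hPc1eq, frobenius (slnP F m) _ _ (isClassFunction_irr χ₀)]
    unfold classInner
    simp only [hχ₀, map_one, Finset.sum_const, Finset.card_univ, nsmul_eq_mul, mul_one]
    rw [Nat.card_eq_fintype_card, inv_mul_cancel₀]
    exact Nat.cast_ne_zero.mpr Fintype.card_pos.ne'
  set ρ : SpecialLinearGroup (Fin (m + 3)) F → ℂ :=
    Pc 1 - (χ₀ : SpecialLinearGroup (Fin (m + 3)) F → ℂ) with hρ
  have hρchar : IsCharacter (SpecialLinearGroup (Fin (m + 3)) F) ρ :=
    isCharacter_sub_irr _ (hPcchar 1) χ₀ (by rw [hinner1]; exact one_ne_zero)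
  have hinner1' : classInner (χ₀ : SpecialLinearGroup (Fin (m + 3)) F → ℂ) (Pc 1) = 1 := by
    rw [classInner_conj_symm, hinner1]; simp
  have hρnorm : classInner ρ ρ = (c 1 1 : ℂ) - 1 := by
    rw [hρ, classInner_sub_left, classInner_sub_right, classInner_sub_right, hc, hinner1,
      hinner1', classInner_irr, if_pos rfl]
    ring
  have hρne : ρ ≠ 0 := by
    intro h
    have h1 := congrFun h 1
    simp only [hρ, Pi.sub_apply, Pi.zero_apply, hχ₀, Pc] at h1
    rw [slnInd_one, sub_eq_zero, div_eq_one_iff_eq hP0] at h1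
    have h2 : Nat.card (SpecialLinearGroup (Fin (m + 3)) F) = Nat.card (slnP F m) :=
      Nat.cast_injective h1
    exact slnP_ne_top (Subgroup.eq_top_of_card_eq _ h2.symm)
  have h0 : 2 ≤ c 1 1 := by
    obtain ⟨kρ, hkρ⟩ := classInner_char_char_nat ρ ρ hρchar hρchar
    have hkρ0 : kρ ≠ 0 := by
      rintro rfl
      exact hρne (classInner_self_eq_zero _ (by rw [hkρ]; simp))
    have h1 : (kρ : ℂ) = (c 1 1 : ℂ) - 1 := by rw [← hkρ, hρnorm]
    have h2 : kρ + 1 = c 1 1 := by
      apply Nat.cast_injective (R := ℂ); push_cast; linear_combination h1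
    omega
  obtain ⟨r1, r2, r3⟩ := nat_matrix_rigid (1 : MulChar F ℂ) c (Fintype.card F)
    (by rw [card_mulChar]; have := Fintype.one_lt_card (α := F); omega) hdiag h0
    (by rw [htot]; exact hkq)
  exact isIrrCharacter_of_norm_one _ hρchar (by rw [hρnorm, r1]; norm_num)

/-- the index of the stabiliser of a point -/
theorem exist_index (m : ℕ) :
    (Nat.card (SpecialLinearGroup (Fin (m + 3)) F) : ℂ) / (Nat.card (slnP F m) : ℂ) =
      ((Fintype.card F : ℂ) ^ (m + 3) - 1) / ((Fintype.card F : ℂ) - 1) := by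
  have hq : 1 < Fintype.card F := Fintype.one_lt_card
  have hH0 : (Nat.card (stabilizer (SpecialLinearGroup (Fin (m + 3)) F) (slnE0 F m)) : ℂ) ≠ 0 :=
    Nat.cast_ne_zero.mpr Nat.card_pos.ne'
  have hq1 : ((Fintype.card F : ℂ) - 1) ≠ 0 := by
    have h1 : ((Fintype.card F - 1 : ℕ) : ℂ) ≠ 0 := Nat.cast_ne_zero.mpr (by omega)
    rwa [Nat.cast_sub hq.le, Nat.cast_one] at h1
  have horb : orbit (SpecialLinearGroup (Fin (m + 3)) F) (slnE0 F m) =
      ({0} : Set (Fin (m + 3) → F))ᶜ := by
    ext v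
    rw [mem_orbit_iff, Set.mem_compl_iff, Set.mem_singleton_iff]
    constructor
    · rintro ⟨g, rfl⟩
      exact sln_smul_ne_zero g _ slnE0_ne_zero
    · intro hv
      exact sln_exists_single v hv
  have hcardV : Nat.card (Fin (m + 3) → F) = Fintype.card F ^ (m + 3) := by
    rw [Nat.card_fun, Nat.card_eq_fintype_card, Nat.card_eq_fintype_card, Fintype.card_fin]
  have hG : Nat.card (SpecialLinearGroup (Fin (m + 3)) F) =
      (Fintype.card F ^ (m + 3) - 1) *
        Nat.card (stabilizer (SpecialLinearGroup (Fin (m + 3)) F) (slnE0 F m)) := by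
    rw [← Subgroup.index_mul_card (stabilizer (SpecialLinearGroup (Fin (m + 3)) F) (slnE0 F m)),
      index_stabilizer, horb, Set.ncard_compl, hcardV, Set.ncard_singleton]
  have hpow : 1 ≤ Fintype.card F ^ (m + 3) := Nat.one_le_pow _ _ (by omega)
  rw [hG, natCard_slnP]
  push_cast
  rw [Nat.cast_sub hpow, Nat.cast_sub hq.le]
  push_cast
  field_simp

end exist_aux

-- piece EXIST
theorem exists_irr_sl (m : ℕ) :
    ∃ ρ : Representation ℂ (Matrix.SpecialLinearGroup (Fin (m + 3)) F)
      (Fin ((Fintype.card F ^ (m + 3) - Fintype.card F) / (Fintype.card F - 1)) → ℂ),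
      ρ.IsIrreducible := by
  classical
  have hq : 1 < Fintype.card F := Fintype.one_lt_card
  obtain ⟨n, ρ, hirr, hchar⟩ := exist_irr_char (F := F) m
  have h1 : (n : ℂ) = ((Fintype.card F : ℂ) ^ (m + 3) - 1) / ((Fintype.card F : ℂ) - 1) - 1 := by
    have h2 := congrFun hchar 1
    rw [Representation.char_one, Module.finrank_fin_fun] at h2
    rw [h2, Pi.sub_apply, Cfsg.Agent.Lib.Helper46.slnInd_one, exist_index]
  have hq1 : ((Fintype.card F : ℂ) - 1) ≠ 0 := by
    have h3 : ((Fintype.card F - 1 : ℕ) : ℂ) ≠ 0 := Nat.cast_ne_zero.mpr (by omega)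
    rwa [Nat.cast_sub hq.le, Nat.cast_one] at h3
  have h2 : n * (Fintype.card F - 1) + Fintype.card F = Fintype.card F ^ (m + 3) := by
    apply Nat.cast_injective (R := ℂ)
    push_cast
    rw [Nat.cast_sub hq.le, h1]
    push_cast
    field_simp
    ring
  have hn : (Fintype.card F ^ (m + 3) - Fintype.card F) / (Fintype.card F - 1) = n := by
    apply Nat.div_eq_of_eq_mul_left (by omega)
    omega
  rw [hn]
  exact ⟨ρ, hirr⟩

end Cfsg.Agent.Lib.Helper18.SLM
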