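import Mathlib
import Cfsg.Agent.Lib.Helper18.SLMDefs

/-!
# Project SLM (helper18, S2332), piece IRRSUB (helper64)

The restriction of a representation to a minimal nonzero invariant submodule is irreducible.
-/

set_option autoImplicit false

namespace Cfsg.Agent.Lib.Helper18.SLM

open Matrix

universe u

variable {F : Type u} [Field F] [Fintype F]

-- piece IRRSUB
theorem irr_subRep {G : Type*} [Group G] {W : Type*} [AddCommGroup W] [Module ℂ W]
    (σ : Representation ℂ G W) (C : Submodule ℂ W) (hC : ∀ g, ∀ v ∈ C, σ g v ∈ C) (hne : C ≠ ⊥)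
    (hmin : ∀ C' : Submodule ℂ W, C' ≤ C → (∀ g, ∀ v ∈ C', σ g v ∈ C') → C' = ⊥ ∨ C' = C) :
    (subRep σ C hC).IsIrreducible := by
  have hnC : Nontrivial ↥C := (Submodule.nontrivial_iff_ne_bot).2 hne
  refine { exists_pair_ne := ?_, eq_bot_or_eq_top := ?_ }
  · refine ⟨⊥, ⊤, fun h => ?_⟩
    have h1 : (⊥ : Subrepresentation (subRep σ C hC)).toSubmodule =
        (⊤ : Subrepresentation (subRep σ C hC)).toSubmodule := by rw [h]
    exact bot_ne_top h1
  · intro S
    have hle : S.toSubmodule.map C.subtype ≤ C := by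
      rintro _ ⟨x, -, rfl⟩
      exact x.2
    have hinv : ∀ g, ∀ f ∈ S.toSubmodule.map C.subtype,
        σ g f ∈ S.toSubmodule.map C.subtype := by
      rintro g _ ⟨x, hx, rfl⟩
      exact ⟨subRep σ C hC g x, S.apply_mem_toSubmodule g hx, subRep_apply σ C hC g x⟩
    rcases hmin _ hle hinv with h | h
    · left
      apply Subrepresentation.toSubmodule_injective
      change S.toSubmodule = ⊥
      rw [eq_bot_iff]
      intro x hx
      have h1 : (x : W) ∈ S.toSubmodule.map C.subtype := ⟨x, hx, rfl⟩
      rw [h, Submodule.mem_bot] at h1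
      rw [Submodule.mem_bot]
      exact Subtype.ext h1
    · right
      apply Subrepresentation.toSubmodule_injective
      change S.toSubmodule = ⊤
      rw [eq_top_iff]
      intro x _
      have h1 : (x : W) ∈ S.toSubmodule.map C.subtype := by rw [h]; exact x.2
      obtain ⟨y, hy, hyx⟩ := h1
      have hyx' : y = x := Subtype.ext hyx
      rw [← hyx']
      exact hy

end Cfsg.Agent.Lib.Helper18.SLM
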