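import Mathlib
import Cfsg.Prelude.Def_CaseTheorems
import Cfsg.Agent.Lib.Helper40.Chief0
import Cfsg.Agent.Lib.Helper41.CritSub

/-!
# S1895 piece J3: exponent-`p` subgroups inside a group of `p`-rank at most 2
-/

namespace Cfsg.Agent.Lib.Helper64.Rank2

open Cfsg.Agent.Lib.Helper40.Chief
open scoped commutatorElement

variable {G : Type*} [Group G]

theorem closure_comm {S : Set G} (hS : ∀ a ∈ S, ∀ b ∈ S, a * b = b * a) :
    ∀ a ∈ Subgroup.closure S, ∀ b ∈ Subgroup.closure S, a * b = b * a := by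
  have h1 : Subgroup.closure S ≤ Subgroup.centralizer S := by
    rw [Subgroup.closure_le]
    intro a ha
    rw [SetLike.mem_coe, Subgroup.mem_centralizer_iff]
    intro b hb
    exact hS b hb a ha
  have h2 : Subgroup.closure S ≤ Subgroup.centralizer (Subgroup.closure S : Set G) := by
    rw [Subgroup.closure_le]
    intro a ha
    rw [SetLike.mem_coe, Subgroup.mem_centralizer_iff]
    intro b hb
    exact (Subgroup.mem_centralizer_iff.mp (h1 hb) a ha).symm
  intro a ha b hb
  exact Subgroup.mem_centralizer_iff.mp (h2 hb) a ha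

theorem closure_exp {S : Set G} (hS : ∀ a ∈ S, ∀ b ∈ S, a * b = b * a) {p : ℕ}
    (hp : ∀ a ∈ S, a ^ p = 1) : ∀ a ∈ Subgroup.closure S, a ^ p = 1 := by
  have hc := closure_comm hS
  intro a ha
  induction ha using Subgroup.closure_induction with
  | mem x hx => exact hp x hx
  | one => exact one_pow p
  | mul x y hx hy ihx ihy =>
    have hxy : Commute x y := hc x hx y hy
    rw [hxy.mul_pow, ihx, ihy, one_mul]
  | inv x hx ih => rw [inv_pow, ih, inv_one]

theorem card_lt_of_lt' [Finite G] {H K : Subgroup G} (h : H < K) : Nat.card H < Nat.card K := by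
  by_contra hcon
  push Not at hcon
  exact h.ne (Subgroup.eq_of_le_of_card_ge h.le hcon)

theorem card_pow_of_exp [Finite G] {p : ℕ} [Fact p.Prime] (H : Subgroup G)
    (h : ∀ d ∈ H, d ^ p = 1) : ∃ n, Nat.card H = p ^ n := by
  have hP : IsPGroup p H := by
    intro g
    refine ⟨1, ?_⟩
    rw [pow_one]
    exact Subtype.ext (by simpa using h g g.2)
  exact IsPGroup.iff_card.mp hP

/-- A nontrivial subgroup of exponent `p` has a nontrivial element commuting with all of it. -/
theorem exists_central_of_exp [Finite G] {p : ℕ} [Fact p.Prime] (D : Subgroup G)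
    (hDp : ∀ d ∈ D, d ^ p = 1) (hD : D ≠ ⊥) :
    ∃ z ∈ D, z ≠ 1 ∧ ∀ d ∈ D, z * d = d * z := by
  have hP : IsPGroup p D := by
    intro g
    refine ⟨1, ?_⟩
    rw [pow_one]
    exact Subtype.ext (by simpa using hDp g g.2)
  have hnt : Nontrivial D := (Subgroup.nontrivial_iff_ne_bot D).mpr hD
  have hcn : Nontrivial (Subgroup.center D) := hP.center_nontrivial
  obtain ⟨z, hz⟩ := exists_ne (1 : Subgroup.center D)
  refine ⟨((z : D) : G), (z : D).2, ?_, ?_⟩
  · intro h1
    apply hz
    apply Subtype.ext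
    apply Subtype.ext
    simpa using h1
  · intro d hd
    have h2 := Subgroup.mem_center_iff.mp z.2 ⟨d, hd⟩
    have h3 := congrArg (Subtype.val) h2
    simp only [Subgroup.coe_mul] at h3
    exact h3.symm

theorem rank_absorb [Finite G] {p : ℕ} [Fact p.Prime] (hr : Cfsg.PRankLE p 2 G) (A : Subgroup G)
    (hA : ∀ a ∈ A, ∀ b ∈ A, a * b = b * a) (hAp : ∀ a ∈ A, a ^ p = 1)
    (hcard : p ^ 2 ≤ Nat.card A) (x : G) (hx : x ^ p = 1) (hxA : ∀ a ∈ A, x * a = a * x) :
    x ∈ A := by
  have hS : ∀ a ∈ ((A : Set G) ∪ {x}), ∀ b ∈ ((A : Set G) ∪ {x}), a * b = b * a := by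
    intro a ha b hb
    rcases ha with ha | ha <;> rcases hb with hb | hb
    · exact hA a ha b hb
    · rw [Set.mem_singleton_iff] at hb; rw [hb]; exact (hxA a ha).symm
    · rw [Set.mem_singleton_iff] at ha; rw [ha]; exact hxA b hb
    · rw [Set.mem_singleton_iff] at ha hb; rw [ha, hb]
  have hSp : ∀ a ∈ ((A : Set G) ∪ {x}), a ^ p = 1 := by
    intro a ha
    rcases ha with ha | ha
    · exact hAp a ha
    · rw [Set.mem_singleton_iff] at ha; rw [ha]; exact hx
  have hBc := closure_comm hS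
  have hBp := closure_exp hS hSp
  have hAB : A ≤ Subgroup.closure ((A : Set G) ∪ {x}) := fun a ha =>
    Subgroup.subset_closure (Or.inl ha)
  have hinst : IsMulCommutative (Subgroup.closure ((A : Set G) ∪ {x})) :=
    ⟨⟨fun a b => Subtype.ext (hBc a a.2 b b.2)⟩⟩
  have hle := hr _ hinst hBp
  have heq : A = Subgroup.closure ((A : Set G) ∪ {x}) :=
    Subgroup.eq_of_le_of_card_ge hAB (hle.trans hcard)
  rw [heq]
  exact Subgroup.subset_closure (Or.inr rfl)

theorem exists_elemAb_sq [Finite G] {p : ℕ} [Fact p.Prime] (D : Subgroup G)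
    (hDp : ∀ d ∈ D, d ^ p = 1) (hD : D ≠ ⊥) :
    Nat.card D = p ∨
      ∃ A : Subgroup G, A ≤ D ∧ (∀ a ∈ A, ∀ b ∈ A, a * b = b * a) ∧ p ^ 2 ≤ Nat.card A := by
  have hp : p.Prime := Fact.out
  obtain ⟨z, hzD, hz1, hzc⟩ := exists_central_of_exp D hDp hD
  have hord : orderOf z = p := orderOf_eq_prime (hDp z hzD) hz1
  have hcz : Nat.card (Subgroup.zpowers z) = p := by rw [Nat.card_zpowers, hord]
  have hzle : Subgroup.zpowers z ≤ D := by
    rw [Subgroup.zpowers_le]; exact hzD
  by_cases hzeq : Subgroup.zpowers z = D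
  · left
    rw [← hzeq]; exact hcz
  · right
    have hlt : Subgroup.zpowers z < D := lt_of_le_of_ne hzle hzeq
    obtain ⟨a, haD, haz⟩ := SetLike.exists_of_lt hlt
    have hS : ∀ u ∈ ({z, a} : Set G), ∀ v ∈ ({z, a} : Set G), u * v = v * u := by
      intro u hu v hv
      rcases hu with hu | hu <;> rcases hv with hv | hv
      · rw [hu, hv]
      · rw [Set.mem_singleton_iff] at hv; rw [hu, hv]; exact hzc a haD
      · rw [Set.mem_singleton_iff] at hu; rw [hu, hv]; exact (hzc a haD).symm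
      · rw [Set.mem_singleton_iff] at hu hv; rw [hu, hv]
    have hAD : Subgroup.closure ({z, a} : Set G) ≤ D := by
      rw [Subgroup.closure_le]
      intro u hu
      rcases hu with hu | hu
      · rw [hu]; exact hzD
      · rw [Set.mem_singleton_iff] at hu; rw [hu]; exact haD
    refine ⟨Subgroup.closure ({z, a} : Set G), hAD, closure_comm hS, ?_⟩
    have hzA : Subgroup.zpowers z < Subgroup.closure ({z, a} : Set G) := by
      refine lt_of_le_of_ne ?_ ?_
      · rw [Subgroup.zpowers_le]; exact Subgroup.subset_closure (Or.inl rfl)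
      · intro h
        apply haz
        rw [h]
        exact Subgroup.subset_closure (Or.inr rfl)
    obtain ⟨n, hn⟩ := card_pow_of_exp (p := p) (Subgroup.closure ({z, a} : Set G))
      (fun d hd => hDp d (hAD hd))
    have h1 := card_lt_of_lt' hzA
    rw [hcz, hn] at h1
    rw [hn]
    have hn2 : 2 ≤ n := by
      by_contra hcon
      push Not at hcon
      have : p ^ n ≤ p ^ 1 := Nat.pow_le_pow_right hp.pos (by omega)
      rw [pow_one] at this
      omega
    exact Nat.pow_le_pow_right hp.pos hn2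

theorem nonab_card [Finite G] {p : ℕ} [Fact p.Prime] (hr : Cfsg.PRankLE p 2 G)
    (D : Subgroup G) (hDp : ∀ d ∈ D, d ^ p = 1)
    (hcl : ∀ x ∈ D, ∀ y ∈ D, ∀ z ∈ D, ⁅x, y⁆ * z = z * ⁅x, y⁆)
    (a b : G) (ha : a ∈ D) (hb : b ∈ D) (hab : a * b ≠ b * a) :
    Nat.card D = p ^ 3 ∧ Nat.card (D ⊓ Subgroup.centralizer (D : Set G) : Subgroup G) = p := by
  have hp : p.Prime := Fact.out
  set Z : Subgroup G := D ⊓ Subgroup.centralizer (D : Set G) with hZdef
  have hZD : Z ≤ D := inf_le_left
  have hZc : ∀ z ∈ Z, ∀ d ∈ D, z * d = d * z := by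
    intro z hz d hd
    exact (Subgroup.mem_centralizer_iff.mp (Subgroup.mem_inf.mp hz).2 d hd).symm
  have haZ : a ∉ Z := fun h => hab (hZc a h b hb)
  have hD : D ≠ ⊥ := by
    intro h
    rw [h, Subgroup.mem_bot] at ha hb
    apply hab
    rw [ha, hb]
  -- Z is nontrivial
  obtain ⟨z0, hz0D, hz01, hz0c⟩ := exists_central_of_exp D hDp hD
  have hz0Z : z0 ∈ Z := by
    refine Subgroup.mem_inf.mpr ⟨hz0D, ?_⟩
    rw [Subgroup.mem_centralizer_iff]
    intro d hd
    exact (hz0c d hd).symm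
  -- A0
  have hS : ∀ u ∈ ((Z : Set G) ∪ {a}), ∀ v ∈ ((Z : Set G) ∪ {a}), u * v = v * u := by
    intro u hu v hv
    rcases hu with hu | hu <;> rcases hv with hv | hv
    · exact hZc u hu v (hZD hv)
    · rw [Set.mem_singleton_iff] at hv; rw [hv]; exact hZc u hu a ha
    · rw [Set.mem_singleton_iff] at hu; rw [hu]; exact (hZc v hv a ha).symm
    · rw [Set.mem_singleton_iff] at hu hv; rw [hu, hv]
  have hSD : ((Z : Set G) ∪ {a}) ⊆ (D : Set G) := by
    intro u hu
    rcases hu with hu | hu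
    · exact hZD hu
    · rw [Set.mem_singleton_iff] at hu; rw [hu]; exact ha
  set A0 : Subgroup G := Subgroup.closure ((Z : Set G) ∪ {a}) with hA0def
  have hA0D : A0 ≤ D := (Subgroup.closure_le D).mpr hSD
  have hA0c : ∀ u ∈ A0, ∀ v ∈ A0, u * v = v * u := closure_comm hS
  have hA0p : ∀ u ∈ A0, u ^ p = 1 := fun u hu => hDp u (hA0D hu)
  have haA0 : a ∈ A0 := Subgroup.subset_closure (Or.inr rfl)
  have hZA0 : Z < A0 := by
    refine lt_of_le_of_ne (fun u hu => Subgroup.subset_closure (Or.inl hu)) ?_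
    intro h
    apply haZ
    rw [h]; exact haA0
  have hinst : IsMulCommutative A0 := ⟨⟨fun u v => Subtype.ext (hA0c u u.2 v v.2)⟩⟩
  have hA0le : Nat.card A0 ≤ p ^ 2 := hr A0 hinst hA0p
  obtain ⟨i, hi⟩ := card_pow_of_exp (p := p) Z (fun d hd => hDp d (hZD hd))
  obtain ⟨j, hj⟩ := card_pow_of_exp (p := p) A0 hA0p
  obtain ⟨k, hk⟩ := card_pow_of_exp (p := p) D hDp
  have hi1 : 1 ≤ i := by
    by_contra hcon
    have hi0 : i = 0 := by omega
    rw [hi0, pow_zero] at hi
    have := (Subgroup.card_eq_one.mp hi)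
    rw [this, Subgroup.mem_bot] at hz0Z
    exact hz01 hz0Z
  have hij : i < j := by
    have h1 := card_lt_of_lt' hZA0
    rw [hi, hj] at h1
    exact (Nat.pow_lt_pow_iff_right hp.one_lt).mp h1
  have hj2 : j ≤ 2 := by
    rw [hj] at hA0le
    exact (Nat.pow_le_pow_iff_right hp.one_lt).mp hA0le
  have hi' : i = 1 := by omega
  have hj' : j = 2 := by omega
  rw [hi', pow_one] at hi
  rw [hj'] at hj
  -- centralizer of a in D is A0
  have hcent : Subgroup.centralizer ({a} : Set G) ⊓ D = A0 := by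
    apply le_antisymm
    · intro x hx
      obtain ⟨hx1, hx2⟩ := Subgroup.mem_inf.mp hx
      have hxa : x * a = a * x := by
        have := Subgroup.mem_centralizer_iff.mp hx1 a rfl
        exact this.symm
      have hxS : ∀ u ∈ ((Z : Set G) ∪ {a}), u * x = x * u := by
        intro u hu
        rcases hu with hu | hu
        · exact hZc u hu x hx2
        · rw [Set.mem_singleton_iff] at hu; rw [hu]; exact hxa.symm
      have hxA0 : ∀ u ∈ A0, x * u = u * x := by
        have hle : A0 ≤ Subgroup.centralizer ({x} : Set G) := by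
          rw [hA0def, Subgroup.closure_le]
          intro u hu
          rw [SetLike.mem_coe, Subgroup.mem_centralizer_iff]
          intro y hy
          rw [Set.mem_singleton_iff] at hy
          rw [hy]
          exact (hxS u hu).symm
        intro u hu
        exact Subgroup.mem_centralizer_iff.mp (hle hu) x rfl
      exact rank_absorb hr A0 hA0c hA0p (le_of_eq hj.symm) x (hDp x hx2) hxA0
    · intro x hx
      refine Subgroup.mem_inf.mpr ⟨?_, hA0D hx⟩
      rw [Subgroup.mem_centralizer_iff]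
      intro y hy
      rw [Set.mem_singleton_iff] at hy
      rw [hy]
      exact hA0c a haA0 x hx
  -- fiber lemma
  have hcomm_mem : ∀ g ∈ D, ⁅g, a⁆ ∈ Z := by
    intro g hg
    have h1 : ⁅g, a⁆ ∈ D := by
      rw [commutatorElement_def]
      exact D.mul_mem (D.mul_mem (D.mul_mem hg ha) (D.inv_mem hg)) (D.inv_mem ha)
    refine Subgroup.mem_inf.mpr ⟨h1, ?_⟩
    rw [Subgroup.mem_centralizer_iff]
    intro d hd
    exact (hcl g hg a ha d hd).symm
  have hfib : (Subgroup.centralizer ({a} : Set G)).relIndex D ≤ Nat.card Z := by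
    classical
    refine relIndex_le_card_of_fiber (Subgroup.centralizer ({a} : Set G)) D
      (fun g => if h : g ∈ D then (⟨⁅g, a⁆, hcomm_mem g h⟩ : Z) else 1) ?_
    intro g hg h hh hfg
    simp only [dif_pos hg, dif_pos hh] at hfg
    have h1 : ⁅g, a⁆ = ⁅h, a⁆ := congrArg Subtype.val hfg
    rw [commutatorElement_def, commutatorElement_def] at h1
    have h2 : g * a * g⁻¹ = h * a * h⁻¹ := mul_right_cancel h1
    rw [Subgroup.mem_centralizer_iff]
    intro y hy
    rw [Set.mem_singleton_iff] at hy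
    rw [hy]
    have h3 : a = g⁻¹ * (h * a * h⁻¹) * g := by
      rw [← h2]; group
    calc a * (g⁻¹ * h) = (g⁻¹ * (h * a * h⁻¹) * g) * (g⁻¹ * h) := by rw [← h3]
      _ = g⁻¹ * h * a := by group
  rw [hi] at hfib
  have hmul : (Subgroup.centralizer ({a} : Set G)).relIndex D
      * Nat.card (Subgroup.centralizer ({a} : Set G) ⊓ D : Subgroup G) = Nat.card D := by
    have := Subgroup.relIndex_mul_relIndex (⊥ : Subgroup G)
      (Subgroup.centralizer ({a} : Set G) ⊓ D) D bot_le inf_le_right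
    rw [Subgroup.relIndex_bot_left, Subgroup.relIndex_bot_left,
      Subgroup.inf_relIndex_right] at this
    rw [mul_comm]; exact this
  rw [hcent, hj] at hmul
  have hDle : Nat.card D ≤ p ^ 3 := by
    rw [← hmul]
    calc (Subgroup.centralizer ({a} : Set G)).relIndex D * p ^ 2 ≤ p * p ^ 2 :=
          Nat.mul_le_mul_right _ hfib
      _ = p ^ 3 := by ring
  have hA0lt : A0 < D := by
    refine lt_of_le_of_ne hA0D ?_
    intro h
    have hbA0 : b ∈ A0 := by rw [h]; exact hb
    exact hab (hA0c a haA0 b hbA0)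
  have hk3 : 3 ≤ k := by
    have h1 := card_lt_of_lt' hA0lt
    rw [hj, hk] at h1
    have := (Nat.pow_lt_pow_iff_right hp.one_lt).mp h1
    omega
  refine ⟨le_antisymm hDle ?_, hi⟩
  rw [hk]
  exact Nat.pow_le_pow_right hp.pos hk3

theorem nonab_structure [Finite G] {p : ℕ} [Fact p.Prime] (hr : Cfsg.PRankLE p 2 G)
    (D : Subgroup G) (hDp : ∀ d ∈ D, d ^ p = 1)
    (hcl : ∀ x ∈ D, ∀ y ∈ D, ∀ z ∈ D, ⁅x, y⁆ * z = z * ⁅x, y⁆)
    (a b : G) (ha : a ∈ D) (hb : b ∈ D) (hab : a * b ≠ b * a) :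
    Nat.card D = p ^ 3 ∧ Nat.card (D ⊓ Subgroup.centralizer (D : Set G) : Subgroup G) = p ∧
      Subgroup.closure {a, b} = D := by
  obtain ⟨h1, h2⟩ := nonab_card hr D hDp hcl a b ha hb hab
  refine ⟨h1, h2, ?_⟩
  have hED : Subgroup.closure ({a, b} : Set G) ≤ D := by
    rw [Subgroup.closure_le]
    intro u hu
    rcases hu with hu | hu
    · rw [hu]; exact ha
    · rw [Set.mem_singleton_iff] at hu; rw [hu]; exact hb
  obtain ⟨h3, -⟩ := nonab_card hr (Subgroup.closure ({a, b} : Set G))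
    (fun d hd => hDp d (hED hd))
    (fun x hx y hy z hz => hcl x (hED hx) y (hED hy) z (hED hz)) a b
    (Subgroup.subset_closure (Or.inl rfl)) (Subgroup.subset_closure (Or.inr rfl)) hab
  exact Subgroup.eq_of_le_of_card_ge hED (by rw [h1, h3])

end Cfsg.Agent.Lib.Helper64.Rank2
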