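import Cfsg.Agent.Lib.Helper46.BSW0
import Cfsg.Agent.Lib.Helper90.BSWAB

/-!
# S3282 (Brauer–Suzuki–Wall), piece DEG: signs and degrees (`degs_of_shape`)
-/

set_option autoImplicit false

namespace Cfsg.Agent.Lib.Helper64.BSWDEG

theorem deg_arith (D d z₁ z₂ n k δ ε e₁ e₂ : ℤ)
    (hD : 0 < D) (hd : 0 < d) (hz₁ : 0 < z₁) (hz₂ : 0 < z₂) (hn : 0 < n) (hk : 0 < k)
    (hδ : δ = 1 ∨ δ = -1) (hε : ε = 1 ∨ ε = -1) (he₁ : e₁ = 1 ∨ e₁ = -1)
    (he₂ : e₂ = 1 ∨ e₂ = -1)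
    (E1 : 1 + δ * D - ε * d = 0)
    (E2 : 1 + δ * D + e₁ * z₁ + e₂ * z₂ = 0)
    (E3 : n * (D * d + δ * d - 4 * ε * D) = 2 * k ^ 2 * D * d)
    (E4 : n * (D * z₁ * z₂ + δ * z₁ * z₂ + e₁ * D * z₂ + e₂ * D * z₁)
      = 2 * k ^ 2 * D * z₁ * z₂)
    (hcop : IsCoprime n (2 * k)) :
    ε = δ ∧ e₁ = -δ ∧ e₂ = -δ ∧ D = 2 * k + δ ∧ d = 2 * k + 2 * δ ∧ z₁ = k + δ ∧ z₂ = k + δ ∧
      n = (2 * k + δ) * (k + δ) := by
  have hδ2 : δ * δ = 1 := by rcases hδ with rfl | rfl <;> norm_num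
  have h1 : ε = δ ∧ d = D + δ := by
    rcases hδ with rfl | rfl <;> rcases hε with rfl | rfl
    · exact ⟨rfl, by linarith⟩
    · exfalso; linarith
    · exfalso; linarith
    · exact ⟨rfl, by linarith⟩
  obtain ⟨hεδ, hdD⟩ := h1
  subst hεδ
  have hA : n * (D - ε) ^ 2 = 2 * k ^ 2 * (D * (D + ε)) := by
    have h0 : D * d + ε * d - 4 * ε * D = (D - ε) ^ 2 := by rw [hdD]; ring
    rw [← h0, E3, hdD]; ring
  have hB : 4 * ε * z₁ * z₂ + d * (e₁ * z₂ + e₂ * z₁) = 0 := by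
    have h2 : n * D * (4 * ε * z₁ * z₂ + d * (e₁ * z₂ + e₂ * z₁)) = 0 := by
      subst hdD
      linear_combination (D + ε) * E4 - z₁ * z₂ * hA
    have h3 : n * D ≠ 0 := (mul_pos hn hD).ne'
    exact (mul_eq_zero.mp h2).resolve_left h3
  have hC : e₁ * z₁ + e₂ * z₂ = -ε * d := by
    rw [hdD]; linear_combination E2 + hδ2
  have h4 : e₁ = -ε ∧ e₂ = -ε ∧ z₁ + z₂ = d ∧ z₁ = z₂ := by
    rcases hδ with rfl | rfl <;> rcases he₁ with rfl | rfl <;> rcases he₂ with rfl | rfl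
    · exfalso; linarith
    · exfalso
      have hz : z₂ = z₁ + d := by linarith
      subst hz
      nlinarith [mul_pos hz₁ hd, mul_pos hz₁ hz₁, mul_pos hd hd]
    · exfalso
      have hz : z₁ = z₂ + d := by linarith
      subst hz
      nlinarith [mul_pos hz₂ hd, mul_pos hz₂ hz₂, mul_pos hd hd]
    · refine ⟨rfl, rfl, by linarith, ?_⟩
      have hz : d = z₁ + z₂ := by linarith
      subst hz
      have h5 : (z₁ - z₂) ^ 2 = 0 := by nlinarith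
      have h6 := pow_eq_zero_iff (two_ne_zero) |>.mp h5
      linarith
    · refine ⟨rfl, rfl, by linarith, ?_⟩
      have hz : d = z₁ + z₂ := by linarith
      subst hz
      have h5 : (z₁ - z₂) ^ 2 = 0 := by nlinarith
      have h6 := pow_eq_zero_iff (two_ne_zero) |>.mp h5
      linarith
    · exfalso
      have hz : z₁ = z₂ + d := by linarith
      subst hz
      nlinarith [mul_pos hz₂ hd, mul_pos hz₂ hz₂, mul_pos hd hd]
    · exfalso
      have hz : z₂ = z₁ + d := by linarith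
      subst hz
      nlinarith [mul_pos hz₁ hd, mul_pos hz₁ hz₁, mul_pos hd hd]
    · exfalso; linarith
  obtain ⟨he1, he2, hzd, hzz⟩ := h4
  have hcop2 : IsCoprime n (2 * k ^ 2) := by
    have h2 : IsCoprime n 2 := IsCoprime.of_mul_right_left hcop
    have hk' : IsCoprime n k := IsCoprime.of_mul_right_right hcop
    exact h2.mul_right hk'.pow_right
  have hdvd : n ∣ D * (D + ε) := by
    have : n ∣ 2 * k ^ 2 * (D * (D + ε)) := ⟨(D - ε) ^ 2, hA.symm⟩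
    exact hcop2.dvd_of_dvd_mul_left this
  obtain ⟨j, hj⟩ := hdvd
  have hsq : (D - ε) ^ 2 = 2 * k ^ 2 * j := by
    have : n * (D - ε) ^ 2 = n * (2 * k ^ 2 * j) := by rw [hA, hj]; ring
    exact mul_left_cancel₀ hn.ne' this
  have hkd : k ∣ D - ε := by
    have : k ^ 2 ∣ (D - ε) ^ 2 := ⟨2 * j, by rw [hsq]; ring⟩
    exact (Int.pow_dvd_pow_iff two_ne_zero).mp this
  obtain ⟨m, hm⟩ := hkd
  have hm2 : m ^ 2 = 2 * j := by
    have : k ^ 2 * m ^ 2 = k ^ 2 * (2 * j) := by rw [← mul_pow, ← hm, hsq]; ring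
    exact mul_left_cancel₀ (pow_ne_zero 2 hk.ne') this
  have h2m : (2 : ℤ) ∣ m := by
    have : (2 : ℤ) ∣ m ^ 2 := ⟨j, hm2⟩
    exact Int.prime_two.dvd_of_dvd_pow this
  obtain ⟨r, hr⟩ := h2m
  have hjr : j = 2 * r ^ 2 := by
    rw [hr] at hm2
    have h4r : (2 * r) ^ 2 = 4 * r ^ 2 := by ring
    linarith
  have hDr : D = 2 * r * k + ε := by
    rw [hr] at hm; linarith
  have hnr : n * r ^ 2 = (2 * r * k + ε) * (r * k + ε) := by
    rw [hjr, hDr] at hj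
    have : 2 * (n * r ^ 2) = 2 * ((2 * r * k + ε) * (r * k + ε)) := by
      linear_combination (-1 : ℤ) * hj
    linarith
  have hr_pos : 0 < r := by
    have h1 : 0 < D - ε := by
      rcases hδ with rfl | rfl
      · by_contra hcon
        have hD1 : D = 1 := by linarith
        rw [hD1] at hsq hj
        have hj0 : j = 0 := by
          have h0 : 2 * k ^ 2 * j = 0 := by rw [← hsq]; norm_num
          rcases mul_eq_zero.mp h0 with h | h
          · exfalso; have := pow_pos hk 2; linarith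
          · exact h
        rw [hj0] at hj; norm_num at hj
      · linarith
    rw [hm, hr] at h1
    by_contra hcon
    push Not at hcon
    nlinarith
  have hc1 : IsCoprime r (2 * r * k + ε) := ⟨-2 * k * ε, ε, by linear_combination hδ2⟩
  have hc2 : IsCoprime r (r * k + ε) := ⟨-k * ε, ε, by linear_combination hδ2⟩
  have hrd : r ∣ (2 * r * k + ε) * (r * k + ε) := ⟨n * r, by rw [← hnr]; ring⟩
  have hrd2 : r ∣ r * k + ε := hc1.dvd_of_dvd_mul_left hrd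
  have hru : IsUnit r := hc2.isUnit_of_dvd' (dvd_refl r) hrd2
  have hr1 : r = 1 := by
    rcases Int.isUnit_iff.mp hru with h | h
    · exact h
    · exfalso; linarith
  subst hr1
  have hDfin : D = 2 * k + ε := by linarith
  have hnfin : n = (2 * k + ε) * (k + ε) := by
    have : n * 1 ^ 2 = (2 * 1 * k + ε) * (1 * k + ε) := hnr
    linear_combination this
  refine ⟨rfl, he1, he2, hDfin, by linarith, by linarith, by linarith, hnfin⟩

end Cfsg.Agent.Lib.Helper64.BSWDEG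

namespace Cfsg.Agent.Lib.Helper46.BSW

open Cfsg Cfsg.Agent.Lib.Helper4
open scoped ComplexConjugate

universe u

variable {G : Type u} [Group G]

theorem degs_of_shape [Fintype G] [Fintype (IrrCharacter G)] {t s : G} {K : Subgroup G}
    (h : Setup t s K) [Fintype (IrrCharacter K)] (hk : 4 ≤ Nat.card K)
    (c : IrrCharacter K → IrrCharacter G → ℤ)
    (hc : IndData K c) (l₀ : IrrCharacter K) (hl₀ : l₀ ≠ trivIrr) (hl₀r : cbar l₀ = l₀)
    (hreal : ∀ l : IrrCharacter K, cbar l = l → l = trivIrr ∨ l = l₀)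
    (hsc : ∀ l : IrrCharacter K, l ≠ trivIrr →
      (∑ χ : IrrCharacter G, (χ : G → ℂ) t ^ 2 * (c l χ : ℂ) / (χ : G → ℂ) 1) *
        ((Subgroup.centralizer ({t} : Set G)).index : ℂ) = 2 * (Nat.card K : ℂ) ^ 2)
    (hhall : Nat.Coprime (Subgroup.centralizer ({t} : Set G)).index (2 * Nat.card K))
    (δ ε e₁ e₂ : ℤ) (Δ Z₁ Z₂ : IrrCharacter G) (Θ : IrrCharacter K → IrrCharacter G)
    (hS : Shape c trivIrr trivIrr l₀ cbar δ ε e₁ e₂ Δ Z₁ Z₂ Θ) :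
    Degs t K l₀ δ ε e₁ e₂ Δ Z₁ Z₂ Θ := by
  classical
  have ht2 : t * t = 1 := by
    have := pow_orderOf_eq_one t
    rw [h.ht, pow_two] at this; exact this
  have ht1 : t ≠ 1 := by
    intro h1; have := h.ht; rw [h1, orderOf_one] at this; norm_num at this
  have hKab' : ∀ a b : K, a * b = b * a := fun a b => Subtype.ext (h.hKab a a.2 b b.2)
  have htK1 : (⟨t, h.htK⟩ : K) ≠ 1 := fun h1 => ht1 (congrArg Subtype.val h1)
  have htK2 : (⟨t, h.htK⟩ : K) * ⟨t, h.htK⟩ = 1 := Subtype.ext ht2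
  have hτ : ∀ l : IrrCharacter K, (l : K → ℂ) ⟨t, h.htK⟩ = 1 ∨ (l : K → ℂ) ⟨t, h.htK⟩ = -1 :=
    fun l => ab_sq hKab' l _ htK2
  have hτsq : ∀ l : IrrCharacter K, (l : K → ℂ) ⟨t, h.htK⟩ ^ 2 = 1 := by
    intro l; rcases hτ l with h1 | h1 <;> rw [h1] <;> norm_num
  have hτsum : ∑ l : IrrCharacter K, (l : K → ℂ) ⟨t, h.htK⟩ = 0 := ab_sum hKab' _ htK1
  have hτbar : ∀ l : IrrCharacter K,
      (cbar l : K → ℂ) ⟨t, h.htK⟩ = (l : K → ℂ) ⟨t, h.htK⟩ := by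
    intro l; rw [cbar_apply]; rcases hτ l with h1 | h1 <;> rw [h1] <;> simp
  -- row sums
  have hrow : ∀ l : IrrCharacter K, l ≠ trivIrr → l ≠ l₀ → ∀ F : IrrCharacter G → ℂ,
      ∑ χ, (c l χ : ℂ) * F χ = F trivIrr + (δ : ℂ) * F Δ - (ε : ℂ) * F (Θ l) := by
    intro l hl hl0 F
    simp only [hS.row l hl hl0]
    push_cast
    simp [add_mul, sub_mul, Finset.sum_add_distrib, Finset.sum_sub_distrib]
  have hrow0 : ∀ F : IrrCharacter G → ℂ,
      ∑ χ, (c l₀ χ : ℂ) * F χ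
        = F trivIrr + (δ : ℂ) * F Δ + (e₁ : ℂ) * F Z₁ + (e₂ : ℂ) * F Z₂ := by
    intro F
    simp only [hS.row₀]
    push_cast
    simp [add_mul, Finset.sum_add_distrib]
  -- degrees
  obtain ⟨Dn, hDn0, hDn⟩ := irr_one_nat Δ
  obtain ⟨z1n, hz1n0, hz1n⟩ := irr_one_nat Z₁
  obtain ⟨z2n, hz2n0, hz2n⟩ := irr_one_nat Z₂
  have hdn : ∀ l : IrrCharacter K, ∃ n : ℕ, 0 < n ∧ (Θ l : G → ℂ) 1 = (n : ℂ) :=
    fun l => irr_one_nat (Θ l)
  choose dn hdn0 hdn1 using hdn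
  have htriv1 : ((trivIrr : IrrCharacter G) : G → ℂ) 1 = 1 := rfl
  have htrivt : ((trivIrr : IrrCharacter G) : G → ℂ) t = 1 := rfl
  have htrivK : ((trivIrr : IrrCharacter K) : K → ℂ) ⟨t, h.htK⟩ = 1 := rfl
  have hδ2 : (δ : ℂ) ^ 2 = 1 := by rcases hS.hδ with h1 | h1 <;> rw [h1] <;> norm_num
  have hε2 : (ε : ℂ) ^ 2 = 1 := by rcases hS.hε with h1 | h1 <;> rw [h1] <;> norm_num
  have he₁2 : (e₁ : ℂ) ^ 2 = 1 := by rcases hS.he₁ with h1 | h1 <;> rw [h1] <;> norm_num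
  have he₂2 : (e₂ : ℂ) ^ 2 = 1 := by rcases hS.he₂ with h1 | h1 <;> rw [h1] <;> norm_num
  -- the column of Δ
  have hcolΔ : ∀ l : IrrCharacter K, l ≠ trivIrr → c l Δ = δ := by
    intro l hl
    by_cases hl0 : l = l₀
    · rw [hl0, hS.row₀]
      simp [hS.hΔ, hS.hZ₁.2.symm, hS.hZ₂.2.1.symm]
    · rw [hS.row l hl hl0]
      simp [hS.hΔ, (hS.hΘ l hl hl0).2.1.symm]
  have hΔt : (Δ : G → ℂ) t = (δ : ℂ) := by
    have h1 := hc.fourier Δ ⟨t, h.htK⟩ htK1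
    have h2 : ∑ l : IrrCharacter K, (c l Δ : ℂ) * (l : K → ℂ) ⟨t, h.htK⟩ = -(δ : ℂ) := by
      have h3 : ∀ l : IrrCharacter K, (c l Δ : ℂ) * (l : K → ℂ) ⟨t, h.htK⟩
          = (δ : ℂ) * (l : K → ℂ) ⟨t, h.htK⟩ - (if l = trivIrr then (δ : ℂ) else 0) := by
        intro l
        by_cases hl : l = trivIrr
        · rw [hl, hc.triv_row, if_pos rfl, htrivK]; simp
        · rw [hcolΔ l hl, if_neg hl, sub_zero]
      rw [Finset.sum_congr rfl (fun l _ => h3 l), Finset.sum_sub_distrib, ← Finset.mul_sum,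
        hτsum]
      simp
    rw [h2] at h1
    simpa using h1
  have hbar_ne : ∀ l : IrrCharacter K, l ≠ trivIrr → l ≠ l₀ →
      cbar l ≠ l ∧ cbar l ≠ trivIrr ∧ cbar l ≠ l₀ := by
    intro l hl hl0
    refine ⟨fun hcon => ?_, fun hcon => ?_, fun hcon => ?_⟩
    · rcases hreal l hcon with h1 | h1
      · exact hl h1
      · exact hl0 h1
    · apply hl; rw [← cbar_cbar l, hcon, cbar_triv]
    · apply hl0; rw [← cbar_cbar l, hcon, hl₀r]
  -- Θ_l(t)² = 4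
  have hΘt : ∀ l : IrrCharacter K, l ≠ trivIrr → l ≠ l₀ → (Θ l : G → ℂ) t ^ 2 = 4 := by
    intro l hl hl0
    obtain ⟨hb1, hb2, hb3⟩ := hbar_ne l hl hl0
    obtain ⟨g1, g2, g3, g4⟩ := hS.hΘ l hl hl0
    have h1 := hc.fourier (Θ l) ⟨t, h.htK⟩ htK1
    have hcol : ∀ l' : IrrCharacter K, c l' (Θ l)
        = (if l' = l then -ε else 0) + (if l' = cbar l then -ε else 0) := by
      intro l'
      by_cases hl't : l' = trivIrr
      · rw [hl't, hc.triv_row, if_neg (Ne.symm hl), if_neg (Ne.symm hb2)]; simp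
      · by_cases hl'0 : l' = l₀
        · rw [hl'0, hS.row₀, if_neg (Ne.symm hl0), if_neg (Ne.symm hb3)]
          simp [g1, g2, g3, g4]
        · rw [hS.row l' hl't hl'0, if_neg g1, if_neg g2]
          have hiff := hS.hΘeq l l' hl hl0 hl't hl'0
          by_cases hΘΘ : Θ l = Θ l'
          · rw [if_pos hΘΘ]
            rcases hiff.mp hΘΘ with h5 | h5
            · rw [if_pos h5, if_neg (fun hh => hb1 (hh.symm.trans h5))]; ring
            · rw [if_neg (fun hh => hb1 (h5.symm.trans hh)), if_pos h5]; ring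
          · have hnot : ¬ (l' = l ∨ l' = cbar l) := fun hh => hΘΘ (hiff.mpr hh)
            push Not at hnot
            rw [if_neg hΘΘ, if_neg hnot.1, if_neg hnot.2]; ring
    have h2 : ∑ l' : IrrCharacter K, (c l' (Θ l) : ℂ) * (l' : K → ℂ) ⟨t, h.htK⟩
        = -(ε : ℂ) * (l : K → ℂ) ⟨t, h.htK⟩ + -(ε : ℂ) * (cbar l : K → ℂ) ⟨t, h.htK⟩ := by
      simp only [hcol]
      push_cast
      simp [add_mul, Finset.sum_add_distrib]
    rw [h2, hτbar] at h1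
    have h3 : (Θ l : G → ℂ) t = 2 * (ε : ℂ) * (l : K → ℂ) ⟨t, h.htK⟩ := by
      have : (Θ l : G → ℂ) ((⟨t, h.htK⟩ : K) : G) = (Θ l : G → ℂ) t := rfl
      rw [← this, h1]; ring
    rw [h3, mul_pow, mul_pow, hε2, hτsq]; norm_num
  -- Z₁(t)² = 1, Z₂(t)² = 1
  have hZ1t : (Z₁ : G → ℂ) t ^ 2 = 1 := by
    have h1 := hc.fourier Z₁ ⟨t, h.htK⟩ htK1
    have hcol : ∀ l' : IrrCharacter K, c l' Z₁ = (if l' = l₀ then e₁ else 0) := by
      intro l'
      by_cases hl't : l' = trivIrr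
      · rw [hl't, hc.triv_row, if_neg (Ne.symm hl₀)]
      · by_cases hl'0 : l' = l₀
        · rw [hl'0, hS.row₀, if_pos rfl]
          simp [hS.hZ₁.1, hS.hZ₁.2, hS.hZ₂.2.2.symm]
        · rw [hS.row l' hl't hl'0, if_neg hl'0]
          simp [hS.hZ₁.1, hS.hZ₁.2, (hS.hΘ l' hl't hl'0).2.2.1.symm]
    have h2 : ∑ l' : IrrCharacter K, (c l' Z₁ : ℂ) * (l' : K → ℂ) ⟨t, h.htK⟩
        = (e₁ : ℂ) * (l₀ : K → ℂ) ⟨t, h.htK⟩ := by
      simp only [hcol]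
      push_cast
      simp
    rw [h2] at h1
    have h3 : (Z₁ : G → ℂ) t = -((e₁ : ℂ) * (l₀ : K → ℂ) ⟨t, h.htK⟩) := h1
    rw [h3, neg_pow, mul_pow, he₁2, hτsq]; norm_num
  have hZ2t : (Z₂ : G → ℂ) t ^ 2 = 1 := by
    have h1 := hc.fourier Z₂ ⟨t, h.htK⟩ htK1
    have hcol : ∀ l' : IrrCharacter K, c l' Z₂ = (if l' = l₀ then e₂ else 0) := by
      intro l'
      by_cases hl't : l' = trivIrr
      · rw [hl't, hc.triv_row, if_neg (Ne.symm hl₀)]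
      · by_cases hl'0 : l' = l₀
        · rw [hl'0, hS.row₀, if_pos rfl]
          simp [hS.hZ₂.1, hS.hZ₂.2.1, hS.hZ₂.2.2]
        · rw [hS.row l' hl't hl'0, if_neg hl'0]
          simp [hS.hZ₂.1, hS.hZ₂.2.1, (hS.hΘ l' hl't hl'0).2.2.2.symm]
    have h2 : ∑ l' : IrrCharacter K, (c l' Z₂ : ℂ) * (l' : K → ℂ) ⟨t, h.htK⟩
        = (e₂ : ℂ) * (l₀ : K → ℂ) ⟨t, h.htK⟩ := by
      simp only [hcol]
      push_cast
      simp
    rw [h2] at h1
    have h3 : (Z₂ : G → ℂ) t = -((e₂ : ℂ) * (l₀ : K → ℂ) ⟨t, h.htK⟩) := h1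
    rw [h3, neg_pow, mul_pow, he₂2, hτsq]; norm_num
  -- the equations
  have hDne : (Dn : ℂ) ≠ 0 := by exact_mod_cast hDn0.ne'
  have hz1ne : (z1n : ℂ) ≠ 0 := by exact_mod_cast hz1n0.ne'
  have hz2ne : (z2n : ℂ) ≠ 0 := by exact_mod_cast hz2n0.ne'
  have hE1 : ∀ l : IrrCharacter K, l ≠ trivIrr → l ≠ l₀ →
      (1 : ℤ) + δ * (Dn : ℤ) - ε * (dn l : ℤ) = 0 := by
    intro l hl hl0
    have h1 := hc.vanish l 1 (Or.inl rfl)
    rw [hrow l hl hl0 (fun χ => (χ : G → ℂ) 1), htriv1, hDn, hdn1 l] at h1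
    exact_mod_cast h1
  have hE2 : (1 : ℤ) + δ * (Dn : ℤ) + e₁ * (z1n : ℤ) + e₂ * (z2n : ℤ) = 0 := by
    have h1 := hc.vanish l₀ 1 (Or.inl rfl)
    rw [hrow0 (fun χ => (χ : G → ℂ) 1), htriv1, hDn, hz1n, hz2n] at h1
    exact_mod_cast h1
  have hsum_eq : ∀ l : IrrCharacter K,
      ∑ χ : IrrCharacter G, (χ : G → ℂ) t ^ 2 * (c l χ : ℂ) / (χ : G → ℂ) 1
        = ∑ χ : IrrCharacter G, (c l χ : ℂ) * ((χ : G → ℂ) t ^ 2 / (χ : G → ℂ) 1) := by
    intro l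
    refine Finset.sum_congr rfl (fun χ _ => ?_)
    ring
  have hE3 : ∀ l : IrrCharacter K, l ≠ trivIrr → l ≠ l₀ →
      ((Subgroup.centralizer ({t} : Set G)).index : ℤ)
        * ((Dn : ℤ) * (dn l : ℤ) + δ * (dn l : ℤ) - 4 * ε * (Dn : ℤ))
        = 2 * (Nat.card K : ℤ) ^ 2 * (Dn : ℤ) * (dn l : ℤ) := by
    intro l hl hl0
    have h1 := hsc l hl
    rw [hsum_eq, hrow l hl hl0 (fun χ => (χ : G → ℂ) t ^ 2 / (χ : G → ℂ) 1), htriv1, htrivt,
      hΔt, hδ2, hΘt l hl hl0, hDn, hdn1 l] at h1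
    have hdne : (dn l : ℂ) ≠ 0 := by exact_mod_cast (hdn0 l).ne'
    have key : ((Subgroup.centralizer ({t} : Set G)).index : ℂ)
        * ((Dn : ℂ) * (dn l : ℂ) + (δ : ℂ) * (dn l : ℂ) - 4 * (ε : ℂ) * (Dn : ℂ))
        = ((1 ^ 2 / 1 + (δ : ℂ) * (1 / (Dn : ℂ)) - (ε : ℂ) * (4 / (dn l : ℂ)))
          * ((Subgroup.centralizer ({t} : Set G)).index : ℂ)) * ((Dn : ℂ) * (dn l : ℂ)) := by
      field_simp
    rw [h1] at key
    have key2 : ((Subgroup.centralizer ({t} : Set G)).index : ℂ)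
        * ((Dn : ℂ) * (dn l : ℂ) + (δ : ℂ) * (dn l : ℂ) - 4 * (ε : ℂ) * (Dn : ℂ))
        = 2 * (Nat.card K : ℂ) ^ 2 * (Dn : ℂ) * (dn l : ℂ) := by
      rw [key]; ring
    exact_mod_cast key2
  have hE4 : ((Subgroup.centralizer ({t} : Set G)).index : ℤ)
        * ((Dn : ℤ) * (z1n : ℤ) * (z2n : ℤ) + δ * (z1n : ℤ) * (z2n : ℤ)
          + e₁ * (Dn : ℤ) * (z2n : ℤ) + e₂ * (Dn : ℤ) * (z1n : ℤ))
        = 2 * (Nat.card K : ℤ) ^ 2 * (Dn : ℤ) * (z1n : ℤ) * (z2n : ℤ) := by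
    have h1 := hsc l₀ hl₀
    rw [hsum_eq, hrow0 (fun χ => (χ : G → ℂ) t ^ 2 / (χ : G → ℂ) 1), htriv1, htrivt,
      hΔt, hδ2, hZ1t, hZ2t, hDn, hz1n, hz2n] at h1
    have key : ((Subgroup.centralizer ({t} : Set G)).index : ℂ)
        * ((Dn : ℂ) * (z1n : ℂ) * (z2n : ℂ) + (δ : ℂ) * (z1n : ℂ) * (z2n : ℂ)
          + (e₁ : ℂ) * (Dn : ℂ) * (z2n : ℂ) + (e₂ : ℂ) * (Dn : ℂ) * (z1n : ℂ))
        = ((1 ^ 2 / 1 + (δ : ℂ) * (1 / (Dn : ℂ)) + (e₁ : ℂ) * (1 / (z1n : ℂ))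
          + (e₂ : ℂ) * (1 / (z2n : ℂ)))
          * ((Subgroup.centralizer ({t} : Set G)).index : ℂ))
          * ((Dn : ℂ) * (z1n : ℂ) * (z2n : ℂ)) := by
      field_simp
    rw [h1] at key
    have key2 : ((Subgroup.centralizer ({t} : Set G)).index : ℂ)
        * ((Dn : ℂ) * (z1n : ℂ) * (z2n : ℂ) + (δ : ℂ) * (z1n : ℂ) * (z2n : ℂ)
          + (e₁ : ℂ) * (Dn : ℂ) * (z2n : ℂ) + (e₂ : ℂ) * (Dn : ℂ) * (z1n : ℂ))
        = 2 * (Nat.card K : ℂ) ^ 2 * (Dn : ℂ) * (z1n : ℂ) * (z2n : ℂ) := by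
      rw [key]; ring
    exact_mod_cast key2
  -- a non-real character exists
  have hex : ∃ l : IrrCharacter K, l ≠ trivIrr ∧ l ≠ l₀ := by
    by_contra hcon
    push Not at hcon
    have hsub : (Finset.univ : Finset (IrrCharacter K)) ⊆ {trivIrr, l₀} := by
      intro l _
      by_cases hl : l = trivIrr
      · rw [hl]; simp
      · rw [hcon l hl]; simp
    have h1 := Finset.card_le_card hsub
    have h2 : Finset.card ({trivIrr, l₀} : Finset (IrrCharacter K)) ≤ 2 := Finset.card_le_two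
    rw [Finset.card_univ, ← Nat.card_eq_fintype_card, ab_card hKab'] at h1
    omega
  obtain ⟨l₁, hl₁, hl₁0⟩ := hex
  have hcop : IsCoprime ((Subgroup.centralizer ({t} : Set G)).index : ℤ)
      (2 * (Nat.card K : ℤ)) := by
    have := Nat.isCoprime_iff_coprime.mpr hhall
    push_cast at this
    exact this
  have hnpos : (0 : ℤ) < ((Subgroup.centralizer ({t} : Set G)).index : ℤ) := by
    have : 0 < (Subgroup.centralizer ({t} : Set G)).index := Nat.pos_of_ne_zero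
      Subgroup.index_ne_zero_of_finite
    exact_mod_cast this
  have hkpos : (0 : ℤ) < (Nat.card K : ℤ) := by
    have : 0 < Nat.card K := by omega
    exact_mod_cast this
  obtain ⟨r1, r2, r3, r4, r5, r6, r7, r8⟩ :=
    Cfsg.Agent.Lib.Helper64.BSWDEG.deg_arith (Dn : ℤ) (dn l₁ : ℤ) (z1n : ℤ) (z2n : ℤ)
      ((Subgroup.centralizer ({t} : Set G)).index : ℤ) (Nat.card K : ℤ) δ ε e₁ e₂
      (by exact_mod_cast hDn0) (by exact_mod_cast hdn0 l₁) (by exact_mod_cast hz1n0)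
      (by exact_mod_cast hz2n0) hnpos hkpos hS.hδ hS.hε hS.he₁ hS.he₂
      (hE1 l₁ hl₁ hl₁0) hE2 (hE3 l₁ hl₁ hl₁0) hE4 hcop
  refine ⟨r1, r2, r3, ?_, ?_, ?_, ?_, r8⟩
  · rw [hDn]; exact_mod_cast r4
  · intro l hl hl0
    rw [hdn1 l]
    have h1 := hE1 l hl hl0
    rw [r1, r4] at h1
    have h2 : (dn l : ℤ) = 2 * (Nat.card K : ℤ) + 2 * δ := by
      rcases hS.hδ with h3 | h3 <;> rw [h3] at h1 ⊢ <;> linarith
    exact_mod_cast h2
  · rw [hz1n]; exact_mod_cast r6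
  · rw [hz2n]; exact_mod_cast r7

end Cfsg.Agent.Lib.Helper46.BSW
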