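import Mathlib
import Cfsg.Agent.Lib.Helper48.QADefs
import Cfsg.Agent.Lib.Helper48.RCBase

/-!
# Project QA (helper48, S2787): piece FOPP (helper64)
-/

set_option autoImplicit false

universe u

namespace Cfsg.Agent.Lib.Helper48.QA

open Matrix Polynomial

local notation "SL2" F => Matrix.SpecialLinearGroup (Fin 2) F
local notation "PSL2" F => Matrix.ProjectiveSpecialLinearGroup (Fin 2) F
local notation "M2" F => Matrix (Fin 2) (Fin 2) F

section ok0
variable {F : Type*} [Field F] [Finite F] [CharP F 3] {G : Type*} [Group G] [Finite G]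
  {θ : F →+* F} {T : F → F → F → G} {H : Fˣ → G} {w : G}

/-- QA-FOPP -/
theorem ok0_not_pgroup (h : RC.Ok0 θ T H w) (x : G) (hx1 : x ≠ 1) (hx : x ∈ h.Qs) :
    ¬ IsPGroup 3 ↥(Subgroup.closure {x, w * x * w⁻¹}) := by
  intro hD
  have : Fact (Nat.Prime 3) := ⟨Nat.prime_three⟩
  obtain ⟨P, hP⟩ := h.syl
  obtain ⟨Q', hQ'⟩ := hD.exists_le_sylow
  obtain ⟨g, hg⟩ := MulAction.exists_smul_eq G P Q'
  have hmem : ∀ y : G, y ∈ Subgroup.closure {x, w * x * w⁻¹} → g⁻¹ * y * g ∈ h.Qs := by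
    intro y hy
    have h1 : y ∈ (Q' : Subgroup G) := hQ' hy
    rw [← hg, Sylow.coe_subgroup_smul, Subgroup.mem_pointwise_smul_iff_inv_smul_mem] at h1
    have h2 : g⁻¹ * y * g ∈ (P : Subgroup G) := by
      simpa [MulAut.smul_def] using h1
    exact (h.mem_Qs _).mpr ((hP _).mp h2)
  have hx_mem : x ∈ Subgroup.closure {x, w * x * w⁻¹} := Subgroup.subset_closure (by simp)
  have hwx_mem : w * x * w⁻¹ ∈ Subgroup.closure {x, w * x * w⁻¹} :=
    Subgroup.subset_closure (by simp)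
  have h1 : g⁻¹ ∈ h.Bs := by
    apply h.mem_Bs_of_conj hx hx1
    have h2 := hmem x hx_mem
    rwa [inv_inv]
  have h2 : g⁻¹ * w ∈ h.Bs := by
    apply h.mem_Bs_of_conj hx hx1
    have h3 := hmem _ hwx_mem
    have e : g⁻¹ * w * x * (g⁻¹ * w)⁻¹ = g⁻¹ * (w * x * w⁻¹) * g := by group
    rw [e]
    exact h3
  have h3 : w ∈ h.Bs := by
    have h4 := h.Bs.mul_mem (h.Bs.inv_mem h1) h2
    have e : g⁻¹⁻¹ * (g⁻¹ * w) = w := by group
    rwa [e] at h4
  have h4 : w * T 1 0 0 * w ∈ h.Bs :=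
    h.Bs.mul_mem (h.Bs.mul_mem h3 (h.Qs_le_Bs (h.T_mem 1 0 0))) h3
  exact h.T100_ne_one (h.eq_one_of_wuw (h.T_mem 1 0 0) h4)

end ok0

end Cfsg.Agent.Lib.Helper48.QA
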