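import Mathlib
import Cfsg.Agent.Lib.Helper48.QADefs

/-!
# Project QA (helper48, S2787): piece PMAIN (helper64)
-/

set_option autoImplicit false

universe u

namespace Cfsg.Agent.Lib.Helper48.QA

open Matrix Polynomial

local notation "SL2" F => Matrix.SpecialLinearGroup (Fin 2) F
local notation "PSL2" F => Matrix.ProjectiveSpecialLinearGroup (Fin 2) F
local notation "M2" F => Matrix (Fin 2) (Fin 2) F

/-- QA-PMAIN -/
theorem psl2_braid {F : Type*} [Field F] {p : ℕ}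
    (hlift : ∀ a : PSL2 F, a ^ p = 1 → ∃ u : SL2 F, (QuotientGroup.mk u : PSL2 F) = a ∧
      ((u : M2 F) - 1) * ((u : M2 F) - 1) = 0)
    (hconj : ∀ u : SL2 F, u ≠ 1 → ((u : M2 F) - 1) * ((u : M2 F) - 1) = 0 →
      ∃ (h : SL2 F) (t : F), t ≠ 0 ∧ h * u * h⁻¹ = ux t)
    (hbr : ∀ t : F, t ≠ 0 → ∃ g : SL2 F, g * ux t * g⁻¹ = ly (-t⁻¹) ∧
      ux t * ly (-t⁻¹) * ux t = ly (-t⁻¹) * ux t * ly (-t⁻¹) ∧
      (ux t * ly (-t⁻¹)) ^ 3 ∈ Subgroup.center (SL2 F) ∧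
      (ux t)⁻¹ * ly (-t⁻¹) ∉ Subgroup.center (SL2 F))
    (a : PSL2 F) (ha1 : a ≠ 1) (hap : a ^ p = 1) :
    ∃ g : PSL2 F, g * a * g⁻¹ ≠ a ∧
      a * (g * a * g⁻¹) * a = (g * a * g⁻¹) * a * (g * a * g⁻¹) ∧
      (a * (g * a * g⁻¹)) ^ 3 = 1 := by
  obtain ⟨u, hu, hu2⟩ := hlift a hap
  have hu1 : u ≠ 1 := by
    rintro rfl
    apply ha1
    rw [← hu]
    rfl
  obtain ⟨h, t, ht, hh⟩ := hconj u hu1 hu2
  obtain ⟨g₀, hg₀, hbraid, hcube, hnc⟩ := hbr t ht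
  have hu' : u = h⁻¹ * ux t * h := by
    rw [← hh]; group
  obtain ⟨mkq, hmk⟩ : ∃ mkq : (SL2 F) →* (PSL2 F),
      ∀ v : SL2 F, mkq v = (QuotientGroup.mk v : PSL2 F) :=
    ⟨QuotientGroup.mk' (Subgroup.center (SL2 F)), fun _ => rfl⟩
  have hker : ∀ v : SL2 F, v ∈ Subgroup.center (SL2 F) → mkq v = 1 := by
    intro v hv
    rw [hmk]
    exact (QuotientGroup.eq_one_iff v).mpr hv
  have hker' : ∀ v : SL2 F, mkq v = 1 → v ∈ Subgroup.center (SL2 F) := by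
    intro v hv
    rw [hmk] at hv
    exact (QuotientGroup.eq_one_iff v).mp hv
  have hnormal : (Subgroup.center (SL2 F)).Normal := inferInstance
  have ha : a = mkq (h⁻¹ * ux t * h) := by
    rw [← hu, hu', hmk]
  have hb : mkq (h⁻¹ * g₀ * h) * a * (mkq (h⁻¹ * g₀ * h))⁻¹ = mkq (h⁻¹ * ly (-t⁻¹) * h) := by
    rw [ha, ← map_inv, ← map_mul, ← map_mul]
    congr 1
    rw [← hg₀]; group
  refine ⟨mkq (h⁻¹ * g₀ * h), ?_, ?_, ?_⟩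
  · rw [hb, ha]
    intro heq
    have h0 : mkq ((h⁻¹ * ux t * h)⁻¹ * (h⁻¹ * ly (-t⁻¹) * h)) = 1 := by
      rw [map_mul, map_inv, heq, inv_mul_cancel]
    have h1 := hker' _ h0
    have h4 : h * ((h⁻¹ * ux t * h)⁻¹ * (h⁻¹ * ly (-t⁻¹) * h)) * h⁻¹ ∈
        Subgroup.center (SL2 F) := hnormal.conj_mem _ h1 h
    have e : h * ((h⁻¹ * ux t * h)⁻¹ * (h⁻¹ * ly (-t⁻¹) * h)) * h⁻¹ =
        (ux t)⁻¹ * ly (-t⁻¹) := by group
    rw [e] at h4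
    exact hnc h4
  · rw [hb, ha, ← map_mul, ← map_mul, ← map_mul, ← map_mul]
    congr 1
    have e1 : h⁻¹ * ux t * h * (h⁻¹ * ly (-t⁻¹) * h) * (h⁻¹ * ux t * h) =
        h⁻¹ * (ux t * ly (-t⁻¹) * ux t) * h := by group
    have e2 : h⁻¹ * ly (-t⁻¹) * h * (h⁻¹ * ux t * h) * (h⁻¹ * ly (-t⁻¹) * h) =
        h⁻¹ * (ly (-t⁻¹) * ux t * ly (-t⁻¹)) * h := by group
    rw [e1, e2, hbraid]
  · rw [hb, ha, ← map_mul, ← map_pow]
    have e0 : h⁻¹ * ux t * h * (h⁻¹ * ly (-t⁻¹) * h) = h⁻¹ * (ux t * ly (-t⁻¹)) * h⁻¹⁻¹ := by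
      group
    rw [e0, conj_pow]
    apply hker
    exact hnormal.conj_mem _ hcube h⁻¹

end Cfsg.Agent.Lib.Helper48.QA
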