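import Cfsg.Agent.Lib.Helper15.BG12Defs3

/-!
# B&G 12.7, piece T3 (helper64 for helper15): `F(M) = M_σ × A₀`
-/

set_option autoImplicit false

open Cfsg Cfsg.Agent.Lib.Helper32 Cfsg.Agent.Lib.Helper32.BG10 Cfsg.Agent.Lib.Helper3.BG12 Cfsg.Agent.Lib.Helper15.BG12

namespace Cfsg.Agent.Lib.Helper64.BG12x

universe u

variable {G : Type u} [Group G] [Finite G]

omit [Finite G] in
theorem t3_le_fittingOf {Y K : Subgroup G} (hYK : Y ≤ K)
    (hK : K ≤ Subgroup.normalizer (Y : Set G)) (hY : Group.IsNilpotent ↥Y) :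
    Y ≤ fittingOf K := by
  have h1 : (Y.subgroupOf K).Normal := Subgroup.normal_subgroupOf_of_le_normalizer hK
  have h2 : Group.IsNilpotent ↥(Y.subgroupOf K) :=
    (Group.isNilpotent_congr (Subgroup.subgroupOfEquivOfLe hYK)).mpr hY
  have h3 : Y.subgroupOf K ≤ fittingSubgroup ↥K := le_sSup ⟨h1, h2⟩
  have h4 := Subgroup.map_mono (f := K.subtype) h3
  rw [Subgroup.map_subgroupOf_eq_of_le hYK] at h4
  exact h4

theorem fitting_eq (hG : IsMinSimpleOddOrder G) (h16 : H16 G) (h17 : H17 G) (h18 : H18 G) {M E : Subgroup G} {p : ℕ} [Fact p.Prime] {A : Subgroup G} (h : Ctx7 M E p A)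
      (ht : tau2 M = {p}) {P S : Subgroup G} (hP : P ∈ sylSet p M) (hAP : A ≤ P)
      (hpow : ∀ y ∈ P, y ^ p ^ 2 = 1 → y ^ p ∈ omegaZ p S) (hZ : Nat.card (omegaZ p S) = p)
      (hA₀ : Nat.card ↥(A ⊓ Subgroup.centralizer (sigmaCore M : Set G)) = p)
      (hA₀Z : A ⊓ Subgroup.centralizer (sigmaCore M : Set G) ≠ omegaZ p S) :
      fittingOf M = sigmaCore M ⊔ (A ⊓ Subgroup.centralizer (sigmaCore M : Set G)) := by
  have hpp : p.Prime := Fact.out
  have hM := h.hM
  obtain ⟨hEM, hMsM, hEMs, hfac⟩ := h.hE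
  have hAM : A ≤ M := h.hAE.trans hEM
  obtain ⟨hnil, hb, -, -, -, -⟩ := h17 M hM p h.hp A ⟨hAM, h.hA, h.hA2⟩
  obtain ⟨⟨hEA, -⟩, -, -⟩ := h18 M hM E h.hE p h.hp A ⟨h.hAE, h.hA, h.hA2⟩
  have hMn : M ≤ Subgroup.normalizer (sigmaCore M : Set G) := le_normalizer_piCoreOf (sigma M) M
  obtain ⟨P', hP'⟩ := exists_sylow_of_mem_sylSet hP
  have hPA : ∀ x ∈ P, x ^ p = 1 ↔ x ∈ A := by
    have h1 := (hb P').2 (by rw [hP']; exact hAP)
    rw [hP'] at h1
    exact h1.1
  have hPM : P ≤ M := hP.1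
  have hPp : IsPGroup p P := isPGroup_of_mem_sylSet hP
  have hpMs : ¬ p ∣ Nat.card (sigmaCore M) := fun hd =>
    h.hp.2.1 (Cfsg.Agent.Lib.Helper3.BG12S.mem_sigma_of_dvd_sigmaCore hpp hd)
  obtain ⟨A₀, hA₀def⟩ : ∃ A₀ : Subgroup G,
      A₀ = A ⊓ Subgroup.centralizer (sigmaCore M : Set G) := ⟨_, rfl⟩
  rw [← hA₀def] at hA₀ hA₀Z ⊢
  -- normal `p`-subgroups of `M` lie in `A₀`
  have key : ∀ D : Subgroup G, IsPGroup p D → D ≤ M →
      M ≤ Subgroup.normalizer (D : Set G) → D ≤ A₀ := by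
    intro D hDp hDM hDn
    have hDP : D ≤ P := by
      have hsup : IsPGroup p (D ⊔ P : Subgroup G) :=
        IsPGroup.to_sup_of_normal_left' hDp hPp (hPM.trans hDn)
      obtain ⟨R, hR, hle⟩ := exists_sylSet_ge hsup (sup_le hDM hPM)
      have hPR : P = R := by
        apply Subgroup.eq_of_le_of_card_ge (le_sup_right.trans hle)
        rw [hR.2, hP.2]
      rw [hPR]
      exact le_sup_left.trans hle
    have hDMs : D ⊓ sigmaCore M = ⊥ := by
      have h1 : IsPGroup p (D ⊓ sigmaCore M : Subgroup G) := hDp.to_le inf_le_left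
      obtain ⟨n, hn⟩ := IsPGroup.iff_card.mp h1
      have h2 : Nat.card (D ⊓ sigmaCore M : Subgroup G) ∣ Nat.card (sigmaCore M) :=
        Subgroup.card_dvd_of_le inf_le_right
      rw [hn] at h2
      have hn0 : n = 0 := by
        by_contra hne
        exact hpMs ((dvd_pow_self p hne).trans h2)
      rw [hn0, pow_zero] at hn
      exact Subgroup.card_eq_one.mp hn
    have hDC : D ≤ Subgroup.centralizer (sigmaCore M : Set G) := by
      intro d hd
      rw [Subgroup.mem_centralizer_iff]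
      intro s hs
      have hc : d * s * d⁻¹ * s⁻¹ ∈ D ⊓ sigmaCore M := by
        constructor
        · have h1 : s * d⁻¹ * s⁻¹ ∈ D :=
            (Subgroup.mem_normalizer_iff.mp (hDn (hMsM hs)) d⁻¹).mp (D.inv_mem hd)
          have h2 : d * (s * d⁻¹ * s⁻¹) ∈ D := D.mul_mem hd h1
          have e : d * s * d⁻¹ * s⁻¹ = d * (s * d⁻¹ * s⁻¹) := by group
          rw [e]
          exact h2
        · have h1 : d * s * d⁻¹ ∈ sigmaCore M :=
            (Subgroup.mem_normalizer_iff.mp (hMn (hDM hd)) s).mp hs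
          exact (sigmaCore M).mul_mem h1 ((sigmaCore M).inv_mem hs)
      rw [hDMs, Subgroup.mem_bot] at hc
      calc s * d = (d * s * d⁻¹ * s⁻¹) * (s * d) := by rw [hc, one_mul]
        _ = d * s := by group
    intro y hy
    rw [hA₀def]
    refine ⟨?_, hDC hy⟩
    have hyP : y ∈ P := hDP hy
    apply (hPA y hyP).mp
    -- `y ^ p = 1`
    obtain ⟨k, hk⟩ := hDp ⟨y, hy⟩
    have hk' : y ^ p ^ k = 1 := by
      have h1 := congrArg Subtype.val hk
      simpa using h1
    obtain ⟨j, -, hj⟩ := (Nat.dvd_prime_pow hpp).mp (orderOf_dvd_of_pow_eq_one hk')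
    by_cases hj1 : j ≤ 1
    · apply orderOf_dvd_iff_pow_eq_one.mp
      rw [hj]
      calc p ^ j ∣ p ^ 1 := pow_dvd_pow p hj1
        _ = p := pow_one p
    · exfalso
      have hj2 : 2 ≤ j := by omega
      have hw : y ^ p ^ (j - 2) ∈ D := D.pow_mem hy _
      have hwP : y ^ p ^ (j - 2) ∈ P := hDP hw
      have hw2 : (y ^ p ^ (j - 2)) ^ p ^ 2 = 1 := by
        rw [← pow_mul, ← pow_add, Nat.sub_add_cancel hj2, ← hj, pow_orderOf_eq_one]
      have hu := hpow _ hwP hw2
      have hue : (y ^ p ^ (j - 2)) ^ p = y ^ p ^ (j - 1) := by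
        rw [← pow_mul, ← pow_succ]
        congr 2
        omega
      rw [hue] at hu
      have hu1 : y ^ p ^ (j - 1) ≠ 1 := by
        intro h1
        have h2 := orderOf_dvd_of_pow_eq_one h1
        rw [hj] at h2
        have h3 := (Nat.pow_dvd_pow_iff_le_right hpp.one_lt).mp h2
        omega
      have hup : (y ^ p ^ (j - 1)) ^ p = 1 := by
        rw [← pow_mul, ← pow_succ]
        have e : j - 1 + 1 = j := by omega
        rw [e, ← hj, pow_orderOf_eq_one]
      have huo : orderOf (y ^ p ^ (j - 1)) = p := orderOf_eq_prime hup hu1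
      have huD : y ^ p ^ (j - 1) ∈ D := D.pow_mem hy _
      have huA₀ : y ^ p ^ (j - 1) ∈ A₀ := by
        rw [hA₀def]
        exact ⟨(hPA _ (hDP huD)).mp hup, hDC huD⟩
      have e1 : Subgroup.zpowers (y ^ p ^ (j - 1)) = A₀ := by
        apply Subgroup.eq_of_le_of_card_ge
        · rw [Subgroup.zpowers_le]
          exact huA₀
        · rw [Nat.card_zpowers, huo, hA₀]
      have e2 : Subgroup.zpowers (y ^ p ^ (j - 1)) = omegaZ p S := by
        apply Subgroup.eq_of_le_of_card_ge
        · rw [Subgroup.zpowers_le]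
          exact hu
        · rw [Nat.card_zpowers, huo, hZ]
      exact hA₀Z (e1.symm.trans e2)
  apply le_antisymm
  · apply fittingOf_le_of_pCoreOf_le
    intro r hr
    have hDp : IsPGroup r (pCoreOf r M) := isPGroup_pCoreOf r M
    have hDM : pCoreOf r M ≤ M := pCoreOf_le r M
    have hDn : M ≤ Subgroup.normalizer (pCoreOf r M : Set G) := le_normalizer_pCoreOf r M
    by_cases hD1 : pCoreOf r M = ⊥
    · rw [hD1]
      exact bot_le
    by_cases hrs : r ∈ sigma M
    · have h1 : pCoreOf r M ≤ sigmaCore M := by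
        have : Fact r.Prime := ⟨hr⟩
        exact Cfsg.Agent.Lib.Helper3.BG12S.pgroup_le_sigmaCore hG hM hrs hDp hDM
      exact h1.trans le_sup_left
    · have hMtop : M ≠ ⊤ := hM.1
      have hDtop : pCoreOf r M ≠ ⊤ := by
        intro htop
        rw [htop] at hDM
        exact hMtop (top_le_iff.mp hDM)
      have hNtop := minSimple_normalizer_ne_top hG hD1 hDtop
      have hNM : Subgroup.normalizer (pCoreOf r M : Set G) ≤ M := by
        by_contra hcon
        exact hNtop (hM.2 _ (lt_of_le_not_ge hDn hcon))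
      have hr2 : r ∈ tau2 M := by
        have : Fact r.Prime := ⟨hr⟩
        exact Cfsg.Agent.Lib.Helper3.BG12S.mem_tau2_of_normalizer_le hG hM hrs hDp hD1 hNM
      rw [ht] at hr2
      have hrp : r = p := hr2
      rw [hrp] at hDp hDM hDn ⊢
      exact (key _ hDp hDM hDn).trans le_sup_right
  · apply sup_le
    · exact t3_le_fittingOf hMsM hMn hnil
    · have hA₀M : A₀ ≤ M := by
        rw [hA₀def]
        exact inf_le_left.trans hAM
      apply t3_le_fittingOf hA₀M
      · intro m hm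
        obtain ⟨e, he, s, hs, rfl⟩ := hfac m hm
        apply Subgroup.mul_mem
        · have h1 : e ∈ Subgroup.normalizer (A : Set G) := hEA he
          have h2 : e ∈ Subgroup.normalizer
              ((Subgroup.centralizer (sigmaCore M : Set G) : Subgroup G) : Set G) :=
            Cfsg.Agent.Lib.Helper29.normalizer_le_normalizer_centralizer _ (hMn (hEM he))
          rw [Subgroup.mem_normalizer_iff] at h1 h2 ⊢
          intro x
          rw [hA₀def, Subgroup.mem_inf, Subgroup.mem_inf, h1 x, h2 x]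
        · apply Subgroup.centralizer_le_normalizer
          rw [Subgroup.mem_centralizer_iff]
          intro a ha
          rw [hA₀def] at ha
          exact (Subgroup.mem_centralizer_iff.mp ha.2 s hs).symm
      · exact (IsPGroup.of_card (n := 1) (by rw [hA₀, pow_one])).isNilpotent

end Cfsg.Agent.Lib.Helper64.BG12x
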