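import Mathlib

/-!
# S4125 piece P9: the mixed case is impossible (`mixed_contra`)
-/

namespace Cfsg.Agent.Lib.Helper64

open scoped Pointwise

/-- A subgroup meeting every conjugacy class is the whole group
(copy of `Helper84.eq_top_of_forall_conj_mem`, to keep this file Mathlib-only). -/
theorem baerP9_cover {N : Type*} [Group N] [Finite N] (H : Subgroup N)
    (h : ∀ n : N, ∃ m : N, m⁻¹ * n * m ∈ H) : H = ⊤ := by
  classical
  let _ := Fintype.ofFinite N
  have hB := MulAction.sum_card_fixedBy_eq_card_orbits_mul_card_group N (N ⧸ H)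
  have horb : Fintype.card (Quotient (MulAction.orbitRel N (N ⧸ H))) = 1 := by
    rw [Fintype.card_eq_one_iff]
    refine ⟨Quotient.mk'' ((1 : N) : N ⧸ H), ?_⟩
    intro q
    induction q using Quotient.inductionOn' with
    | _ x =>
      apply Quotient.sound'
      induction x using QuotientGroup.induction_on with
      | _ a =>
        show (a : N ⧸ H) ∈ MulAction.orbit N ((1 : N) : N ⧸ H)
        refine ⟨a, ?_⟩
        show ((a * 1 : N) : N ⧸ H) = (a : N ⧸ H)
        rw [mul_one]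
  rw [horb, one_mul] at hB
  have hpos : ∀ g : N, 1 ≤ Fintype.card (MulAction.fixedBy (N ⧸ H) g) := by
    intro g
    obtain ⟨m, hm⟩ := h g
    apply Fintype.card_pos_iff.mpr
    refine ⟨⟨(m : N ⧸ H), ?_⟩⟩
    show ((g * m : N) : N ⧸ H) = (m : N ⧸ H)
    rw [eq_comm, QuotientGroup.eq]
    rw [← mul_assoc]
    exact hm
  have hone : Fintype.card (MulAction.fixedBy (N ⧸ H) (1 : N)) = H.index := by
    rw [Subgroup.index, Nat.card_eq_fintype_card]
    apply Fintype.card_congr
    exact ⟨fun x => x.1, fun x => ⟨x, one_smul N x⟩, fun x => rfl, fun x => rfl⟩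
  have hsum : ∑ g : N, (Fintype.card (MulAction.fixedBy (N ⧸ H) g) - 1) = 0 := by
    have h1 : ∑ g : N, Fintype.card (MulAction.fixedBy (N ⧸ H) g) =
        ∑ g : N, (Fintype.card (MulAction.fixedBy (N ⧸ H) g) - 1) + Fintype.card N := by
      rw [← Finset.card_univ (α := N), Finset.card_eq_sum_ones, ← Finset.sum_add_distrib]
      apply Finset.sum_congr rfl
      intro g _
      have := hpos g
      omega
    omega
  have h1 := (Finset.sum_eq_zero_iff.mp hsum) 1 (Finset.mem_univ _)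
  have h2 := hpos 1
  have h3 : H.index = 1 := by omega
  exact Subgroup.index_eq_one.mp h3

variable {G : Type*} [Group G] [Finite G]

theorem baerP9_relIndex_dvd (C K : Subgroup G) [K.Normal] : C.relIndex K ∣ C.index := by
  have h1 : (C ⊓ K).index = C.relIndex K * K.index := by
    rw [← Subgroup.inf_relIndex_right, Subgroup.relIndex_mul_index inf_le_right]
  have h2 : (C ⊓ K).index = K.relIndex C * C.index := by
    rw [← Subgroup.inf_relIndex_left, Subgroup.relIndex_mul_index inf_le_left]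
  have h3 : K.relIndex (C ⊔ K) * (C ⊔ K).index = K.index :=
    Subgroup.relIndex_mul_index le_sup_right
  rw [Subgroup.relIndex_sup_right] at h3
  have h4 : K.relIndex C * (C.relIndex K * (C ⊔ K).index) = K.relIndex C * C.index := by
    rw [← h2, h1, ← h3]; ring
  have h5 : 0 < K.relIndex C := by
    rcases Nat.eq_zero_or_pos (K.relIndex C) with h0 | h0
    · rw [h0, zero_mul] at h2; exact absurd h2 Subgroup.index_ne_zero_of_finite
    · exact h0
  exact Dvd.intro _ (Nat.eq_of_mul_eq_mul_left h5 h4)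

/-- If `q ∤ |G : C(w)|` and the Sylow `q`-subgroup `Q` is normal, then `Q ≤ C(w)`. -/
theorem baerP9_le_centralizer (q : ℕ) [Fact q.Prime] (Q : Sylow q G)
    (hQ : (Q : Subgroup G).Normal) (w : G)
    (hw : ¬ q ∣ (Subgroup.centralizer ({w} : Set G)).index) :
    (Q : Subgroup G) ≤ Subgroup.centralizer ({w} : Set G) := by
  have hq : q.Prime := Fact.out
  have h1 : (Subgroup.centralizer ({w} : Set G)).relIndex Q ∣
      (Subgroup.centralizer ({w} : Set G)).index := baerP9_relIndex_dvd _ _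
  have h2 : (Subgroup.centralizer ({w} : Set G)).relIndex Q ∣ Nat.card (Q : Subgroup G) :=
    Subgroup.relIndex_dvd_card _ _
  obtain ⟨n, hn⟩ := IsPGroup.iff_card.mp Q.isPGroup'
  rw [hn] at h2
  obtain ⟨j, _, hj⟩ := (Nat.dvd_prime_pow hq).1 h2
  rcases Nat.eq_zero_or_pos j with h0 | h0
  · rw [h0, pow_zero] at hj
    exact Subgroup.relIndex_eq_one.mp hj
  · exfalso; apply hw
    refine dvd_trans ?_ h1
    rw [hj]; exact dvd_pow_self q (by omega)

/-- If `|G : C(w)|` is a power of `q`, `Q` a normal Sylow `q`-subgroup and `T` a Sylow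
`p`-subgroup, `p ≠ q`, then `T` centralizes a `Q`-conjugate of `w`. -/
theorem baerP9_star (q : ℕ) [Fact q.Prime] (Q : Sylow q G) (hQ : (Q : Subgroup G).Normal)
    (p : ℕ) (hp : p.Prime) (hpq : p ≠ q) (T : Sylow p G) (w : G)
    (hwi : ∃ b : ℕ, (Subgroup.centralizer ({w} : Set G)).index = q ^ b) :
    ∃ u ∈ (Q : Subgroup G), ∀ t ∈ (T : Subgroup G), Commute t (u * w * u⁻¹) := by
  have hq : q.Prime := Fact.out
  have : Fact p.Prime := ⟨hp⟩
  obtain ⟨b, hb⟩ := hwi
  set C : Subgroup G := Subgroup.centralizer ({w} : Set G) with hC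
  have hnd : ¬ p ∣ Nat.card (G ⧸ C) := by
    show ¬ p ∣ C.index
    rw [hb]
    intro h
    exact hpq ((Nat.prime_dvd_prime_iff_eq hp hq).mp (hp.dvd_of_dvd_pow h))
  obtain ⟨xq, hxq⟩ := T.isPGroup'.nonempty_fixed_point_of_prime_not_dvd_card (G ⧸ C) hnd
  induction xq using QuotientGroup.induction_on with
  | _ g =>
    have hfix : ∀ t ∈ (T : Subgroup G), g⁻¹ * t * g ∈ C := by
      intro t ht
      have h1 := hxq ⟨t, ht⟩
      have h2 : ((t * g : G) : G ⧸ C) = (g : G ⧸ C) := h1
      have h3 := QuotientGroup.eq.mp h2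
      have h4 := C.inv_mem h3
      have h5 : ((t * g)⁻¹ * g)⁻¹ = g⁻¹ * t * g := by group
      rw [h5] at h4
      exact h4
    -- G = Q C
    have htop : (Q : Subgroup G) ⊔ C = ⊤ := by
      have h1 : ((Q : Subgroup G) ⊔ C).index ∣ (Q : Subgroup G).index :=
        Subgroup.index_dvd_of_le le_sup_left
      have h2 : ((Q : Subgroup G) ⊔ C).index ∣ C.index :=
        Subgroup.index_dvd_of_le le_sup_right
      rw [hb] at h2
      obtain ⟨j, _, hj⟩ := (Nat.dvd_prime_pow hq).1 h2
      rcases Nat.eq_zero_or_pos j with h0 | h0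
      · rw [h0, pow_zero] at hj
        exact Subgroup.index_eq_one.mp hj
      · exfalso
        apply Q.not_dvd_index
        refine dvd_trans ?_ h1
        rw [hj]; exact dvd_pow_self q (by omega)
    have hg : g ∈ ((Q : Subgroup G) ⊔ C : Subgroup G) := by rw [htop]; trivial
    have hg2 : g ∈ ((Q : Subgroup G) : Set G) * (C : Set G) := by
      rw [← Subgroup.normal_mul]; exact hg
    obtain ⟨u, hu, c, hc, huc⟩ := Set.mem_mul.mp hg2
    refine ⟨u, hu, ?_⟩
    intro t ht
    have hcw : c * w = w * c := by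
      have := Subgroup.mem_centralizer_iff.mp hc w rfl
      exact this.symm
    have h1 : u * w * u⁻¹ = g * w * g⁻¹ := by
      rw [← huc]
      have : u * c * w * (u * c)⁻¹ = u * (c * w) * c⁻¹ * u⁻¹ := by group
      rw [this, hcw]; group
    rw [h1]
    have h2 := Subgroup.mem_centralizer_iff.mp (hfix t ht) w rfl
    -- h2 : w * (g⁻¹ * t * g) = g⁻¹ * t * g * w
    show t * (g * w * g⁻¹) = g * w * g⁻¹ * t
    have h3 : t * (g * w * g⁻¹) = g * (g⁻¹ * t * g * w) * g⁻¹ := by group
    rw [h3, ← h2]; group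

theorem mixed_contra (q : ℕ) [Fact q.Prime]
    (hBaer : ∀ x : G, (∃ k : ℕ, orderOf x = q ^ k) → ∃ (r : ℕ) (a : ℕ), r.Prime ∧
      (Subgroup.centralizer ({x} : Set G)).index = r ^ a)
    (Q : Sylow q G) (hQ : (Q : Subgroup G).Normal) (p : ℕ) (hp : p.Prime) (hpq : p ≠ q)
    (x : G) (hxQ : x ∈ Q) (hxi : ∃ a : ℕ, (Subgroup.centralizer ({x} : Set G)).index = p ^ a)
    (hxn : Subgroup.centralizer ({x} : Set G) ≠ ⊤)
    (y : G) (hyQ : y ∈ Q) (hyi : ∃ b : ℕ, (Subgroup.centralizer ({y} : Set G)).index = q ^ b)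
    (hyn : Subgroup.centralizer ({y} : Set G) ≠ ⊤) : False := by
  have hq : q.Prime := Fact.out
  have : Fact p.Prime := ⟨hp⟩
  -- elements of Q are q-elements
  have hqel : ∀ w ∈ (Q : Subgroup G), ∃ k : ℕ, orderOf w = q ^ k := by
    intro w hw
    obtain ⟨k, hk⟩ := Q.isPGroup' ⟨w, hw⟩
    have h1 : w ^ q ^ k = 1 := by
      have := congrArg Subtype.val hk
      simpa using this
    obtain ⟨j, _, hj⟩ := (Nat.dvd_prime_pow hq).1 (orderOf_dvd_of_pow_eq_one h1)
    exact ⟨j, hj⟩
  -- central in Q iff Q ≤ C(w)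
  have hcen_iff : ∀ w : G, (Q : Subgroup G) ≤ Subgroup.centralizer ({w} : Set G) ↔
      ∀ v ∈ (Q : Subgroup G), Commute w v := by
    intro w
    constructor
    · intro h v hv
      exact Subgroup.mem_centralizer_iff.mp (h hv) w rfl
    · intro h v hv
      rw [Subgroup.mem_centralizer_iff]
      intro z hz
      rw [Set.mem_singleton_iff] at hz
      rw [hz]; exact h v hv
  -- Fact 2
  have hfact2 : ∀ w ∈ (Q : Subgroup G), ¬ (∀ v ∈ (Q : Subgroup G), Commute w v) →
      ∃ b : ℕ, (Subgroup.centralizer ({w} : Set G)).index = q ^ b := by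
    intro w hw hnc
    obtain ⟨r, a, hr, hra⟩ := hBaer w (hqel w hw)
    by_cases hrq : r = q
    · exact ⟨a, by rw [hra, hrq]⟩
    · exfalso
      apply hnc
      rw [← hcen_iff]
      apply baerP9_le_centralizer q Q hQ w
      rw [hra]
      intro h
      exact hrq ((Nat.prime_dvd_prime_iff_eq hq hr).mp (hq.dvd_of_dvd_pow h)).symm
  -- x central in Q
  have hxc : ∀ v ∈ (Q : Subgroup G), Commute x v := by
    rw [← hcen_iff]
    apply baerP9_le_centralizer q Q hQ x
    obtain ⟨a, ha⟩ := hxi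
    rw [ha]
    intro h
    exact hpq ((Nat.prime_dvd_prime_iff_eq hq hp).mp (hq.dvd_of_dvd_pow h)).symm
  -- y not central in Q
  have hync : ¬ (∀ v ∈ (Q : Subgroup G), Commute y v) := by
    intro h
    rw [← hcen_iff] at h
    obtain ⟨b, hb⟩ := hyi
    have h1 : (Subgroup.centralizer ({y} : Set G)).index ∣ (Q : Subgroup G).index :=
      Subgroup.index_dvd_of_le h
    rw [hb] at h1
    rcases Nat.eq_zero_or_pos b with h0 | h0
    · rw [h0, pow_zero] at hb
      exact hyn (Subgroup.index_eq_one.mp hb)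
    · exact Q.not_dvd_index (dvd_trans (dvd_pow_self q (by omega)) h1)
  obtain ⟨T⟩ := (inferInstance : Nonempty (Sylow p G))
  -- the subgroup M = C_Q(T) Z(Q)
  let M : Subgroup G :=
    { carrier := {w | w ∈ (Q : Subgroup G) ∧ ∃ z ∈ (Q : Subgroup G),
        (∀ v ∈ (Q : Subgroup G), Commute z v) ∧ ∀ t ∈ (T : Subgroup G), Commute t (w * z)}
      one_mem' := by
        refine ⟨Subgroup.one_mem _, 1, Subgroup.one_mem _, fun v _ => Commute.one_left v, ?_⟩
        intro t _
        rw [one_mul]; exact Commute.one_right t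
      mul_mem' := by
        rintro w₁ w₂ ⟨hw₁, z₁, hz₁, hc₁, ht₁⟩ ⟨hw₂, z₂, hz₂, hc₂, ht₂⟩
        refine ⟨Subgroup.mul_mem _ hw₁ hw₂, z₁ * z₂, Subgroup.mul_mem _ hz₁ hz₂,
          fun v hv => (hc₁ v hv).mul_left (hc₂ v hv), ?_⟩
        intro t ht
        have h1 : w₁ * w₂ * (z₁ * z₂) = (w₁ * z₁) * (w₂ * z₂) := by
          have := (hc₁ w₂ hw₂).eq
          calc w₁ * w₂ * (z₁ * z₂) = w₁ * (w₂ * z₁) * z₂ := by group
            _ = w₁ * (z₁ * w₂) * z₂ := by rw [this]
            _ = (w₁ * z₁) * (w₂ * z₂) := by group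
        rw [h1]
        exact (ht₁ t ht).mul_right (ht₂ t ht)
      inv_mem' := by
        rintro w ⟨hw, z, hz, hc, ht⟩
        refine ⟨Subgroup.inv_mem _ hw, z⁻¹, Subgroup.inv_mem _ hz,
          fun v hv => (hc v hv).inv_left, ?_⟩
        intro t ht'
        have h1 : w⁻¹ * z⁻¹ = (w * z)⁻¹ := by
          have := (hc w hw).eq
          rw [mul_inv_rev, ← mul_inv_rev, ← mul_inv_rev, this]
        rw [h1]
        exact (ht t ht').inv_right }
  have hMmem : ∀ w : G, w ∈ M ↔ (w ∈ (Q : Subgroup G) ∧ ∃ z ∈ (Q : Subgroup G),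
        (∀ v ∈ (Q : Subgroup G), Commute z v) ∧ ∀ t ∈ (T : Subgroup G), Commute t (w * z)) :=
    fun w => Iff.rfl
  -- M covers Q up to Q-conjugacy
  have hcover : ∀ n : (Q : Subgroup G), ∃ m : (Q : Subgroup G),
      m⁻¹ * n * m ∈ M.subgroupOf (Q : Subgroup G) := by
    rintro ⟨w, hw⟩
    by_cases hwc : ∀ v ∈ (Q : Subgroup G), Commute w v
    · refine ⟨1, ?_⟩
      rw [Subgroup.mem_subgroupOf]
      simp only [inv_one, one_mul, mul_one]
      rw [hMmem]
      refine ⟨hw, w⁻¹, Subgroup.inv_mem _ hw, fun v hv => (hwc v hv).inv_left, ?_⟩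
      intro t _
      rw [mul_inv_cancel]; exact Commute.one_right t
    · obtain ⟨u, hu, hut⟩ := baerP9_star q Q hQ p hp hpq T w (hfact2 w hw hwc)
      refine ⟨⟨u⁻¹, Subgroup.inv_mem _ hu⟩, ?_⟩
      rw [Subgroup.mem_subgroupOf]
      simp only [Subgroup.coe_mul, Subgroup.coe_inv, inv_inv]
      rw [hMmem]
      refine ⟨Subgroup.mul_mem _ (Subgroup.mul_mem _ hu hw) (Subgroup.inv_mem _ hu), 1,
        Subgroup.one_mem _, fun v _ => Commute.one_left v, ?_⟩
      intro t ht
      rw [mul_one]; exact hut t ht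
  have hQM : (Q : Subgroup G) ≤ M := by
    have := baerP9_cover (M.subgroupOf (Q : Subgroup G)) hcover
    exact Subgroup.subgroupOf_eq_top.mp this
  -- decompose y
  obtain ⟨-, z, hz, hzc, hzt⟩ := (hMmem y).mp (hQM hyQ)
  set c : G := y * z with hcdef
  have hcQ : c ∈ (Q : Subgroup G) := Subgroup.mul_mem _ hyQ hz
  have hcnc : ¬ (∀ v ∈ (Q : Subgroup G), Commute c v) := by
    intro h
    apply hync
    intro v hv
    have h1 : y = c * z⁻¹ := by rw [hcdef]; group
    rw [h1]
    exact (h v hv).mul_left (hzc v hv).inv_left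
  have hwQ : c * x ∈ (Q : Subgroup G) := Subgroup.mul_mem _ hcQ hxQ
  have hwnc : ¬ (∀ v ∈ (Q : Subgroup G), Commute (c * x) v) := by
    intro h
    apply hcnc
    intro v hv
    have h1 : c = (c * x) * x⁻¹ := by group
    rw [h1]
    exact (h v hv).mul_left (hxc v hv).inv_left
  obtain ⟨u, hu, hut⟩ := baerP9_star q Q hQ p hp hpq T (c * x) (hfact2 (c * x) hwQ hwnc)
  obtain ⟨-, z', hz', hzc', hzt'⟩ := (hMmem u).mp (hQM hu)
  -- u c u⁻¹ commutes with T
  have hd : ∀ t ∈ (T : Subgroup G), Commute t (u * c * u⁻¹) := by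
    intro t ht
    have h1 : u * c * u⁻¹ = (u * z') * c * (u * z')⁻¹ := by
      have := (hzc' c hcQ).eq
      calc u * c * u⁻¹ = u * (c * z') * z'⁻¹ * u⁻¹ := by group
        _ = u * (z' * c) * z'⁻¹ * u⁻¹ := by rw [this]
        _ = (u * z') * c * (u * z')⁻¹ := by group
    rw [h1]
    exact ((hzt' t ht).mul_right (hzt t ht)).mul_right (hzt' t ht).inv_right
  have hTx : (T : Subgroup G) ≤ Subgroup.centralizer ({x} : Set G) := by
    intro t ht
    rw [Subgroup.mem_centralizer_iff]
    intro v hv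
    rw [Set.mem_singleton_iff] at hv
    rw [hv]
    have h1 : u * (c * x) * u⁻¹ = (u * c * u⁻¹) * x := by
      have := (hxc u⁻¹ (Subgroup.inv_mem _ hu)).eq
      calc u * (c * x) * u⁻¹ = u * c * (x * u⁻¹) := by group
        _ = u * c * (u⁻¹ * x) := by rw [this]
        _ = (u * c * u⁻¹) * x := by group
    have h2 : Commute t ((u * c * u⁻¹) * x) := by
      rw [← h1]; exact hut t ht
    have h3 : x = (u * c * u⁻¹)⁻¹ * ((u * c * u⁻¹) * x) := by group
    have h4 : Commute t x := by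
      rw [h3]
      exact (hd t ht).inv_right.mul_right h2
    exact h4.eq.symm
  obtain ⟨a, ha⟩ := hxi
  have h1 : (Subgroup.centralizer ({x} : Set G)).index ∣ (T : Subgroup G).index :=
    Subgroup.index_dvd_of_le hTx
  rw [ha] at h1
  rcases Nat.eq_zero_or_pos a with h0 | h0
  · rw [h0, pow_zero] at ha
    exact hxn (Subgroup.index_eq_one.mp ha)
  · exact T.not_dvd_index (dvd_trans (dvd_pow_self p (by omega)) h1)

end Cfsg.Agent.Lib.Helper64
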