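import Mathlib

/-! Project EP (helper7) = S5746, piece CONJ (helper64). -/

set_option autoImplicit false

namespace Cfsg.Agent.Lib.Helper7.EP

theorem EPCONJ_mem_map_conj {X : Type*} [Group X] (h : X) (S : Subgroup X) (x : X) :
    x ∈ (MulEquiv.mapSubgroup (MulAut.conj h)) S ↔ h⁻¹ * x * h ∈ S := by
  rw [MulEquiv.mapSubgroup_apply]
  constructor
  · rintro ⟨y, hy, rfl⟩
    have e : h⁻¹ * ((MulAut.conj h) y) * h = y := by
      rw [MulAut.conj_apply]
      group
    have e' : h⁻¹ * (((MulAut.conj h : X ≃* X) : X →* X) y) * h = y := e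
    rw [e']
    exact hy
  · intro hx
    refine ⟨h⁻¹ * x * h, hx, ?_⟩
    show (MulAut.conj h) (h⁻¹ * x * h) = x
    rw [MulAut.conj_apply]
    group

/-- CONJ: maximality of a point stabiliser passes to the other points of the orbit. -/
theorem EPCONJ {X : Type*} [Group X] {n : ℕ} (ρ : X →* Equiv.Perm (Fin n)) (β : Fin n) (h : X)
    (hco : IsCoatom ((MulAction.stabilizer (Equiv.Perm (Fin n)) β).comap ρ)) :
    IsCoatom ((MulAction.stabilizer (Equiv.Perm (Fin n)) (ρ h β)).comap ρ) := by
  have key : (MulAction.stabilizer (Equiv.Perm (Fin n)) (ρ h β)).comap ρ =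
      (MulEquiv.mapSubgroup (MulAut.conj h))
        ((MulAction.stabilizer (Equiv.Perm (Fin n)) β).comap ρ) := by
    ext x
    rw [EPCONJ_mem_map_conj, Subgroup.mem_comap, Subgroup.mem_comap,
      MulAction.mem_stabilizer_iff, MulAction.mem_stabilizer_iff]
    constructor
    · intro hx
      have hx' : ρ x (ρ h β) = ρ h β := hx
      show ρ (h⁻¹ * x * h) β = β
      rw [map_mul, map_mul, Equiv.Perm.mul_apply, Equiv.Perm.mul_apply, hx', ← Equiv.Perm.mul_apply,
        ← map_mul, inv_mul_cancel, map_one, Equiv.Perm.one_apply]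
    · intro hx
      have hx' : ρ (h⁻¹ * x * h) β = β := hx
      show ρ x (ρ h β) = ρ h β
      have e : x * h = h * (h⁻¹ * x * h) := by group
      rw [← Equiv.Perm.mul_apply, ← map_mul, e, map_mul, Equiv.Perm.mul_apply, hx']
  rw [key]
  exact (OrderIso.isCoatom_iff _ _).mpr hco

end Cfsg.Agent.Lib.Helper7.EP
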