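import Mathlib
import Cfsg.Agent.Lib.Helper4.FCDefs

/-!
# Project FC (S4146), piece A2H
-/

namespace Cfsg.Agent.Lib.Helper4.FC

universe u

theorem a2h_helper64_arith {n m q i α j : ℕ} (hn : 1 < n) (hm : 1 < m)
    (hnm : n.Coprime m) (hi : m = q ^ i) (hα1 : α ≠ 1) (hαq : α.Coprime q)
    (hcs : α * q ^ j = 1 ∨ α * q ^ j = n ∨ α * q ^ j = m ∨ α * q ^ j = n * m) :
    α = n ∧ (q ^ j = 1 ∨ q ^ j = m) := by
  have hi0 : i ≠ 0 := by
    rintro rfl
    rw [pow_zero] at hi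
    omega
  have hnq : n.Coprime q := by
    rw [hi] at hnm
    exact Nat.Coprime.coprime_dvd_right (dvd_pow_self q hi0) hnm
  have hnqj : (q ^ j).Coprime n := (Nat.Coprime.pow_right j hnq).symm
  have hαqi : α.Coprime (q ^ i) := Nat.Coprime.pow_right i hαq
  rcases hcs with h | h | h | h
  · exact absurd (Nat.eq_one_of_mul_eq_one_right h) hα1
  · have hd : q ^ j ∣ n := ⟨α, by rw [← h, mul_comm]⟩
    have h1 : q ^ j = 1 := Nat.Coprime.eq_one_of_dvd hnqj hd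
    rw [h1, mul_one] at h
    exact ⟨h, Or.inl h1⟩
  · have hd : α ∣ q ^ i := ⟨q ^ j, by rw [← hi, ← h]⟩
    exact absurd (Nat.Coprime.eq_one_of_dvd hαqi hd) hα1
  · rw [hi] at h
    have hd1 : α ∣ n * q ^ i := ⟨q ^ j, h.symm⟩
    have hαn : α ∣ n := Nat.Coprime.dvd_of_dvd_mul_right hαqi hd1
    have hd2 : q ^ j ∣ n * q ^ i := ⟨α, by rw [← h, mul_comm]⟩
    have hqq : q ^ j ∣ q ^ i := Nat.Coprime.dvd_of_dvd_mul_left hnqj hd2
    have hqi0 : 0 < q ^ i := by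
      rw [← hi]
      omega
    have hqj0 : 0 < q ^ j := Nat.pos_of_dvd_of_pos hqq hqi0
    have hle1 : α ≤ n := Nat.le_of_dvd (by omega) hαn
    have hle2 : q ^ j ≤ q ^ i := Nat.le_of_dvd hqi0 hqq
    have hαeq : α = n := by
      by_contra hne
      have hlt : α < n := lt_of_le_of_ne hle1 hne
      have h1 : α * q ^ j < n * q ^ j := Nat.mul_lt_mul_of_pos_right hlt hqj0
      have h2 : n * q ^ j ≤ n * q ^ i := Nat.mul_le_mul_left n hle2
      omega
    refine ⟨hαeq, Or.inr ?_⟩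
    rw [hαeq] at h
    rw [hi]
    exact Nat.eq_of_mul_eq_mul_left (by omega : 0 < n) h

theorem fc_a2h : SplitStmt.{u} → KQStmt.{u} → A2HStmt.{u} := by
  intro hSplit hKQ G _ _ n m q K Q h hctx hhQ hex
  obtain ⟨hFour, hq, ⟨i, hi⟩, hKn, hKq, hKe, hcen, ⟨b, hbQ, hbm⟩⟩ := hctx
  obtain ⟨hn, hm, hnm, hall, hexn, hexm, hexnm⟩ := hFour
  obtain ⟨hKQ1, hKQ2, hKQ3⟩ := hKQ G q K Q hq hKn hKq hKe
  have hsplit : cs h = (Cen h).relIndex K * (Cen h).relIndex (Q : Subgroup G) :=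
    hSplit G K (Q : Subgroup G) h hKn hKQ1 hKQ2 hhQ
  obtain ⟨u, huK, hu⟩ := hex
  have hα1 : (Cen h).relIndex K ≠ 1 := by
    intro h1
    have hle : K ≤ Cen h := Subgroup.relIndex_eq_one.mp h1
    have hmem := hle huK
    rw [Subgroup.mem_centralizer_singleton_iff] at hmem
    exact hu hmem.symm
  have hαK : (Cen h).relIndex K ∣ Nat.card K := Subgroup.relIndex_dvd_card _ _
  have hαq : ((Cen h).relIndex K).Coprime q := Nat.Coprime.coprime_dvd_left hαK hKq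
  have hβQ : (Cen h).relIndex (Q : Subgroup G) ∣ Nat.card (Q : Subgroup G) :=
    Subgroup.relIndex_dvd_card _ _
  have : Fact q.Prime := ⟨hq⟩
  obtain ⟨c, hc⟩ := IsPGroup.iff_card.mp Q.isPGroup'
  rw [hc] at hβQ
  obtain ⟨j, hj, hβ⟩ := (Nat.dvd_prime_pow hq).mp hβQ
  have hcs : (Cen h).relIndex K * q ^ j = 1 ∨ (Cen h).relIndex K * q ^ j = n ∨
      (Cen h).relIndex K * q ^ j = m ∨ (Cen h).relIndex K * q ^ j = n * m := by
    rw [← hβ, ← hsplit]
    exact hall h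
  obtain ⟨hαn, hβ'⟩ := a2h_helper64_arith hn hm hnm hi hα1 hαq hcs
  have hβm : (Cen h).relIndex (Q : Subgroup G) = m := by
    rcases hβ' with h1 | h1
    · exfalso
      rw [← hβ] at h1
      have hle : (Q : Subgroup G) ≤ Cen h := Subgroup.relIndex_eq_one.mp h1
      have hbh := hle hbQ
      rw [Subgroup.mem_centralizer_singleton_iff] at hbh
      have hhb : h ∈ Cen b := by
        rw [Subgroup.mem_centralizer_singleton_iff]
        exact hbh.symm
      exact hu (hcen b hbQ hbm h hhQ hhb u huK)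
    · rw [hβ]
      exact h1
  refine ⟨?_, hαn⟩
  rw [hsplit, hαn, hβm]

end Cfsg.Agent.Lib.Helper4.FC
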