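import Mathlib
import Cfsg.Agent.Lib.Helper4.FCDefs

/-!
# Project FC (S4146), piece LFKZ
-/

namespace Cfsg.Agent.Lib.Helper4.FC

universe u

theorem lfkz_helper64_card_compl {G : Type u} [Group G] [Finite G] (A H : Subgroup G)
    (hAn : A.Normal) (hAH : A ⊓ H = ⊥) (hAHt : A ⊔ H = ⊤) : Nat.card H = A.index := by
  have hcomp : Subgroup.IsComplement' A H := by
    apply Subgroup.isComplement'_of_disjoint_and_mul_eq_univ
    · exact disjoint_iff.mpr hAH
    · rw [← Subgroup.normal_mul, hAHt]
      rfl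
  have h1 := hcomp.card_mul_card
  have h2 := A.card_mul_index
  have hA : 0 < Nat.card A := Nat.card_pos
  exact Nat.eq_of_mul_eq_mul_left hA (by rw [h1, h2])

theorem fc_lfkz : LF1Stmt.{u} → LF2Stmt.{u} → LFK2Stmt.{u} → LFK3Stmt.{u} → L3Stmt.{u} →
    LFKZStmt.{u} := by
  intro hLF1 hLF2 hLFK2 hLFK3 hL3 G _ _ n m A H z hctx hzH hzc hzK k hkK h hhH
  by_contra hne
  have hctx' := hctx
  obtain ⟨hFour, hAn, hAab, hcop, hAH, hAHt, hAcs, hZ⟩ := hctx'
  obtain ⟨hn, hm, hnm, hall, hexn, hexm, hexnm⟩ := hFour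
  have hkH : k ∈ H :=
    (Subgroup.mem_inf.mp (show k ∈ H ⊓ Subgroup.centralizer (A : Set G) from hkK)).1
  have hkA : ∀ a ∈ A, a * k = k * a := by
    have hc := (Subgroup.mem_inf.mp (show k ∈ H ⊓ Subgroup.centralizer (A : Set G) from hkK)).2
    rw [Subgroup.mem_centralizer_iff] at hc
    exact hc
  -- `cs k = m`
  obtain ⟨hA1, hH1, hprod⟩ := hLF1 G n m A H k hctx hkH
  have hAle : A ≤ Cen k := by
    intro a ha
    rw [Subgroup.mem_centralizer_singleton_iff]
    exact hkA a ha
  have hrelA : (Cen k).relIndex A = 1 := Subgroup.relIndex_eq_one.mpr hAle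
  have hrelH : (Cen k).relIndex H = m := by
    rcases hH1 with h1 | h1
    · exfalso
      have hle : H ≤ Cen k := Subgroup.relIndex_eq_one.mp h1
      have hmem := hle hhH
      rw [Subgroup.mem_centralizer_singleton_iff] at hmem
      exact hne hmem.symm
    · exact h1
  have hcsk : cs k = m := by rw [hprod, hrelA, hrelH, one_mul]
  -- `y ∈ A` with `cs y = m`
  have hy : ∃ y ∈ A, cs y = m := by
    by_contra hcon
    push Not at hcon
    have hAZ : A ≤ Subgroup.center G := by
      intro a ha
      have h1 : cs a = 1 := by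
        rcases hAcs a ha with h1 | h1
        · exact h1
        · exact absurd h1 (hcon a ha)
      have hT : Cen a = ⊤ := Subgroup.index_eq_one.mp h1
      rw [Subgroup.mem_center_iff]
      intro g
      have hg : g ∈ Cen a := by rw [hT]; trivial
      rw [Subgroup.mem_centralizer_singleton_iff] at hg
      exact hg
    have h1 : (Subgroup.center G).relIndex A = 1 := Subgroup.relIndex_eq_one.mpr hAZ
    omega
  obtain ⟨y, hyA, hym⟩ := hy
  -- `cs (y * k) = m`
  have hKle : CHA A H ≤ Cen k := by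
    intro k' hk'
    rw [Subgroup.mem_centralizer_singleton_iff]
    exact hLFK3 G n m A H k' k hctx hk' hkK
  have h2 := hLFK2 G n m A H y k hctx hyA hym hkK
  rw [Subgroup.relIndex_eq_one.mpr hKle, mul_one] at h2
  -- coprime orders
  have hcardH : Nat.card H = A.index := lfkz_helper64_card_compl A H hAn hAH hAHt
  have hord : (orderOf y).Coprime (orderOf k) := by
    have h1 : orderOf y ∣ Nat.card A := by
      have h := orderOf_dvd_natCard (⟨y, hyA⟩ : A)
      rwa [Subgroup.orderOf_mk] at h
    have h3 : orderOf k ∣ A.index := by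
      rw [← hcardH]
      have h := orderOf_dvd_natCard (⟨k, hkH⟩ : H)
      rwa [Subgroup.orderOf_mk] at h
    exact Nat.Coprime.coprime_dvd_left h1 (Nat.Coprime.coprime_dvd_right h3 hcop)
  have hL3' : Cen (y * k) = Cen y ⊓ Cen k := hL3 G y k (hkA y hyA) hord
  -- `Cen k ≤ Cen y`
  have hle : Cen (y * k) ≤ Cen k := by
    rw [hL3']
    exact inf_le_right
  have hrel1 : (Cen (y * k)).relIndex (Cen k) = 1 := by
    have h := Subgroup.relIndex_mul_index hle
    have e1 : (Cen k).index = m := hcsk
    have e2 : (Cen (y * k)).index = m := h2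
    rw [e1, e2] at h
    have hm0 : 0 < m := by omega
    exact Nat.eq_of_mul_eq_mul_right hm0 (by rw [h, one_mul])
  have hle2 : Cen k ≤ Cen (y * k) := Subgroup.relIndex_eq_one.mp hrel1
  have hzk : z ∈ Cen k := by
    rw [Subgroup.mem_centralizer_singleton_iff]
    exact hzc k hkH
  have hzy : z ∈ Cen y := by
    have h := hle2 hzk
    rw [hL3'] at h
    exact (Subgroup.mem_inf.mp h).1
  rw [Subgroup.mem_centralizer_singleton_iff] at hzy
  exact hzK (hLF2 G n m A H z y hctx hzH hyA hym hzy)

end Cfsg.Agent.Lib.Helper4.FC
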