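import Mathlib
import Cfsg.Agent.Lib.Helper4.FCDefs

/-!
# Project FC (S4146), piece LFX
-/

namespace Cfsg.Agent.Lib.Helper4.FC

universe u

theorem lfx_helper64_mul_ne_one {n m : ℕ} (hn : 1 < n) (_hm : 1 < m) : n * m ≠ 1 := by
  intro h
  have := Nat.eq_one_of_mul_eq_one_right h
  omega

theorem lfx_helper64_mul_ne_left {n m : ℕ} (hn : 1 < n) (hm : 1 < m) : n * m ≠ n := by
  intro h
  have h' : n * m = n * 1 := by rw [h, mul_one]
  have := Nat.eq_of_mul_eq_mul_left (by omega : 0 < n) h'
  omega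

theorem lfx_helper64_mul_ne_right {n m : ℕ} (hn : 1 < n) (hm : 1 < m) : n * m ≠ m := by
  intro h
  have h' : n * m = 1 * m := by rw [h, one_mul]
  have := Nat.eq_of_mul_eq_mul_right (by omega : 0 < m) h'
  omega

theorem fc_lfx : LF1Stmt.{u} → LF2Stmt.{u} → LFK2Stmt.{u} → LFK3Stmt.{u} → LFDecStmt.{u} →
    L3Stmt.{u} → LFXStmt.{u} := by
  intro hLF1 hLF2 hLFK2 hLFK3 hDec hL3 G _ _ n m A H hctx
  have hctx' := hctx
  obtain ⟨hFour, hAn, hAab, hcop, hAH, hAHt, hAcs, hZ⟩ := hctx'
  obtain ⟨hn, hm, hnm, hall, hexn, hexm, ⟨g, hg⟩⟩ := hFour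
  obtain ⟨y, x, hyA, hxH, hyx, hord, hcs⟩ := hDec G A H g hAn hAab hcop hAH hAHt
  have hL3' : Cen (y * x) = Cen y ⊓ Cen x := hL3 G y x hyx hord
  rw [hg] at hcs
  rcases hAcs y hyA with hy1 | hym
  · have hyT : Cen y = ⊤ := Subgroup.index_eq_one.mp hy1
    have hcx : cs x = n * m := by
      have hh : Cen (y * x) = Cen x := by rw [hL3', hyT, top_inf_eq]
      rw [← hcs]
      show (Cen x).index = (Cen (y * x)).index
      rw [hh]
    obtain ⟨hA1, hH1, hprod⟩ := hLF1 G n m A H x hctx hxH
    refine ⟨x, hxH, ?_, ?_⟩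
    · rcases hH1 with h1 | h1
      · exfalso
        rw [hcx, h1, mul_one] at hprod
        rcases hA1 with h2 | h2
        · rw [h2] at hprod
          exact lfx_helper64_mul_ne_one hn hm hprod
        · rw [h2] at hprod
          exact lfx_helper64_mul_ne_left hn hm hprod
      · exact h1
    · intro hxK
      have hAle : A ≤ Cen x := by
        intro a ha
        rw [Subgroup.mem_centralizer_singleton_iff]
        have hc := (Subgroup.mem_inf.mp
          (show x ∈ H ⊓ Subgroup.centralizer (A : Set G) from hxK)).2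
        rw [Subgroup.mem_centralizer_iff] at hc
        exact hc a ha
      have hrel : (Cen x).relIndex A = 1 := Subgroup.relIndex_eq_one.mpr hAle
      rw [hcx, hrel, one_mul] at hprod
      rcases hH1 with h1 | h1
      · rw [h1] at hprod
        exact lfx_helper64_mul_ne_one hn hm hprod
      · rw [h1] at hprod
        exact lfx_helper64_mul_ne_right hn hm hprod
  · exfalso
    have hxK : x ∈ CHA A H := hLF2 G n m A H x y hctx hxH hyA hym hyx.symm
    have h2 := hLFK2 G n m A H y x hctx hyA hym hxK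
    have hKle : CHA A H ≤ Cen x := by
      intro k hk
      rw [Subgroup.mem_centralizer_singleton_iff]
      exact hLFK3 G n m A H k x hctx hk hxK
    have hrel : (Cen x).relIndex (CHA A H) = 1 := Subgroup.relIndex_eq_one.mpr hKle
    rw [hrel, mul_one, hcs] at h2
    exact lfx_helper64_mul_ne_right hn hm h2

end Cfsg.Agent.Lib.Helper4.FC
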