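import Mathlib
import Cfsg.Agent.Lib.Helper4.FCDefs

/-!
# Project FC (S4146, helper4): piece MAXCEN (helper64)
-/

namespace Cfsg.Agent.Lib.Helper4.FC

universe u

theorem fc_maxcen : L3Stmt.{u} → MaxCenStmt.{u} := by
  intro hL3 G _ _ n m x y hF hx hy hcop
  obtain ⟨hn1, hm1, -, hall, -, -, -⟩ := hF
  have hcomm : Commute x y := by
    rw [Subgroup.mem_centralizer_singleton_iff] at hy
    exact hy.symm
  have h1 : Cen (x * y) = Cen x ⊓ Cen y := hL3 G x y hcomm hcop
  have hle : cs (x * y) ≤ n * m := by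
    rcases hall (x * y) with h | h | h | h
    · rw [h]; nlinarith
    · rw [h]; nlinarith
    · rw [h]; nlinarith
    · rw [h]
  have h2 : (Cen x ⊓ Cen y).index ≤ n * m := by
    rw [← h1]; exact hle
  have h3 : (Cen x ⊓ Cen y).relIndex (Cen x) * (Cen x).index = (Cen x ⊓ Cen y).index :=
    Subgroup.relIndex_mul_index inf_le_left
  have hx' : (Cen x).index = n * m := hx
  have h4 : (Cen x ⊓ Cen y).relIndex (Cen x) ≠ 0 := by
    unfold Subgroup.relIndex
    exact Subgroup.index_ne_zero_of_finite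
  have h5 : (Cen x ⊓ Cen y).relIndex (Cen x) = 1 := by
    rw [hx'] at h3
    have h6 : (Cen x ⊓ Cen y).relIndex (Cen x) * (n * m) ≤ 1 * (n * m) := by
      rw [h3, one_mul]; exact h2
    have h7 : 0 < n * m := by positivity
    have h8 := Nat.le_of_mul_le_mul_right h6 h7
    omega
  have h6 : Cen x ≤ Cen x ⊓ Cen y := Subgroup.relIndex_eq_one.mp h5
  exact h6.trans inf_le_right

end Cfsg.Agent.Lib.Helper4.FC
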