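import Mathlib
import Cfsg.Agent.Lib.Helper4.FCDefs

/-!
# Project FC (S4146, helper4): piece PRIM (helper64)
-/

namespace Cfsg.Agent.Lib.Helper4.FC

universe u

theorem prim_helper64_cen_pow {G : Type u} [Group G] (x : G) (k : ℕ) : Cen x ≤ Cen (x ^ k) := by
  intro g hg
  rw [Subgroup.mem_centralizer_singleton_iff] at hg ⊢
  have hc : Commute g x := hg
  exact (hc.pow_right k).eq

theorem prim_helper64_cs_dvd {G : Type u} [Group G] [Finite G] (n m : ℕ) (hF : Four G n m)
    (x y : G) (hx : cs x = n) (hle : Cen x ≤ Cen y) : cs y = 1 ∨ cs y = n := by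
  obtain ⟨hn1, hm1, hcop, hall, -, -, -⟩ := hF
  have hdvd : cs y ∣ n := by
    rw [← hx]; exact Subgroup.index_dvd_of_le hle
  rcases hall y with h | h | h | h
  · exact Or.inl h
  · exact Or.inr h
  · exfalso
    rw [h] at hdvd
    have h1 := Nat.Coprime.eq_one_of_dvd hcop.symm hdvd
    omega
  · exfalso
    rw [h] at hdvd
    have h1 := Nat.le_of_dvd (by omega) hdvd
    nlinarith

theorem prim_helper64_main (G : Type u) [Group G] [Finite G] (n m : ℕ) (hF : Four G n m) :
    ∀ N : ℕ, ∀ x : G, orderOf x = N → cs x = n →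
      ∃ (p : ℕ) (a : G), p.Prime ∧ Prim p a ∧ cs a = n ∧ Cen x ≤ Cen a := by
  intro N
  induction N using Nat.strong_induction_on with
  | _ N ih =>
    intro x hN hx
    have hn1 : 1 < n := hF.1
    have hN0 : N ≠ 0 := by
      rw [← hN]; exact (orderOf_pos x).ne'
    have hN1 : N ≠ 1 := by
      intro h1
      rw [h1, orderOf_eq_one_iff] at hN
      have h2 : Cen x = ⊤ := by
        rw [hN]; ext g; simp [Subgroup.mem_centralizer_iff]
      have h3 : cs x = 1 := by
        show (Cen x).index = 1
        rw [h2, Subgroup.index_top]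
      omega
    obtain ⟨p, hp, hpN⟩ := Nat.exists_prime_and_dvd hN1
    obtain ⟨e, d, hpd, hNe⟩ := Nat.exists_eq_pow_mul_and_not_dvd hN0 p hp.ne_one
    by_cases hd : d = 1
    · exact ⟨p, x, hp, ⟨e, by rw [hN, hNe, hd, mul_one]⟩, hx, le_refl _⟩
    · have he : e ≠ 0 := by
        rintro rfl
        rw [pow_zero, one_mul] at hNe
        exact hpd (hNe ▸ hpN)
      have hd0 : d ≠ 0 := by
        rintro rfl
        rw [mul_zero] at hNe
        exact hN0 hNe
      have hpe1 : 1 < p ^ e := Nat.one_lt_pow he hp.one_lt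
      have hd1 : 1 < d := by omega
      have hpe0 : p ^ e ≠ 0 := by positivity
      have hu : orderOf (x ^ (p ^ e)) = d := by
        rw [orderOf_pow_of_dvd hpe0 (by rw [hN, hNe]; exact dvd_mul_right _ _), hN, hNe,
          Nat.mul_div_cancel_left d (by omega)]
      have hv : orderOf (x ^ d) = p ^ e := by
        rw [orderOf_pow_of_dvd hd0 (by rw [hN, hNe]; exact dvd_mul_left _ _), hN, hNe,
          Nat.mul_div_cancel (p ^ e) (by omega)]
      have hdN : d < N := by
        rw [hNe]; nlinarith
      have hpeN : p ^ e < N := by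
        rw [hNe]; nlinarith
      rcases prim_helper64_cs_dvd n m hF x (x ^ (p ^ e)) hx (prim_helper64_cen_pow x _) with
        h1 | h1
      · rcases prim_helper64_cs_dvd n m hF x (x ^ d) hx (prim_helper64_cen_pow x _) with
          h2 | h2
        · exfalso
          have hcu : Cen (x ^ (p ^ e)) = ⊤ := Subgroup.index_eq_one.mp h1
          have hcv : Cen (x ^ d) = ⊤ := Subgroup.index_eq_one.mp h2
          have hcop : Nat.Coprime (p ^ e) d :=
            Nat.Coprime.pow_left e ((Nat.Prime.coprime_iff_not_dvd hp).mpr hpd)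
          have hb : (1 : ℤ) = ((p ^ e : ℕ) : ℤ) * Nat.gcdA (p ^ e) d +
              (d : ℤ) * Nat.gcdB (p ^ e) d := by
            have h3 := Nat.gcd_eq_gcd_ab (p ^ e) d
            rw [hcop.gcd_eq_one] at h3
            exact_mod_cast h3
          have hxe : x = (x ^ (p ^ e)) ^ (Nat.gcdA (p ^ e) d) *
              (x ^ d) ^ (Nat.gcdB (p ^ e) d) := by
            conv_lhs => rw [← zpow_one x, hb, zpow_add, zpow_mul, zpow_mul, zpow_natCast,
              zpow_natCast]
          have hcx : Cen x = ⊤ := by
            rw [eq_top_iff]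
            intro g _
            have hgu : g ∈ Cen (x ^ (p ^ e)) := by
              rw [hcu]; exact Subgroup.mem_top g
            have hgv : g ∈ Cen (x ^ d) := by
              rw [hcv]; exact Subgroup.mem_top g
            rw [Subgroup.mem_centralizer_singleton_iff] at hgu hgv ⊢
            have c1 : Commute g (x ^ (p ^ e)) := hgu
            have c2 : Commute g (x ^ d) := hgv
            have c3 := (c1.zpow_right (Nat.gcdA (p ^ e) d)).mul_right
              (c2.zpow_right (Nat.gcdB (p ^ e) d))
            rw [← hxe] at c3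
            exact c3.eq
          have h3 : cs x = 1 := by
            show (Cen x).index = 1
            rw [hcx, Subgroup.index_top]
          omega
        · obtain ⟨q, a, hq, ha, hca, hle⟩ := ih (p ^ e) hpeN (x ^ d) hv h2
          exact ⟨q, a, hq, ha, hca, (prim_helper64_cen_pow x _).trans hle⟩
      · obtain ⟨q, a, hq, ha, hca, hle⟩ := ih d hdN (x ^ (p ^ e)) hu h1
        exact ⟨q, a, hq, ha, hca, (prim_helper64_cen_pow x _).trans hle⟩

theorem fc_prim : PrimStmt.{u} := by
  intro G _ _ n m x hF hx
  exact prim_helper64_main G n m hF (orderOf x) x rfl hx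

end Cfsg.Agent.Lib.Helper4.FC
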