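import Mathlib
import Cfsg.Agent.Lib.Helper23.Syl
import Cfsg.Agent.Lib.Helper76.SylPrime

/-!
# S0496 piece NS420 (helper64 for helper11): no simple group of order 420 or 840
-/

set_option autoImplicit false

namespace Cfsg.Agent.S496

open Cfsg.Agent.Lib.Helper23 Cfsg.Agent.Lib.Helper76.SylPrime

/-- an involution centralizing a Sylow 7-subgroup cannot exist when `n_7 = 15` -/
theorem ns420_aux_inv {G : Type*} [Group G] [Finite G] [IsSimpleGroup G]
    (hG : ¬ IsMulCommutative G) [Fact (Nat.Prime 7)]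
    (hn : Nat.card (Sylow 7 G) = 15) (P : Sylow 7 G)
    (h2 : 2 ∣ Nat.card (Subgroup.centralizer ((P : Subgroup G) : Set G))) : False := by
  have : Fact (Nat.Prime 2) := ⟨by norm_num⟩
  have hn1 : Nat.card (Sylow 7 G) ≠ 1 := by rw [hn]; norm_num
  obtain ⟨t, ht, ht1, ht2⟩ := exists_mem_pow_eq_one
    (Subgroup.centralizer ((P : Subgroup G) : Set G)) 2 h2
  have e1 := fix_mod P t ht
  have e2 := fix_mod_four hG hn1 t ht1 ht2
  have e3 := fix_lt hG hn1 t ht1
  rw [hn] at e2 e3
  omega

theorem ns420 {G : Type*} [Group G] [Finite G] [IsSimpleGroup G] (h : Nat.card G = 420) :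
    False := by
  have hG : ¬ IsMulCommutative G :=
    not_comm_of_simple_of_not_prime (by rw [h]; norm_num)
  have : Fact (Nat.Prime 7) := ⟨by norm_num⟩
  have h1 : Nat.card G = 7 ^ 1 * 60 := h.trans (by norm_num)
  have hm : ¬ 7 ∣ 60 := by norm_num
  have hmem := card_sylow_mem_filter h1 hm
  have hne := simple_sylow_card_ne_one h1 hm (by norm_num) (by norm_num)
  rw [show (Nat.divisors 60).filter (fun d => d % 7 = 1) = {1, 15} from by decide +kernel] at hmem
  simp only [Finset.mem_insert, Finset.mem_singleton] at hmem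
  have hc : ∀ Q : Sylow 7 G, Nat.card (Q : Subgroup G) = 7 := fun Q => by
    have := sylow_card_of_eq h1 hm Q
    rwa [pow_one] at this
  obtain ⟨P⟩ : Nonempty (Sylow 7 G) := inferInstance
  obtain ⟨r, c, hr, hr1, hC, hN, hcard⟩ := card_centralizer_mul hG hc P
  rcases hmem with h2 | h2
  · exact hne h2
  · rw [h2, h] at hcard
    have hr6 : r ≤ 6 := Nat.le_of_dvd (by norm_num) hr
    have hcr : c * r = 4 := by nlinarith
    have hr2 : r = 2 := by
      interval_cases r <;> omega
    rw [hr2] at hcr
    have hc2 : c = 2 := by omega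
    apply ns420_aux_inv hG h2 P
    rw [hC, hc2]
    norm_num

theorem ns840 {G : Type*} [Group G] [Finite G] [IsSimpleGroup G] (h : Nat.card G = 840) :
    False := by
  have hG : ¬ IsMulCommutative G :=
    not_comm_of_simple_of_not_prime (by rw [h]; norm_num)
  have : Fact (Nat.Prime 7) := ⟨by norm_num⟩
  have h1 : Nat.card G = 7 ^ 1 * 120 := h.trans (by norm_num)
  have hm : ¬ 7 ∣ 120 := by norm_num
  have hmem := card_sylow_mem_filter h1 hm
  have hne := simple_sylow_card_ne_one h1 hm (by norm_num) (by norm_num)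
  rw [show (Nat.divisors 120).filter (fun d => d % 7 = 1) = {1, 8, 15, 120} from by
    decide +kernel] at hmem
  simp only [Finset.mem_insert, Finset.mem_singleton] at hmem
  have hc : ∀ Q : Sylow 7 G, Nat.card (Q : Subgroup G) = 7 := fun Q => by
    have := sylow_card_of_eq h1 hm Q
    rwa [pow_one] at this
  obtain ⟨P⟩ : Nonempty (Sylow 7 G) := inferInstance
  obtain ⟨r, c, hr, hr1, hC, hN, hcard⟩ := card_centralizer_mul hG hc P
  have hr6 : r ≤ 6 := Nat.le_of_dvd (by norm_num) hr
  rcases hmem with h2 | h2 | h2 | h2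
  · exact hne h2
  · -- n_7 = 8
    rw [h2, h] at hcard
    have hcr : c * r = 15 := by nlinarith
    have hr3 : r = 3 := by
      interval_cases r <;> omega
    rw [hr3] at hcr
    have hc5 : c = 5 := by omega
    have : Fact (Nat.Prime 5) := ⟨by norm_num⟩
    have h5 : 5 ∣ Nat.card (Subgroup.centralizer ((P : Subgroup G) : Set G)) := by
      rw [hC, hc5]
      norm_num
    obtain ⟨y, hy, hy1, hy5⟩ := exists_mem_pow_eq_one
      (Subgroup.centralizer ((P : Subgroup G) : Set G)) 5 h5
    have e1 := fix_mod P y hy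
    have e2 := fix_modEq_of_pow (p := 7) 5 y 1 (by rw [pow_one]; exact hy5)
    have e3 := fix_lt (p := 7) hG hne y hy1
    rw [h2] at e2 e3
    omega
  · -- n_7 = 15
    rw [h2, h] at hcard
    have hcr : c * r = 8 := by nlinarith
    have hr2 : r = 2 := by
      interval_cases r <;> omega
    rw [hr2] at hcr
    have hc4 : c = 4 := by omega
    apply ns420_aux_inv hG h2 P
    rw [hC, hc4]
    norm_num
  · -- n_7 = 120
    rw [h2, h] at hcard
    have hcr : c * r = 1 := by nlinarith
    exact hr1 (Nat.eq_one_of_mul_eq_one_left hcr)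

end Cfsg.Agent.S496
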