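import Mathlib

/-!
Piece D for S4130 (square-free class sizes): an abelian minimal normal subgroup of a finite group
all of whose class sizes are square-free has prime order.
-/

set_option autoImplicit false

namespace Cfsg.Agent.Lib.Helper64.SqfD

variable {G : Type*} [Group G]

/-- The commutator map `n ↦ a n a⁻¹ n⁻¹` on an abelian normal subgroup, as a homomorphism. -/
def theta (N : Subgroup G) [hNn : N.Normal] (hab : ∀ a ∈ N, ∀ b ∈ N, a * b = b * a) (a : G) :
    ↥N →* G where
  toFun n := a * n * a⁻¹ * (n : G)⁻¹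
  map_one' := by simp
  map_mul' n m := by
    have hw : a * m * a⁻¹ * (m : G)⁻¹ ∈ N :=
      N.mul_mem (hNn.conj_mem _ m.2 a) (N.inv_mem m.2)
    have h3 := hab _ hw _ (N.inv_mem n.2)
    have e1 : a * ((n : G) * m) * a⁻¹ * ((n : G) * m)⁻¹
        = a * n * a⁻¹ * ((a * m * a⁻¹ * (m : G)⁻¹) * (n : G)⁻¹) := by group
    show a * ((n : G) * m) * a⁻¹ * ((n : G) * m)⁻¹
        = a * n * a⁻¹ * (n : G)⁻¹ * (a * m * a⁻¹ * (m : G)⁻¹)
    rw [e1, h3]; group

theorem theta_apply (N : Subgroup G) [N.Normal] (hab : ∀ a ∈ N, ∀ b ∈ N, a * b = b * a) (a : G)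
    (n : N) : theta N hab a n = a * n * a⁻¹ * (n : G)⁻¹ := rfl

theorem theta_mem (N : Subgroup G) [hNn : N.Normal] (hab : ∀ a ∈ N, ∀ b ∈ N, a * b = b * a)
    (a : G) (n : N) : theta N hab a n ∈ N :=
  N.mul_mem (hNn.conj_mem _ n.2 a) (N.inv_mem n.2)

theorem range_le (N : Subgroup G) [N.Normal] (hab : ∀ a ∈ N, ∀ b ∈ N, a * b = b * a) (a : G) :
    (theta N hab a).range ≤ N := by
  rintro _ ⟨n, rfl⟩
  exact theta_mem N hab a n

theorem theta_eq_one_iff (N : Subgroup G) [N.Normal] (hab : ∀ a ∈ N, ∀ b ∈ N, a * b = b * a)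
    (a : G) (n : N) : theta N hab a n = 1 ↔ a * n = n * a := by
  rw [theta_apply]
  constructor
  · intro h
    calc a * (n : G) = (a * n * a⁻¹ * (n : G)⁻¹) * (n * a) := by group
      _ = n * a := by rw [h, one_mul]
  · intro h
    rw [h]; group

theorem theta_mul (N : Subgroup G) [N.Normal] (hab : ∀ a ∈ N, ∀ b ∈ N, a * b = b * a)
    (a b : G) (n : N) :
    theta N hab (a * b) n = a * theta N hab b n * a⁻¹ * theta N hab a n := by
  simp only [theta_apply]; group

theorem conj_inv_mem (N : Subgroup G) [hNn : N.Normal] (hab : ∀ a ∈ N, ∀ b ∈ N, a * b = b * a)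
    (a : G) {x : G} (hx : x ∈ (theta N hab a).range) : a⁻¹ * x * a ∈ (theta N hab a).range := by
  obtain ⟨m, rfl⟩ := hx
  have hm : a⁻¹ * (m : G) * a ∈ N := by
    have := hNn.conj_mem m m.2 a⁻¹
    simpa using this
  refine ⟨⟨a⁻¹ * m * a, hm⟩, ?_⟩
  show a * (a⁻¹ * (m : G) * a) * a⁻¹ * (a⁻¹ * (m : G) * a)⁻¹
      = a⁻¹ * (a * (m : G) * a⁻¹ * (m : G)⁻¹) * a
  group

theorem eq_of_card_prime [Finite G] {r : ℕ} (hr : r.Prime) (H K : Subgroup G)
    (hH : Nat.card H = r) (hK : Nat.card K = r) (x : G) (hxH : x ∈ H) (hxK : x ∈ K)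
    (hx : x ≠ 1) : H = K := by
  have hz : Nat.card (Subgroup.zpowers x) = r := by
    have h1 : Nat.card (Subgroup.zpowers x) ∣ r := by
      rw [← hH]; exact Subgroup.card_dvd_of_le (Subgroup.zpowers_le.2 hxH)
    rcases (Nat.dvd_prime hr).1 h1 with h | h
    · exfalso
      rw [Nat.card_zpowers, orderOf_eq_one_iff] at h
      exact hx h
    · exact h
  have e1 : Subgroup.zpowers x = H :=
    Subgroup.eq_of_le_of_card_ge (Subgroup.zpowers_le.2 hxH) (by rw [hz, hH])
  have e2 : Subgroup.zpowers x = K :=
    Subgroup.eq_of_le_of_card_ge (Subgroup.zpowers_le.2 hxK) (by rw [hz, hK])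
  rw [← e1, e2]

theorem relIndex_dvd_index_right [Finite G] (C K : Subgroup G) [K.Normal] :
    C.relIndex K ∣ C.index := by
  have h1 : (C ⊓ K).index = C.relIndex K * K.index := by
    rw [← Subgroup.inf_relIndex_right, Subgroup.relIndex_mul_index inf_le_right]
  have h2 : (C ⊓ K).index = K.relIndex C * C.index := by
    rw [← Subgroup.inf_relIndex_left, Subgroup.relIndex_mul_index inf_le_left]
  have h3 : K.relIndex (C ⊔ K) * (C ⊔ K).index = K.index :=
    Subgroup.relIndex_mul_index le_sup_right
  rw [Subgroup.relIndex_sup_right] at h3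
  have h4 : K.relIndex C * (C.relIndex K * (C ⊔ K).index) = K.relIndex C * C.index := by
    rw [← h2, h1, ← h3]; ring
  have h5 : 0 < K.relIndex C := by
    rcases Nat.eq_zero_or_pos (K.relIndex C) with h0 | h0
    · rw [h0, zero_mul] at h2; exact absurd h2 Subgroup.index_ne_zero_of_finite
    · exact h0
  exact Dvd.intro _ (Nat.eq_of_mul_eq_mul_left h5 h4)

theorem card_range [Finite G]
    (hsq : ∀ x : G, Squarefree (Subgroup.centralizer ({x} : Set G)).index)
    (N : Subgroup G) [N.Normal] (hab : ∀ a ∈ N, ∀ b ∈ N, a * b = b * a)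
    {r : ℕ} (hr : r.Prime) (hNr : ∀ n ∈ N, n ^ r = 1) (a : G) :
    Nat.card (theta N hab a).range = 1 ∨ Nat.card (theta N hab a).range = r := by
  have : Fact r.Prime := ⟨hr⟩
  have hker : (theta N hab a).ker = (Subgroup.centralizer ({a} : Set G)).subgroupOf N := by
    ext n
    rw [MonoidHom.mem_ker, theta_eq_one_iff, Subgroup.mem_subgroupOf,
      Subgroup.mem_centralizer_iff]
    constructor
    · intro h y hy
      rw [Set.mem_singleton_iff] at hy
      rw [hy]; exact h
    · intro h
      exact h a rfl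
  have h1 : Nat.card (theta N hab a).range ∣ (Subgroup.centralizer ({a} : Set G)).index := by
    rw [← Subgroup.index_ker, hker]
    exact relIndex_dvd_index_right _ N
  have h2 : Nat.card (theta N hab a).range ∣ Nat.card N :=
    Subgroup.card_dvd_of_le (range_le N hab a)
  have hp : IsPGroup r N := by
    intro n
    refine ⟨1, ?_⟩
    rw [pow_one]
    exact Subtype.ext (hNr n n.2)
  obtain ⟨k, hk⟩ := (IsPGroup.iff_card).1 hp
  rw [hk] at h2
  obtain ⟨j, _, hj⟩ := (Nat.dvd_prime_pow hr).1 h2
  rcases Nat.lt_or_ge j 2 with hj2 | hj2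
  · interval_cases j
    · left; rw [hj, pow_zero]
    · right; rw [hj, pow_one]
  · exfalso
    have hdvd : r * r ∣ (Subgroup.centralizer ({a} : Set G)).index := by
      refine dvd_trans ?_ h1
      rw [hj, ← pow_two]
      exact pow_dvd_pow r hj2
    have := hsq a r hdvd
    rw [Nat.isUnit_iff] at this
    exact hr.one_lt.ne' this

theorem key [Finite G] (N : Subgroup G) [N.Normal] (hab : ∀ a ∈ N, ∀ b ∈ N, a * b = b * a)
    {r : ℕ} (hr : r.Prime)
    (hcard : ∀ a : G, Nat.card (theta N hab a).range = 1 ∨ Nat.card (theta N hab a).range = r)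
    (a b : G) (ha : Nat.card (theta N hab a).range = r)
    (hb : Nat.card (theta N hab b).range = r)
    (hne : (theta N hab a).range ≠ (theta N hab b).range) :
    ∀ n : N, a * (n : G) = n * a → b * (n : G) = n * b := by
  by_contra hcon
  push Not at hcon
  obtain ⟨n0, hn0a, hn0b⟩ := hcon
  have hka : Nat.card (theta N hab a).ker * r = Nat.card N := by
    have := Subgroup.card_mul_index (theta N hab a).ker
    rwa [Subgroup.index_ker, ha] at this
  have hkb : Nat.card (theta N hab b).ker * r = Nat.card N := by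
    have := Subgroup.card_mul_index (theta N hab b).ker
    rwa [Subgroup.index_ker, hb] at this
  have hkeq : Nat.card (theta N hab a).ker = Nat.card (theta N hab b).ker :=
    Nat.eq_of_mul_eq_mul_right hr.pos (hka.trans hkb.symm)
  have h1 : ∃ n1 : N, b * (n1 : G) = n1 * b ∧ a * (n1 : G) ≠ n1 * a := by
    by_contra h
    push Not at h
    have hle : (theta N hab b).ker ≤ (theta N hab a).ker := by
      intro n hn
      rw [MonoidHom.mem_ker, theta_eq_one_iff] at hn ⊢
      exact h n hn
    have heq := Subgroup.eq_of_le_of_card_ge hle hkeq.le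
    have hmem : n0 ∈ (theta N hab b).ker := by
      rw [heq, MonoidHom.mem_ker, theta_eq_one_iff]; exact hn0a
    rw [MonoidHom.mem_ker, theta_eq_one_iff] at hmem
    exact hn0b hmem
  obtain ⟨n1, hn1b, hn1a⟩ := h1
  have e1 : theta N hab (a * b) n1 = theta N hab a n1 := by
    rw [theta_mul, (theta_eq_one_iff N hab b n1).2 hn1b]; group
  have ne1 : theta N hab a n1 ≠ 1 := fun h => hn1a ((theta_eq_one_iff N hab a n1).1 h)
  have hab_card : Nat.card (theta N hab (a * b)).range = r := by
    rcases hcard (a * b) with h | h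
    · exfalso
      have hbot : (theta N hab (a * b)).range = ⊥ := Subgroup.card_eq_one.1 h
      have hm : theta N hab (a * b) n1 ∈ (theta N hab (a * b)).range := ⟨n1, rfl⟩
      rw [hbot, Subgroup.mem_bot, e1] at hm
      exact ne1 hm
    · exact h
  have m1 : theta N hab a n1 ∈ (theta N hab (a * b)).range := ⟨n1, e1⟩
  have hLab : (theta N hab (a * b)).range = (theta N hab a).range :=
    eq_of_card_prime hr _ _ hab_card ha (theta N hab a n1) m1 ⟨n1, rfl⟩ ne1
  have e0 : theta N hab (a * b) n0 = a * theta N hab b n0 * a⁻¹ := by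
    rw [theta_mul, (theta_eq_one_iff N hab a n0).2 hn0a, mul_one]
  have ne0 : theta N hab b n0 ≠ 1 := fun h => hn0b ((theta_eq_one_iff N hab b n0).1 h)
  have hmem : a * theta N hab b n0 * a⁻¹ ∈ (theta N hab a).range := by
    rw [← hLab, ← e0]; exact ⟨n0, rfl⟩
  have hmem2 : theta N hab b n0 ∈ (theta N hab a).range := by
    have h := conj_inv_mem N hab a hmem
    have e : a⁻¹ * (a * theta N hab b n0 * a⁻¹) * a = theta N hab b n0 := by group
    rwa [e] at h
  exact hne (eq_of_card_prime hr _ _ ha hb (theta N hab b n0) hmem2 ⟨n0, rfl⟩ ne0)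

/-- The elements of an abelian subgroup killed by `r`. -/
def killed (N : Subgroup G) (hab : ∀ a ∈ N, ∀ b ∈ N, a * b = b * a) (r : ℕ) : Subgroup G where
  carrier := {n | n ∈ N ∧ n ^ r = 1}
  one_mem' := ⟨N.one_mem, one_pow r⟩
  mul_mem' := fun {x y} hx hy => ⟨N.mul_mem hx.1 hy.1, by
    rw [(show Commute x y from hab x hx.1 y hy.1).mul_pow, hx.2, hy.2, one_mul]⟩
  inv_mem' := fun {x} hx => ⟨N.inv_mem hx.1, by rw [inv_pow, hx.2, inv_one]⟩

theorem mem_killed (N : Subgroup G) (hab : ∀ a ∈ N, ∀ b ∈ N, a * b = b * a) (r : ℕ) (n : G) :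
    n ∈ killed N hab r ↔ n ∈ N ∧ n ^ r = 1 := Iff.rfl

theorem min_normal_prime {G : Type*} [Group G] [Finite G]
    (hsq : ∀ x : G, Squarefree (Subgroup.centralizer ({x} : Set G)).index)
    (N : Subgroup G) [N.Normal] (hN : N ≠ ⊥)
    (hab : ∀ a ∈ N, ∀ b ∈ N, a * b = b * a)
    (hmin : ∀ M : Subgroup G, M.Normal → M ≤ N → M = ⊥ ∨ M = N) :
    (Nat.card N).Prime := by
  classical
  have hNn : N.Normal := inferInstance
  have hcardN : Nat.card N ≠ 1 := fun h => hN (Subgroup.card_eq_one.1 h)
  obtain ⟨r, hr, hrN⟩ := Nat.exists_prime_and_dvd hcardN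
  have : Fact r.Prime := ⟨hr⟩
  obtain ⟨x0, hx0⟩ := exists_prime_orderOf_dvd_card' r hrN
  have hx0ne : (x0 : G) ≠ 1 := by
    intro h
    have h' : x0 = 1 := Subtype.ext h
    rw [h', orderOf_one] at hx0
    exact hr.one_lt.ne hx0
  have hx0r : (x0 : G) ^ r = 1 := by
    have h := pow_orderOf_eq_one x0
    rw [hx0] at h
    have h2 := congrArg Subtype.val h
    simpa using h2
  -- Step 1: `N` has exponent `r`.
  have hMn : (killed N hab r).Normal := by
    refine ⟨fun n hn g => ?_⟩
    rw [mem_killed] at hn ⊢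
    refine ⟨hNn.conj_mem n hn.1 g, ?_⟩
    rw [conj_pow, hn.2]; group
  have hMN : killed N hab r = N := by
    rcases hmin _ hMn (fun n hn => hn.1) with h | h
    · exfalso
      have hm : (x0 : G) ∈ killed N hab r := ⟨x0.2, hx0r⟩
      rw [h, Subgroup.mem_bot] at hm
      exact hx0ne hm
    · exact h
  have hNr : ∀ n ∈ N, n ^ r = 1 := by
    intro n hn
    have hn' : n ∈ killed N hab r := by rw [hMN]; exact hn
    exact hn'.2
  -- Step 2: the ranges of the commutator maps have order 1 or r.
  have hcard := card_range hsq N hab hr hNr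
  have triv : ∀ c : G, Nat.card (theta N hab c).range = 1 → ∀ n : N, theta N hab c n = 1 := by
    intro c hc n
    have hbot : (theta N hab c).range = ⊥ := Subgroup.card_eq_one.1 hc
    have hm : theta N hab c n ∈ (theta N hab c).range := ⟨n, rfl⟩
    rw [hbot, Subgroup.mem_bot] at hm
    exact hm
  -- Step 3: split according to `N ⊓ Z(G)`.
  have hZn : (N ⊓ Subgroup.center G).Normal := inferInstance
  rcases hmin (N ⊓ Subgroup.center G) hZn inf_le_left with hZ | hZ
  · -- `N ⊓ Z(G) = ⊥`
    have hx0c : (x0 : G) ∉ Subgroup.center G := by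
      intro h
      have hm : (x0 : G) ∈ N ⊓ Subgroup.center G := ⟨x0.2, h⟩
      rw [hZ, Subgroup.mem_bot] at hm
      exact hx0ne hm
    rw [Subgroup.mem_center_iff] at hx0c
    push Not at hx0c
    obtain ⟨a, ha⟩ := hx0c
    have hane : theta N hab a x0 ≠ 1 := fun h => ha ((theta_eq_one_iff N hab a x0).1 h)
    have hLa : Nat.card (theta N hab a).range = r :=
      (hcard a).resolve_left (fun h => hane (triv a h x0))
    by_cases hall : ∀ c : G, Nat.card (theta N hab c).range = r →
        (theta N hab c).range = (theta N hab a).range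
    · -- all nontrivial ranges coincide: the range is normal
      have hLn : ((theta N hab a).range).Normal := by
        refine ⟨fun x hx g => ?_⟩
        obtain ⟨n, rfl⟩ := hx
        by_cases h1 : theta N hab a n = 1
        · rw [h1]
          have : g * (1 : G) * g⁻¹ = 1 := by group
          rw [this]; exact Subgroup.one_mem _
        · have hmem : g * (n : G) * g⁻¹ ∈ N := hNn.conj_mem n n.2 g
          have e : g * theta N hab a n * g⁻¹
              = theta N hab (g * a * g⁻¹) ⟨g * n * g⁻¹, hmem⟩ := by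
            show g * (a * (n : G) * a⁻¹ * (n : G)⁻¹) * g⁻¹
              = (g * a * g⁻¹) * (g * (n : G) * g⁻¹) * (g * a * g⁻¹)⁻¹ * (g * (n : G) * g⁻¹)⁻¹
            group
          have hne' : theta N hab (g * a * g⁻¹) ⟨g * n * g⁻¹, hmem⟩ ≠ 1 := by
            rw [← e]
            intro h
            apply h1
            calc theta N hab a n = g⁻¹ * (g * theta N hab a n * g⁻¹) * g := by group
              _ = 1 := by rw [h]; group
          have hc : Nat.card (theta N hab (g * a * g⁻¹)).range = r :=
            (hcard _).resolve_left (fun h => hne' (triv _ h _))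
          rw [e, ← hall _ hc]
          exact ⟨_, rfl⟩
      rcases hmin _ hLn (range_le N hab a) with h | h
      · exfalso
        exact hane (by
          have hm : theta N hab a x0 ∈ (theta N hab a).range := ⟨x0, rfl⟩
          rw [h, Subgroup.mem_bot] at hm
          exact hm)
      · have hc : Nat.card N = r := by
          rw [← hLa]
          exact (congrArg (fun H : Subgroup G => Nat.card H) h).symm
        rw [hc]; exact hr
    · push Not at hall
      obtain ⟨b, hLb, hneb⟩ := hall
      have hcen : ∀ n : N, a * (n : G) = n * a → ∀ c : G, c * (n : G) = n * c := by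
        intro n hna c
        rcases hcard c with hc | hc
        · exact (theta_eq_one_iff N hab c n).1 (triv c hc n)
        · by_cases hca : (theta N hab c).range = (theta N hab a).range
          · have hcb : (theta N hab c).range ≠ (theta N hab b).range :=
              fun h => hneb (h.symm.trans hca)
            have h1 := key N hab hr hcard a b hLa hLb (fun h => hneb h.symm) n hna
            exact key N hab hr hcard b c hLb hc (fun h => hcb h.symm) n h1
          · exact key N hab hr hcard a c hLa hc (fun h => hca h.symm) n hna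
      have hinj : Function.Injective (theta N hab a) := by
        rw [injective_iff_map_eq_one]
        intro n hn
        have hna := (theta_eq_one_iff N hab a n).1 hn
        have hm : (n : G) ∈ N ⊓ Subgroup.center G :=
          ⟨n.2, Subgroup.mem_center_iff.2 (fun g => hcen n hna g)⟩
        rw [hZ, Subgroup.mem_bot] at hm
        exact Subtype.ext hm
      have hc : Nat.card N = r := by
        rw [← hLa]
        exact Nat.card_congr (MonoidHom.ofInjective hinj).toEquiv
      rw [hc]; exact hr
  · -- `N ≤ Z(G)`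
    have hNZ : N ≤ Subgroup.center G := inf_eq_left.1 hZ
    have hzn : (Subgroup.zpowers (x0 : G)).Normal := by
      refine ⟨fun n hn g => ?_⟩
      have hnN : n ∈ N := (Subgroup.zpowers_le.2 x0.2) hn
      have hnZ := Subgroup.mem_center_iff.1 (hNZ hnN) g
      have : g * n * g⁻¹ = n := by rw [hnZ]; group
      rw [this]; exact hn
    rcases hmin _ hzn (Subgroup.zpowers_le.2 x0.2) with h | h
    · exfalso
      have hm : (x0 : G) ∈ Subgroup.zpowers (x0 : G) := Subgroup.mem_zpowers _
      rw [h, Subgroup.mem_bot] at hm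
      exact hx0ne hm
    · have hc : Nat.card N = r := by
        have h1 : Nat.card (Subgroup.zpowers (x0 : G)) = r := by
          rw [Nat.card_zpowers, Subgroup.orderOf_coe, hx0]
        rw [← h1]
        exact (congrArg (fun H : Subgroup G => Nat.card H) h).symm
      rw [hc]; exact hr

end Cfsg.Agent.Lib.Helper64.SqfD
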