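import Mathlib
import Cfsg.Prelude.Def_SolvableStructure
import Cfsg.Prelude.Def_Solvable
import Cfsg.Agent.Lib.Helper64.SqfD

/-!
Piece FIN for S4130 (square-free class sizes): the final assembly from `G'` cyclic of square-free
order.
-/

set_option autoImplicit false

namespace Cfsg.Agent.Lib.Helper64.SqfFIN

variable {G : Type*} [Group G]

/-- The chain obtained by adjoining the elements `x 0, x 1, …` one at a time. -/
def hseq (x : ℕ → G) : ℕ → Subgroup G
  | 0 => ⊥
  | (k + 1) => hseq x k ⊔ Subgroup.zpowers (x k)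

theorem hseq_succ (x : ℕ → G) (k : ℕ) :
    hseq x (k + 1) = hseq x k ⊔ Subgroup.zpowers (x k) := rfl

theorem hseq_mono (x : ℕ → G) {j k : ℕ} (h : j ≤ k) : hseq x j ≤ hseq x k := by
  induction h with
  | refl => exact le_rfl
  | step _ ih =>
    rw [hseq_succ]
    exact ih.trans le_sup_left

theorem mem_hseq (x : ℕ → G) {j k : ℕ} (h : j < k) : x j ∈ hseq x k := by
  have h1 : x j ∈ hseq x (j + 1) := by
    rw [hseq_succ]
    exact Subgroup.mem_sup_right (Subgroup.mem_zpowers _)
  exact hseq_mono x h h1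

theorem comm_mem (a b : G) : a * b * a⁻¹ * b⁻¹ ∈ commutator G := by
  show a * b * a⁻¹ * b⁻¹ ∈ ⁅(⊤ : Subgroup G), ⊤⁆
  exact Subgroup.commutator_mem_commutator (Subgroup.mem_top a) (Subgroup.mem_top b)

theorem normal_of_commutator_le (H : Subgroup G) (hH : commutator G ≤ H) : H.Normal := by
  refine ⟨fun n hn g => ?_⟩
  have h2 : g * n * g⁻¹ = (g * n * g⁻¹ * n⁻¹) * n := by group
  rw [h2]
  exact H.mul_mem (hH (comm_mem g n)) hn

/-- An enumeration of the group, preceded by a chosen element. -/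
noncomputable def xseq [Finite G] (c : G) : ℕ → G
  | 0 => c
  | (k + 1) => if h : k < Nat.card G then (Finite.equivFin G).symm ⟨k, h⟩ else 1

theorem xseq_succ [Finite G] (c : G) (g : G) :
    xseq c (((Finite.equivFin G) g : ℕ) + 1) = g := by
  show (if h : ((Finite.equivFin G) g : ℕ) < Nat.card G then
    (Finite.equivFin G).symm ⟨_, h⟩ else 1) = g
  rw [dif_pos ((Finite.equivFin G) g).2]
  simp

theorem supersolvable_of_cyclic_commutator [Finite G] (c : G)
    (hc : Subgroup.zpowers c = commutator G) : Cfsg.IsSupersolvable G := by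
  refine ⟨Nat.card G + 1, fun i => hseq (xseq c) i.val, rfl, ?_, ?_, ?_⟩
  · rw [Subgroup.eq_top_iff']
    intro g
    have hlt : ((Finite.equivFin G) g : ℕ) + 1 < Nat.card G + 1 := by
      have := ((Finite.equivFin G) g).2
      omega
    have h1 := mem_hseq (xseq c) hlt
    rw [xseq_succ] at h1
    exact h1
  · intro i
    rcases Nat.eq_zero_or_pos i.val with h0 | h0
    · show (hseq (xseq c) i.val).Normal
      rw [h0]
      show (⊥ : Subgroup G).Normal
      infer_instance
    · apply normal_of_commutator_le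
      rw [← hc]
      have h1 : hseq (xseq c) 1 ≤ hseq (xseq c) i.val := hseq_mono _ h0
      refine le_trans ?_ h1
      rw [hseq_succ]
      exact le_sup_right
  · intro i
    refine ⟨xseq c i.val, ?_⟩
    show hseq (xseq c) (i.val + 1) = hseq (xseq c) i.val ⊔ Subgroup.zpowers (xseq c i.val)
    rfl

theorem comm_of_cyclic (D : Subgroup G) [hD : IsCyclic D] :
    ∀ a ∈ D, ∀ b ∈ D, a * b = b * a := by
  obtain ⟨c, hc⟩ := IsCyclic.exists_generator (α := D)
  intro a ha b hb
  obtain ⟨i, hi⟩ := Subgroup.mem_zpowers_iff.1 (hc ⟨a, ha⟩)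
  obtain ⟨j, hj⟩ := Subgroup.mem_zpowers_iff.1 (hc ⟨b, hb⟩)
  have h := ((Commute.refl c).zpow_zpow i j).eq
  have h2 : (⟨a, ha⟩ : D) * ⟨b, hb⟩ = ⟨b, hb⟩ * ⟨a, ha⟩ := by
    rw [← hi, ← hj]; exact h
  exact congrArg Subtype.val h2

theorem ucs2 (K : Subgroup G)
    (hK : ∀ a ∈ K, ∀ b ∈ K, ∀ z ∈ K, z * (a * b * a⁻¹ * b⁻¹) = (a * b * a⁻¹ * b⁻¹) * z) :
    Subgroup.upperCentralSeries ↥K 2 = ⊤ := by
  rw [Subgroup.eq_top_iff']
  intro x
  change x ∈ Subgroup.upperCentralSeries ↥K (1 + 1)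
  rw [Subgroup.mem_upperCentralSeries_succ_iff]
  intro y
  rw [Subgroup.upperCentralSeries_one, Subgroup.mem_center_iff]
  intro z
  apply Subtype.ext
  exact hK x x.2 y y.2 z z.2

/-- A normal nilpotent subgroup centralizes a normal cyclic subgroup of square-free order. -/
theorem nil_centralizes [Finite G] (D : Subgroup G) [hDn : D.Normal]
    (habD : ∀ a ∈ D, ∀ b ∈ D, a * b = b * a)
    (c : D) (hcgen : ∀ x : D, x ∈ Subgroup.zpowers c) (hs : Squarefree (Nat.card D))
    (N : Subgroup G) [hNn : N.Normal] (hnil : Group.IsNilpotent N) (n : G) (hn : n ∈ N) :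
    n * (c : G) = (c : G) * n := by
  have hmemD : SqfD.theta D habD n c ∈ D := SqfD.theta_mem D habD n c
  obtain ⟨e, he⟩ : ∃ e : ℕ, c ^ e = ⟨SqfD.theta D habD n c, hmemD⟩ := by
    have h1 := hcgen ⟨_, hmemD⟩
    rw [← mem_powers_iff_mem_zpowers] at h1
    exact (Submonoid.mem_powers_iff _ _).1 h1
  have he' : SqfD.theta D habD n c = ((c ^ e : D) : G) := by rw [he]
  have hformula : ∀ k : ℕ,
      SqfD.theta D habD n (c ^ (e ^ k)) = ((c ^ (e ^ (k + 1)) : D) : G) := by
    intro k
    have e1 : c ^ (e ^ (k + 1)) = (c ^ e) ^ (e ^ k) := by rw [← pow_mul, pow_succ']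
    rw [e1, map_pow, he']
    simp only [Subgroup.coe_pow]
  obtain ⟨m, hm⟩ := (Subgroup.isNilpotent_iff_lowerCentralSeries N).1 hnil
  have hlcs : ∀ k : ℕ, ((c ^ (e ^ (k + 1)) : D) : G) ∈ N.lowerCentralSeries k := by
    intro k
    induction k with
    | zero =>
      rw [← hformula 0]
      show n * ((c ^ (e ^ 0) : D) : G) * n⁻¹ * ((c ^ (e ^ 0) : D) : G)⁻¹ ∈ N
      have e2 : n * ((c ^ (e ^ 0) : D) : G) * n⁻¹ * ((c ^ (e ^ 0) : D) : G)⁻¹
          = n * (((c ^ (e ^ 0) : D) : G) * n⁻¹ * ((c ^ (e ^ 0) : D) : G)⁻¹) := by group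
      rw [e2]
      exact N.mul_mem hn (hNn.conj_mem _ (N.inv_mem hn) _)
    | succ k ih =>
      rw [← hformula (k + 1), Subgroup.lowerCentralSeries_succ]
      have h1 : ((c ^ (e ^ (k + 1)) : D) : G) * n * ((c ^ (e ^ (k + 1)) : D) : G)⁻¹ * n⁻¹
          ∈ ⁅N.lowerCentralSeries k, N⁆ :=
        Subgroup.commutator_mem_commutator ih hn
      have h2 : SqfD.theta D habD n (c ^ (e ^ (k + 1)))
          = (((c ^ (e ^ (k + 1)) : D) : G) * n * ((c ^ (e ^ (k + 1)) : D) : G)⁻¹ * n⁻¹)⁻¹ := by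
        show n * ((c ^ (e ^ (k + 1)) : D) : G) * n⁻¹ * ((c ^ (e ^ (k + 1)) : D) : G)⁻¹
          = (((c ^ (e ^ (k + 1)) : D) : G) * n * ((c ^ (e ^ (k + 1)) : D) : G)⁻¹ * n⁻¹)⁻¹
        group
      rw [h2]
      exact inv_mem h1
  have h1 : ((c ^ (e ^ (m + 1)) : D) : G) = 1 := by
    have h := hlcs m
    rw [hm, Subgroup.mem_bot] at h
    exact h
  have h2 : c ^ (e ^ (m + 1)) = 1 := Subtype.ext h1
  have h3 : orderOf c ∣ e ^ (m + 1) := orderOf_dvd_of_pow_eq_one h2
  have h4 : orderOf c = Nat.card D := orderOf_eq_card_of_forall_mem_zpowers hcgen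
  have h5 : orderOf c ∣ e := by
    rw [h4] at h3 ⊢
    exact (hs.dvd_pow_iff_dvd (Nat.succ_ne_zero m)).1 h3
  have h6 : c ^ e = 1 := orderOf_dvd_iff_pow_eq_one.1 h5
  have h7 : SqfD.theta D habD n c = 1 := by rw [he', h6]; rfl
  exact (SqfD.theta_eq_one_iff D habD n c).1 h7

theorem final_assembly {G : Type*} [Group G] [Finite G]
    (h : ∀ x : G, Squarefree (Subgroup.centralizer ({x} : Set G)).index)
    (hc : IsCyclic (commutator G)) (hs : Squarefree (Nat.card (commutator G))) :
    Cfsg.IsSupersolvable G ∧ (Cfsg.fittingSubgroup G).Normal ∧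
    (∀ _h : (Cfsg.fittingSubgroup G).Normal, IsCyclic (G ⧸ Cfsg.fittingSubgroup G) ∧ Squarefree (Cfsg.fittingSubgroup G).index) ∧
    IsCyclic (commutator G) ∧ Squarefree (Nat.card (commutator G)) ∧
    Subgroup.upperCentralSeries ↥(Cfsg.fittingSubgroup G) 2 = ⊤ ∧ commutator ↥(commutator G) = ⊥ := by
  classical
  have := hc
  obtain ⟨c, hcgen⟩ := IsCyclic.exists_generator (α := commutator G)
  have habD := comm_of_cyclic (commutator G)
  have hzp : Subgroup.zpowers (c : G) = commutator G := by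
    apply le_antisymm (Subgroup.zpowers_le.2 c.2)
    intro d hd
    obtain ⟨i, hi⟩ := Subgroup.mem_zpowers_iff.1 (hcgen ⟨d, hd⟩)
    rw [Subgroup.mem_zpowers_iff]
    refine ⟨i, ?_⟩
    have h1 := congrArg Subtype.val hi
    simpa using h1
  have hcent : ∀ g : G, g * (c : G) = (c : G) * g → ∀ d ∈ commutator G, d * g = g * d := by
    intro g hg d hd
    have hd' : d ∈ Subgroup.zpowers (c : G) := by rw [hzp]; exact hd
    obtain ⟨i, rfl⟩ := Subgroup.mem_zpowers_iff.1 hd'
    exact ((show Commute g (c : G) from hg).zpow_right i).eq.symm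
  -- the Fitting subgroup is the centralizer of the derived subgroup
  have hCnil : Group.IsNilpotent
      ↥(Subgroup.centralizer ((commutator G : Subgroup G) : Set G)) := by
    refine ⟨⟨2, ucs2 _ (fun a _ b _ z hz => ?_)⟩⟩
    exact (Subgroup.mem_centralizer_iff.1 hz _ (comm_mem a b)).symm
  have hF : Cfsg.fittingSubgroup G
      = Subgroup.centralizer ((commutator G : Subgroup G) : Set G) := by
    apply le_antisymm
    · apply sSup_le
      rintro N ⟨hNn, hNnil⟩
      intro n hn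
      rw [Subgroup.mem_centralizer_iff]
      intro d hd
      have := hNn
      exact hcent n (nil_centralizes (commutator G) habD c hcgen hs N hNnil n hn) d hd
    · apply le_sSup
      exact ⟨inferInstance, hCnil⟩
  have hF' : Cfsg.fittingSubgroup G = Subgroup.centralizer ({(c : G)} : Set G) := by
    rw [hF]
    ext g
    rw [Subgroup.mem_centralizer_iff, Subgroup.mem_centralizer_iff]
    constructor
    · intro hg y hy
      rw [Set.mem_singleton_iff] at hy
      rw [hy]
      exact hg _ c.2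
    · intro hg d hd
      exact hcent g (hg _ rfl).symm d hd
  have hDF : commutator G ≤ Cfsg.fittingSubgroup G := by
    rw [hF]
    intro d hd
    rw [Subgroup.mem_centralizer_iff]
    intro y hy
    exact habD y hy d hd
  have hFn : (Cfsg.fittingSubgroup G).Normal :=
    Subgroup.sSup_normal _ (fun H hH => hH.1)
  have hsqF : Squarefree (Cfsg.fittingSubgroup G).index := by
    rw [hF']; exact h _
  refine ⟨supersolvable_of_cyclic_commutator (c : G) hzp, hFn, ?_, hc, hs, ?_, ?_⟩
  · intro hFn'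
    refine ⟨?_, hsqF⟩
    have hcomm : ∀ a b : G ⧸ Cfsg.fittingSubgroup G, a * b = b * a := by
      intro a b
      refine QuotientGroup.induction_on a (fun a' => ?_)
      refine QuotientGroup.induction_on b (fun b' => ?_)
      rw [← QuotientGroup.mk_mul, ← QuotientGroup.mk_mul, QuotientGroup.eq]
      have e : (a' * b')⁻¹ * (b' * a') = b'⁻¹ * a'⁻¹ * (b'⁻¹)⁻¹ * (a'⁻¹)⁻¹ := by group
      rw [e]
      exact hDF (comm_mem _ _)
    have hsqc : Squarefree (Nat.card (G ⧸ Cfsg.fittingSubgroup G)) := hsqF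
    have hexp : Monoid.exponent (G ⧸ Cfsg.fittingSubgroup G)
        = Nat.card (G ⧸ Cfsg.fittingSubgroup G) := by
      obtain ⟨t, ht⟩ : Monoid.exponent (G ⧸ Cfsg.fittingSubgroup G)
          ∣ Nat.card (G ⧸ Cfsg.fittingSubgroup G) := Group.exponent_dvd_nat_card
      by_cases ht1 : t = 1
      · rw [ht1, mul_one] at ht
        exact ht.symm
      · exfalso
        obtain ⟨p, hp, hpt⟩ := Nat.exists_prime_and_dvd ht1
        have : Fact p.Prime := ⟨hp⟩
        have hpc : p ∣ Nat.card (G ⧸ Cfsg.fittingSubgroup G) :=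
          ht ▸ dvd_mul_of_dvd_right hpt _
        obtain ⟨x, hx⟩ := exists_prime_orderOf_dvd_card' p hpc
        have hpe : p ∣ Monoid.exponent (G ⧸ Cfsg.fittingSubgroup G) := by
          rw [← hx]; exact Monoid.order_dvd_exponent x
        have hpp : p * p ∣ Nat.card (G ⧸ Cfsg.fittingSubgroup G) :=
          ht ▸ mul_dvd_mul hpe hpt
        have hu := hsqc p hpp
        rw [Nat.isUnit_iff] at hu
        exact hp.one_lt.ne' hu
    let _ : CommGroup (G ⧸ Cfsg.fittingSubgroup G) :=
      { (inferInstance : Group (G ⧸ Cfsg.fittingSubgroup G)) with mul_comm := hcomm }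
    exact IsCyclic.of_exponent_eq_card hexp
  · refine ucs2 _ (fun a _ b _ z hz => ?_)
    rw [hF] at hz
    exact (Subgroup.mem_centralizer_iff.1 hz _ (comm_mem a b)).symm
  · rw [commutator_eq_bot_iff_center_eq_top, Subgroup.eq_top_iff']
    intro x
    rw [Subgroup.mem_center_iff]
    intro g
    exact Subtype.ext (habD g g.2 x x.2)

end Cfsg.Agent.Lib.Helper64.SqfFIN
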