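import Mathlib

/-!
# S4150 piece TP-FIN
-/

set_option autoImplicit false

namespace Cfsg.Agent.Lib.Helper64.TwoPr

open Equiv Equiv.Perm MulAction

/-- TP-FIN -/
theorem t13_final {Ω : Type*} [Fintype Ω] [DecidableEq Ω] (hΩ : Fintype.card Ω = 13)
    (T : Subgroup (Perm Ω)) (F : Finset Ω)
    (hTc : Nat.card T = 2 ∨ Nat.card T = 4 ∨ Nat.card T = 8)
    (hF : F.card = 5) (hfix : ∀ t ∈ T, ∀ x ∈ F, t x = x)
    (hfree : ∀ t ∈ T, t ≠ 1 → ∀ x, t x = x → x ∈ F)
    (g : Perm Ω) (hg5 : orderOf g = 5) (hgT : ∀ t, t ∈ T ↔ g * t * g⁻¹ ∈ T)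
    (hgs : 6 ≤ g.support.card) : False := by
  classical
  have hg5' : g ^ 5 = 1 := by rw [← hg5]; exact pow_orderOf_eq_one g
  have hf5 : Fact (Nat.Prime 5) := ⟨by norm_num⟩
  have hf2 : Fact (Nat.Prime 2) := ⟨by norm_num⟩
  -- Step 1: g centralises T
  have hcomm : ∀ t ∈ T, g * t = t * g := by
    let σ : Perm T :=
      { toFun := fun t => ⟨g * t.1 * g⁻¹, (hgT t.1).1 t.2⟩
        invFun := fun t => ⟨g⁻¹ * t.1 * g, (hgT _).2 (by
          have : g * (g⁻¹ * t.1 * g) * g⁻¹ = t.1 := by group
          rw [this]; exact t.2)⟩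
        left_inv := fun t => Subtype.ext (by show g⁻¹ * (g * t.1 * g⁻¹) * g = t.1; group)
        right_inv := fun t => Subtype.ext (by show g * (g⁻¹ * t.1 * g) * g⁻¹ = t.1; group) }
    have hσapp : ∀ t : T, (σ t).1 = g * t.1 * g⁻¹ := fun t => rfl
    have hσpow : ∀ k : ℕ, ∀ t : T, ((σ ^ k) t).1 = g ^ k * t.1 * (g ^ k)⁻¹ := by
      intro k
      induction k with
      | zero => intro t; simp
      | succ k ih =>
        intro t
        rw [pow_succ', Perm.mul_apply, hσapp, ih, pow_succ']
        group
    have hσ5 : σ ^ 5 ^ 1 = 1 := by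
      ext t
      rw [pow_one, hσpow, hg5']
      simp
    have hfinT : Finite T := inferInstance
    let instFT : Fintype T := Fintype.ofFinite T
    have hmod := Equiv.Perm.card_compl_support_modEq (p := 5) (n := 1) hσ5
    let C : Subgroup T :=
      { carrier := {t | g * t.1 = t.1 * g}
        one_mem' := by show g * (1 : Perm Ω) = 1 * g; rw [mul_one, one_mul]
        mul_mem' := by
          intro a b ha hb
          show g * (a.1 * b.1) = a.1 * b.1 * g
          have ha' : g * a.1 = a.1 * g := ha
          have hb' : g * b.1 = b.1 * g := hb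
          rw [← mul_assoc, ha', mul_assoc, hb', mul_assoc]
        inv_mem' := by
          intro a ha
          show g * a.1⁻¹ = a.1⁻¹ * g
          have ha' : g * a.1 = a.1 * g := ha
          rw [eq_inv_mul_iff_mul_eq, ← mul_assoc, ← ha', mul_assoc, mul_inv_cancel, mul_one] }
    have hCmem : ∀ t : T, t ∈ C ↔ g * t.1 = t.1 * g := fun t => Iff.rfl
    have hCcard : Nat.card C = σ.supportᶜ.card := by
      have h1 : Nat.card C = Nat.card {t : T // t ∈ σ.supportᶜ} := by
        apply Nat.card_congr
        apply Equiv.subtypeEquivRight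
        intro t
        rw [Finset.mem_compl, Perm.mem_support, not_not, hCmem]
        constructor
        · intro h
          apply Subtype.ext
          rw [hσapp, h, mul_assoc, mul_inv_cancel, mul_one]
        · intro h
          have h' := congrArg Subtype.val h
          rw [hσapp] at h'
          calc g * t.1 = g * t.1 * g⁻¹ * g := by group
            _ = t.1 * g := by rw [h']
      rw [h1, Nat.card_eq_fintype_card, Fintype.card_coe]
    have hCdvd : Nat.card C ∣ Nat.card T := Subgroup.card_subgroup_dvd_card C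
    have hTcard : Fintype.card T = Nat.card T := Nat.card_eq_fintype_card.symm
    rw [← hCcard, hTcard] at hmod
    have hCpos : 0 < Nat.card C := Nat.card_pos
    have key : ∀ c n : ℕ, (n = 2 ∨ n = 4 ∨ n = 8) → c ∣ n → c % 5 = n % 5 → c = n := by
      intro c n hn hd hm
      rcases hn with rfl | rfl | rfl
      · have := Nat.le_of_dvd (by norm_num) hd
        interval_cases c <;> omega
      · have := Nat.le_of_dvd (by norm_num) hd
        interval_cases c <;> omega
      · have := Nat.le_of_dvd (by norm_num) hd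
        interval_cases c <;> omega
    have hCT : Nat.card C = Nat.card T := key _ _ hTc hCdvd hmod
    have hCtop : C = ⊤ := Subgroup.card_eq_iff_eq_top C |>.1 hCT
    intro t ht
    have : (⟨t, ht⟩ : T) ∈ C := by rw [hCtop]; exact Subgroup.mem_top _
    exact this
  -- Step 2: g has exactly 3 fixed points
  have hsupp : g.support.card = 10 := by
    obtain ⟨n, hn⟩ := Equiv.Perm.cycleType_prime_order (σ := g) (by rw [hg5]; norm_num)
    have hsum := Equiv.Perm.sum_cycleType g
    rw [hn, hg5, Multiset.sum_replicate, smul_eq_mul] at hsum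
    have hle : g.support.card ≤ 13 := hΩ ▸ Finset.card_le_univ _
    omega
  have hX : (g.supportᶜ).card = 3 := by
    rw [Finset.card_compl, hΩ, hsupp]
  have hXmem : ∀ x, x ∈ g.supportᶜ ↔ g x = x := by
    intro x
    rw [Finset.mem_compl, Perm.mem_support, not_not]
  -- a non-identity element of T
  obtain ⟨t0, ht0, ht01⟩ : ∃ t ∈ T, t ≠ 1 := by
    by_contra hcon
    push Not at hcon
    have hbot : T = ⊥ := by
      rw [Subgroup.eq_bot_iff_forall]
      exact hcon
    rw [hbot, Subgroup.card_bot] at hTc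
    omega
  -- Step 3: g maps F into F
  have hgF : ∀ x ∈ F, g x ∈ F := by
    intro x hx
    apply hfree t0 ht0 ht01
    have h1 : t0 (g x) = (t0 * g) x := rfl
    rw [h1, ← hcomm t0 ht0, Perm.mul_apply, hfix t0 ht0 x hx]
  have hgFiff : ∀ x, g x ∈ F ↔ x ∈ F := by
    intro x
    refine ⟨fun h => ?_, hgF x⟩
    have h4 : ∀ k : ℕ, (g ^ k) (g x) ∈ F := by
      intro k
      induction k with
      | zero => simpa using h
      | succ k ih =>
        rw [pow_succ', Perm.mul_apply]
        exact hgF _ ih
    have := h4 4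
    have h5 : (g ^ 4) (g x) = (g ^ 5) x := by
      rw [pow_succ (n := 4), Perm.mul_apply]
    rw [h5, hg5', Perm.one_apply] at this
    exact this
  -- Step 4: no fixed point of g in F
  have hnofix : ∀ x ∈ F, g x ≠ x := by
    let gF : Perm {x // x ∈ F} := g.subtypePerm hgFiff
    have hgF5 : gF ^ 5 ^ 1 = 1 := by
      ext x
      rw [pow_one]
      show ((g.subtypePerm hgFiff ^ 5) x : Ω) = _
      rw [Equiv.Perm.subtypePerm_pow, Equiv.Perm.subtypePerm_apply]
      show (g ^ 5) x.1 = x.1
      rw [hg5', Perm.one_apply]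
    have hmod := Equiv.Perm.card_compl_support_modEq (p := 5) (n := 1) hgF5
    rw [Fintype.card_coe, hF] at hmod
    have hle : gF.supportᶜ.card ≤ 5 := by
      have := Finset.card_le_univ gF.supportᶜ
      rw [Fintype.card_coe, hF] at this
      exact this
    have h05 : gF.supportᶜ.card = 0 ∨ gF.supportᶜ.card = 5 := by
      unfold Nat.ModEq at hmod
      omega
    rcases h05 with h0 | h5
    · intro x hx hfx
      have hmem : (⟨x, hx⟩ : {x // x ∈ F}) ∈ gF.supportᶜ := by
        rw [Finset.mem_compl, Perm.mem_support, not_not]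
        apply Subtype.ext
        exact hfx
      rw [Finset.card_eq_zero] at h0
      rw [h0] at hmem
      exact absurd hmem (Finset.notMem_empty _)
    · exfalso
      have huniv : gF.supportᶜ = Finset.univ := by
        apply Finset.eq_univ_of_card
        rw [h5, Fintype.card_coe, hF]
      have hall : ∀ x ∈ F, g x = x := by
        intro x hx
        have hmem : (⟨x, hx⟩ : {x // x ∈ F}) ∈ gF.supportᶜ := by rw [huniv]; exact Finset.mem_univ _
        rw [Finset.mem_compl, Perm.mem_support, not_not] at hmem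
        exact congrArg Subtype.val hmem
      have hsub : F ⊆ g.supportᶜ := fun x hx => (hXmem x).2 (hall x hx)
      have := Finset.card_le_card hsub
      omega
  -- Step 5: t0 has a fixed point among the fixed points of g
  have ht0X : ∀ x, t0 x ∈ g.supportᶜ ↔ x ∈ g.supportᶜ := by
    intro x
    rw [hXmem, hXmem]
    have h1 : g (t0 x) = (g * t0) x := rfl
    rw [h1, hcomm t0 ht0, Perm.mul_apply]
    exact t0.injective.eq_iff
  let tX : Perm {x // x ∈ g.supportᶜ} := t0.subtypePerm ht0X
  have ht8 : t0 ^ 8 = 1 := by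
    have h1 : (⟨t0, ht0⟩ : T) ^ Nat.card T = 1 := pow_card_eq_one'
    have h2 : t0 ^ Nat.card T = 1 := by
      have := congrArg Subtype.val h1
      rw [Subgroup.coe_pow] at this
      exact this
    have hdvd : Nat.card T ∣ 8 := by
      rcases hTc with h | h | h <;> rw [h] <;> norm_num
    obtain ⟨k, hk⟩ := hdvd
    rw [hk, pow_mul, h2, one_pow]
  have htX8 : tX ^ 2 ^ 3 = 1 := by
    ext x
    show ((t0.subtypePerm ht0X ^ 2 ^ 3) x : Ω) = _
    rw [Equiv.Perm.subtypePerm_pow, Equiv.Perm.subtypePerm_apply]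
    show (t0 ^ 2 ^ 3) x.1 = x.1
    have : (2 : ℕ) ^ 3 = 8 := by norm_num
    rw [this, ht8, Perm.one_apply]
  have hcardX : ¬ 2 ∣ Fintype.card {x // x ∈ g.supportᶜ} := by
    rw [Fintype.card_coe, hX]
    norm_num
  obtain ⟨a, ha⟩ := Equiv.Perm.exists_fixed_point_of_prime (p := 2) (n := 3) hcardX htX8
  have ha' : t0 a.1 = a.1 := congrArg Subtype.val ha
  have haF : a.1 ∈ F := hfree t0 ht0 ht01 a.1 ha'
  exact hnofix a.1 haF ((hXmem a.1).1 a.2)

end Cfsg.Agent.Lib.Helper64.TwoPr
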