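import Mathlib
import Cfsg.Agent.S0713

/-!
# S4150 piece TP-T
-/

set_option autoImplicit false

namespace Cfsg.Agent.Lib.Helper64.TwoPr

open Equiv Equiv.Perm MulAction

/-- POW: a non-identity element of `2`-power order has a power of order `2`. -/
theorem exists_pow_order_two {G : Type*} [Group G] (s : G) (k : ℕ) (hk : s ^ 2 ^ k = 1)
    (hs : s ≠ 1) : ∃ j : ℕ, orderOf (s ^ j) = 2 := by
  have hdvd : orderOf s ∣ 2 ^ k := orderOf_dvd_of_pow_eq_one hk
  obtain ⟨m, hmk, hm⟩ := (Nat.dvd_prime_pow Nat.prime_two).1 hdvd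
  have hm1 : m ≠ 0 := by
    intro h0
    rw [h0, pow_zero, orderOf_eq_one_iff] at hm
    exact hs hm
  refine ⟨2 ^ (m - 1), ?_⟩
  rw [orderOf_pow_of_dvd (by positivity) (by rw [hm]; exact pow_dvd_pow 2 (Nat.sub_le m 1)), hm]
  have : m = (m - 1) + 1 := by omega
  conv_lhs => rw [this, pow_succ]
  exact Nat.mul_div_cancel_left 2 (by positivity)

/-- INV: an even involution on 13 points moves 4, 8 or 12 points. -/
theorem inv_support {Ω : Type*} [Fintype Ω] [DecidableEq Ω] (hΩ : Fintype.card Ω = 13)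
    (t : Perm Ω) (ht : t ∈ alternatingGroup Ω) (h2 : orderOf t = 2) :
    t.support.card = 4 ∨ t.support.card = 8 ∨ t.support.card = 12 := by
  obtain ⟨n, hn⟩ := Equiv.Perm.cycleType_prime_order (σ := t) (by rw [h2]; exact Nat.prime_two)
  have hsum := Equiv.Perm.sum_cycleType t
  rw [hn, h2, Multiset.sum_replicate, smul_eq_mul] at hsum
  have hsign := Equiv.Perm.sign_of_cycleType t
  rw [Equiv.Perm.mem_alternatingGroup.1 ht, hn, h2, Multiset.sum_replicate, smul_eq_mul,
    Multiset.card_replicate] at hsign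
  have hev : Even ((n + 1) * 2 + (n + 1)) := by
    rw [← neg_one_pow_eq_one_iff_even (R := ℤˣ) (by decide)]
    exact hsign.symm
  obtain ⟨m, hm⟩ := hev
  have hle : t.support.card ≤ 13 := hΩ ▸ Finset.card_le_univ _
  omega

/-- TP-T -/
theorem t13_T {Ω : Type*} [Fintype Ω] [DecidableEq Ω] (hΩ : Fintype.card Ω = 13)
    (K : Subgroup (Perm Ω)) (hKA : K ≤ alternatingGroup Ω)
    (A : Finset Ω) (hA : A.card = 4)
    (heven : Even (Nat.card (Cfsg.Agent.S0713.fixG K A)))
    (hbig : ∀ g ∈ K, g ≠ 1 → 6 ≤ g.support.card) :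
    ∃ (T : Subgroup (Perm Ω)) (F : Finset Ω), T ≤ Cfsg.Agent.S0713.fixG K A ∧ IsPGroup 2 T ∧
      ¬ 2 ∣ Nat.card (Cfsg.Agent.S0713.fixG K A) / Nat.card T ∧
      (Nat.card T = 2 ∨ Nat.card T = 4 ∨ Nat.card T = 8) ∧
      F.card = 5 ∧ A ⊆ F ∧ (∀ t ∈ T, ∀ x ∈ F, t x = x) ∧
      (∀ t ∈ T, t ≠ 1 → ∀ x, t x = x → x ∈ F) := by
  classical
  have hf2 : Fact (Nat.Prime 2) := ⟨Nat.prime_two⟩
  have hinvapp : ∀ (t : Perm Ω) (x : Ω), t⁻¹ (t x) = x := fun t x => by simp
  have hWK : Cfsg.Agent.S0713.fixG K A ≤ K :=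
    fun t ht => ((Cfsg.Agent.S0713.mem_fixG K A t).1 ht).1
  have hWA : ∀ t ∈ Cfsg.Agent.S0713.fixG K A, ∀ d ∈ A, t d = d :=
    fun t ht => ((Cfsg.Agent.S0713.mem_fixG K A t).1 ht).2
  obtain ⟨P⟩ : Nonempty (Sylow 2 (Cfsg.Agent.S0713.fixG K A)) := inferInstance
  obtain ⟨T, hTdef⟩ : ∃ T : Subgroup (Perm Ω),
      T = (P : Subgroup (Cfsg.Agent.S0713.fixG K A)).map (Cfsg.Agent.S0713.fixG K A).subtype :=
    ⟨_, rfl⟩
  have hTW : T ≤ Cfsg.Agent.S0713.fixG K A := by
    rw [hTdef]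
    rintro _ ⟨x, _, rfl⟩
    exact x.2
  have hTp : IsPGroup 2 T := by
    rw [hTdef]
    exact P.2.map _
  have hTcard : Nat.card T = Nat.card (P : Subgroup (Cfsg.Agent.S0713.fixG K A)) := by
    rw [hTdef]
    exact Subgroup.card_map_of_injective (Subgroup.subtype_injective _)
  have hidx : Nat.card (Cfsg.Agent.S0713.fixG K A) / Nat.card T
      = (P : Subgroup (Cfsg.Agent.S0713.fixG K A)).index := by
    rw [hTcard, ← Subgroup.index_mul_card (P : Subgroup (Cfsg.Agent.S0713.fixG K A))]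
    exact Nat.mul_div_cancel _ Nat.card_pos
  have hsyl : ¬ 2 ∣ Nat.card (Cfsg.Agent.S0713.fixG K A) / Nat.card T := by
    rw [hidx]
    exact P.not_dvd_index
  have h2T : 2 ∣ Nat.card T := by
    rw [hTcard]
    exact P.dvd_card_of_dvd_card (even_iff_two_dvd.1 heven)
  -- elements of T
  have hTK : ∀ t ∈ T, t ∈ K := fun t ht => hWK (hTW ht)
  have hTA : ∀ t ∈ T, ∀ d ∈ A, t d = d := fun t ht => hWA t (hTW ht)
  have hTpow : ∀ t ∈ T, ∃ k : ℕ, t ^ 2 ^ k = 1 := by
    intro t ht
    obtain ⟨k, hk⟩ := hTp ⟨t, ht⟩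
    refine ⟨k, ?_⟩
    have := congrArg Subtype.val hk
    rw [Subgroup.coe_pow] at this
    exact this
  -- involutions of T have exactly 5 fixed points
  have hinv : ∀ t ∈ T, orderOf t = 2 → t.supportᶜ.card = 5 := by
    intro t ht h2
    have h1 := inv_support hΩ t (hKA (hTK t ht)) h2
    have hne : t ≠ 1 := by
      intro h
      rw [h, orderOf_one] at h2
      omega
    have h6 := hbig t (hTK t ht) hne
    have hsub : t.support ⊆ Aᶜ := by
      intro x hx
      rw [Finset.mem_compl]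
      intro hxA
      exact (Perm.mem_support.1 hx) (hTA t ht x hxA)
    have h9 := Finset.card_le_card hsub
    rw [Finset.card_compl, hΩ, hA] at h9
    rw [Finset.card_compl, hΩ]
    omega
  -- the common fixed points
  obtain ⟨F, hFdef⟩ : ∃ F : Finset Ω, F = Finset.univ.filter (fun x => ∀ t ∈ T, t x = x) :=
    ⟨_, rfl⟩
  have hFmem : ∀ x, x ∈ F ↔ ∀ t ∈ T, t x = x := by
    intro x
    rw [hFdef, Finset.mem_filter]
    simp
  have hAF : A ⊆ F := fun x hx => (hFmem x).2 (fun t ht => hTA t ht x hx)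
  have hFodd : F.card % 2 = 1 := by
    have h := hTp.card_modEq_card_fixedPoints Ω
    have hset : (fixedPoints T Ω) = (F : Set Ω) := by
      ext x
      rw [mem_fixedPoints, Finset.mem_coe, hFmem]
      constructor
      · intro h t ht
        exact h ⟨t, ht⟩
      · intro h t
        exact h t.1 t.2
    rw [Nat.card_eq_fintype_card, hΩ, hset, Nat.card_coe_set_eq, Set.ncard_coe_finset] at h
    unfold Nat.ModEq at h
    omega
  -- a non-identity element
  obtain ⟨s0, hs0, hs01⟩ : ∃ t ∈ T, t ≠ 1 := by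
    by_contra hcon
    push Not at hcon
    have hbot : T = ⊥ := by
      rw [Subgroup.eq_bot_iff_forall]
      exact hcon
    rw [hbot, Subgroup.card_bot] at h2T
    omega
  have hFle : ∀ t ∈ T, orderOf t = 2 → F ⊆ t.supportᶜ := by
    intro t ht _ x hx
    rw [Finset.mem_compl, Perm.mem_support, not_not]
    exact (hFmem x).1 hx t ht
  have hF5 : F.card = 5 := by
    obtain ⟨k, hk⟩ := hTpow s0 hs0
    obtain ⟨j, hj⟩ := exists_pow_order_two s0 k hk hs01
    have hle := Finset.card_le_card (hFle (s0 ^ j) (T.pow_mem hs0 j) hj)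
    rw [hinv (s0 ^ j) (T.pow_mem hs0 j) hj] at hle
    have h4 := Finset.card_le_card hAF
    rw [hA] at h4
    omega
  have hfix : ∀ t ∈ T, ∀ x ∈ F, t x = x := fun t ht x hx => (hFmem x).1 hx t ht
  have hfree : ∀ t ∈ T, t ≠ 1 → ∀ x, t x = x → x ∈ F := by
    intro s hs hs1 x hx
    obtain ⟨k, hk⟩ := hTpow s hs
    obtain ⟨j, hj⟩ := exists_pow_order_two s k hk hs1
    have hsub := hFle (s ^ j) (T.pow_mem hs j) hj
    have heq : F = (s ^ j).supportᶜ := by
      apply Finset.eq_of_subset_of_card_le hsub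
      rw [hinv (s ^ j) (T.pow_mem hs j) hj, hF5]
    rw [heq, Finset.mem_compl, Perm.mem_support, not_not]
    exact Perm.pow_apply_eq_self_of_apply_eq_self hx j
  -- the order of T
  have hcardT : Nat.card T = 2 ∨ Nat.card T = 4 ∨ Nat.card T = 8 := by
    obtain ⟨k, hk⟩ := IsPGroup.iff_card.1 hTp
    have hk1 : k ≠ 0 := by
      intro h0
      rw [hk, h0, pow_zero] at h2T
      omega
    obtain ⟨x0, hx0⟩ : ∃ x0, x0 ∉ F := by
      by_contra hcon
      push Not at hcon
      have : F = Finset.univ := Finset.eq_univ_iff_forall.2 hcon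
      rw [this, Finset.card_univ, hΩ] at hF5
      omega
    have hmap : ∀ t : T, t.1 x0 ∈ Fᶜ := by
      intro t
      rw [Finset.mem_compl]
      intro h
      apply hx0
      have h1 := hfix t.1⁻¹ (T.inv_mem t.2) _ h
      rw [hinvapp] at h1
      rw [h1]
      exact h
    have hinj : Function.Injective (fun t : T => (⟨t.1 x0, hmap t⟩ : {y // y ∈ Fᶜ})) := by
      intro t t' h
      have h1 : t.1 x0 = t'.1 x0 := congrArg Subtype.val h
      by_contra hne
      apply hx0
      apply hfree (t'.1⁻¹ * t.1) (T.mul_mem (T.inv_mem t'.2) t.2)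
      · intro h2
        apply hne
        apply Subtype.ext
        rw [inv_mul_eq_one] at h2
        exact h2.symm
      · rw [Perm.mul_apply, h1, hinvapp]
    have hle := Nat.card_le_card_of_injective _ hinj
    rw [Nat.card_eq_fintype_card (α := {y // y ∈ Fᶜ}), Fintype.card_coe, Finset.card_compl, hΩ,
      hF5, hk] at hle
    have hk3 : k ≤ 3 := by
      by_contra hcon
      push Not at hcon
      have : 2 ^ 4 ≤ 2 ^ k := Nat.pow_le_pow_right (by norm_num) hcon
      omega
    rw [hk]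
    interval_cases k
    · exact absurd rfl hk1
    · left; rfl
    · right; left; rfl
    · right; right; rfl
  exact ⟨T, F, hTW, hTp, hsyl, hcardT, hF5, hAF, hfix, hfree⟩

end Cfsg.Agent.Lib.Helper64.TwoPr
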