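import Mathlib
import Cfsg.Agent.S4134

set_option autoImplicit false

namespace Cfsg.Agent.Lib.Helper64.TwoSizes

open scoped Pointwise

variable {G : Type*} [Group G]

/-! ### Orbits under conjugation and a semiregularity divisibility lemma -/

/-- orbit of `x` under conjugation by `P` -/
def orb (P : Subgroup G) (x : G) : Set G := Set.range (fun u : P => (u : G) * x * (u : G)⁻¹)

theorem mem_orb_self (P : Subgroup G) (x : G) : x ∈ orb P x := ⟨1, by simp⟩

theorem orb_eq_of_mem (P : Subgroup G) (x v : G) (hv : v ∈ orb P x) : orb P v = orb P x := by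
  obtain ⟨u, rfl⟩ : ∃ u : P, (u : G) * x * (u : G)⁻¹ = v := hv
  ext t
  constructor
  · rintro ⟨u', rfl⟩
    refine ⟨u' * u, ?_⟩
    simp only [Subgroup.coe_mul]
    group
  · rintro ⟨u', rfl⟩
    refine ⟨u' * u⁻¹, ?_⟩
    simp only [Subgroup.coe_mul, Subgroup.coe_inv]
    group

/-- if `P` acts by conjugation on `X` with all point stabilizers equal to `P ∩ P₀`,
then `|P : P ∩ P₀|` divides `|X|`. -/
theorem semireg_dvd [Finite G] (P P₀ : Subgroup G) (X : Set G)
    (hX : ∀ u ∈ P, ∀ x ∈ X, u * x * u⁻¹ ∈ X)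
    (hst : ∀ x ∈ X, ∀ u ∈ P, (u * x * u⁻¹ = x ↔ u ∈ P₀)) :
    P₀.relIndex P ∣ Nat.card X := by
  apply S4134.dvd_card_of_fibers (fun x : X => orb P (x : G))
  intro x
  have hsub : (Subgroup.centralizer ({(x : G)} : Set G)).subgroupOf P = P₀.subgroupOf P := by
    ext u
    rw [Subgroup.mem_subgroupOf, Subgroup.mem_subgroupOf, S4134.mem_cent, ← hst x x.2 u u.2]
    constructor
    · intro h
      rw [← h]
      group
    · intro h
      calc (x : G) * (u : G) = ((u : G) * (x : G) * (u : G)⁻¹) * (u : G) := by rw [h]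
        _ = (u : G) * (x : G) := by group
  have hrel : (Subgroup.centralizer ({(x : G)} : Set G)).relIndex P = P₀.relIndex P := by
    unfold Subgroup.relIndex
    rw [hsub]
  rw [← hrel, ← S4134.card_orbit P (x : G)]
  apply Nat.card_congr
  exact
    { toFun := fun x' => ⟨(x'.1 : G), by
        have h2 : orb P (x'.1 : G) = orb P (x : G) := x'.2
        have h1 := mem_orb_self P (x'.1 : G)
        rw [h2] at h1
        exact h1⟩
      invFun := fun v => ⟨⟨v.1, by
          obtain ⟨u, hu⟩ := v.2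
          rw [← hu]
          exact hX u u.2 x x.2⟩, orb_eq_of_mem P (x : G) v.1 v.2⟩
      left_inv := fun x' => rfl
      right_inv := fun v => rfl }

/-! ### Cardinality helpers -/

theorem relIndex_mul_card_inf [Finite G] (A B : Subgroup G) :
    B.relIndex A * Nat.card ↥(A ⊓ B) = Nat.card ↥A := by
  have h1 := Subgroup.index_mul_card (B.subgroupOf A)
  have h2 : Nat.card ↥(B.subgroupOf A) = Nat.card ↥(A ⊓ B) := by
    apply Nat.card_congr
    exact
      { toFun := fun x => ⟨x.1.1, Subgroup.mem_inf.mpr ⟨x.1.2, Subgroup.mem_subgroupOf.mp x.2⟩⟩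
        invFun := fun a => ⟨⟨a.1, (Subgroup.mem_inf.mp a.2).1⟩,
          Subgroup.mem_subgroupOf.mpr (Subgroup.mem_inf.mp a.2).2⟩
        left_inv := fun x => rfl
        right_inv := fun a => rfl }
  rw [h2] at h1
  exact h1

theorem card_split [Finite G] (A B : Subgroup G) :
    Nat.card ↥{t : G | t ∈ A ∧ t ∉ A ⊓ B} + Nat.card ↥(A ⊓ B) = Nat.card ↥A :=
  S4134.card_compl_add (fun a => a ∈ A) (fun a => a ∈ A ⊓ B) (fun a h => (Subgroup.mem_inf.mp h).1)

theorem arith_aux (D X c T a s e : ℕ) (hs : s.Prime) (hDX : D ∣ X) (h1 : X + c = T)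
    (h2 : a * c = T) (hT : T = s ^ e) (hD : D.Coprime s) (ha1 : a ≠ 1) (ha0 : a ≠ 0) : D < a := by
  have hc : c ∣ s ^ e := by rw [← hT, ← h2]; exact dvd_mul_left c a
  obtain ⟨e', -, rfl⟩ := (Nat.dvd_prime_pow hs).mp hc
  have hDc : D.Coprime (s ^ e') := Nat.Coprime.pow_right e' hD
  obtain ⟨a', rfl⟩ : ∃ a', a = a' + 1 := ⟨a - 1, by omega⟩
  have hX : X = a' * s ^ e' := by
    have h3 : X + s ^ e' = a' * s ^ e' + s ^ e' := by rw [h1, ← h2]; ring
    exact Nat.add_right_cancel h3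
  rw [hX] at hDX
  have hDa : D ∣ a' := hDc.dvd_of_dvd_mul_right hDX
  have ha' : 0 < a' := by omega
  have := Nat.le_of_dvd ha' hDa
  omega

/-! ### Coprime action modulo the centre -/

theorem conj_pow_central (g u z : G) (hz : z ∈ Subgroup.center G) (hzu : g * u * g⁻¹ = z * u)
    (n : ℕ) : g ^ n * u * (g ^ n)⁻¹ = z ^ n * u := by
  induction n with
  | zero => simp
  | succ n ih =>
    have hc : g * z ^ n = z ^ n * g := Subgroup.mem_center_iff.mp (Subgroup.pow_mem _ hz n) g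
    calc g ^ (n + 1) * u * (g ^ (n + 1))⁻¹ = g * (g ^ n * u * (g ^ n)⁻¹) * g⁻¹ := by
          rw [pow_succ']; simp only [mul_inv_rev, mul_assoc]
      _ = g * (z ^ n * u) * g⁻¹ := by rw [ih]
      _ = (g * z ^ n) * (u * g⁻¹) := by simp only [mul_assoc]
      _ = (z ^ n * g) * (u * g⁻¹) := by rw [hc]
      _ = z ^ n * (g * u * g⁻¹) := by simp only [mul_assoc]
      _ = z ^ n * (z * u) := by rw [hzu]
      _ = z ^ (n + 1) * u := by rw [pow_succ, mul_assoc]

theorem comm_of_coprime_central (g u : G) (n₁ n₂ : ℕ) (hcop : n₁.Coprime n₂) (hg : g ^ n₁ = 1)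
    (hu : u ^ n₂ = 1) (hz : g * u * g⁻¹ * u⁻¹ ∈ Subgroup.center G) : g * u * g⁻¹ = u := by
  obtain ⟨z, hzdef⟩ : ∃ z, z = g * u * g⁻¹ * u⁻¹ := ⟨_, rfl⟩
  rw [← hzdef] at hz
  have hzu : g * u * g⁻¹ = z * u := by rw [hzdef]; group
  have h1 := conj_pow_central g u z hz hzu n₁
  rw [hg] at h1
  have hz1 : z ^ n₁ = 1 := by
    have h3 : z ^ n₁ * u = 1 * u := by rw [← h1]; group
    exact mul_right_cancel h3
  have hzi : z⁻¹ ∈ Subgroup.center G := Subgroup.inv_mem _ hz
  have hzu' : u * g * u⁻¹ = z⁻¹ * g := by rw [hzdef]; group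
  have h2 := conj_pow_central u g z⁻¹ hzi hzu' n₂
  rw [hu] at h2
  have hz2 : z ^ n₂ = 1 := by
    have h3 : z⁻¹ ^ n₂ * g = 1 * g := by rw [← h2]; group
    have h4 : z⁻¹ ^ n₂ = 1 := mul_right_cancel h3
    rw [inv_pow, inv_eq_one] at h4
    exact h4
  have ho1 : orderOf z ∣ n₁ := orderOf_dvd_of_pow_eq_one hz1
  have ho2 : orderOf z ∣ n₂ := orderOf_dvd_of_pow_eq_one hz2
  have ho : orderOf z = 1 := by
    have h5 := Nat.dvd_gcd ho1 ho2
    rw [hcop.gcd_eq_one] at h5
    exact Nat.dvd_one.mp h5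
  rw [orderOf_eq_one_iff] at ho
  rw [hzu, ho, one_mul]

/-- an element `u` with `[y, u]` central normalizes the centralizer of `y` -/
theorem norm_of_comm_central (y u : G) (hz : y * u * y⁻¹ * u⁻¹ ∈ Subgroup.center G) (c : G)
    (hc : c ∈ Subgroup.centralizer ({y} : Set G)) :
    u * c * u⁻¹ ∈ Subgroup.centralizer ({y} : Set G) := by
  rw [S4134.mem_cent] at hc ⊢
  obtain ⟨z, hzdef⟩ : ∃ z, z = y * u * y⁻¹ * u⁻¹ := ⟨_, rfl⟩
  rw [← hzdef] at hz
  have hzc : ∀ t : G, t * z = z * t := Subgroup.mem_center_iff.mp hz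
  have h1 : y * u = z * (u * y) := by rw [hzdef]; group
  have h2 : y * u⁻¹ = u⁻¹ * z⁻¹ * y := by rw [hzdef]; group
  calc y * (u * c * u⁻¹) = (y * u) * c * u⁻¹ := by group
    _ = z * (u * y) * c * u⁻¹ := by rw [h1]
    _ = z * u * (y * c) * u⁻¹ := by group
    _ = z * u * (c * y) * u⁻¹ := by rw [hc]
    _ = z * u * c * (y * u⁻¹) := by group
    _ = z * u * c * (u⁻¹ * z⁻¹ * y) := by rw [h2]
    _ = z * (u * c * u⁻¹) * z⁻¹ * y := by group
    _ = (u * c * u⁻¹) * z * z⁻¹ * y := by rw [← hzc (u * c * u⁻¹)]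
    _ = u * c * u⁻¹ * y := by group

/-! ### A "second centre" element relative to a subgroup -/

theorem exists_second_center [Finite G] (p : ℕ) [Fact p.Prime] (P : Subgroup G) (hP : IsPGroup p P)
    (K L : Subgroup G) (hLP : L ≤ P) (hLn : ∀ u ∈ P, ∀ l ∈ L, u * l * u⁻¹ ∈ L) (hLK : ¬ L ≤ K) :
    ∃ w ∈ L, w ∉ K ∧ ∀ u ∈ P, w * u * w⁻¹ * u⁻¹ ∈ K := by
  haveI : Group.IsNilpotent P := hP.isNilpotent
  obtain ⟨n, hn⟩ := (Subgroup.isNilpotent_iff_lowerCentralSeries P).mp inferInstance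
  have key : ∀ d j : ℕ, j + d = n → ∀ l : G, l ∈ P.lowerCentralSeries j → l ∈ L → l ∉ K →
      ∃ w ∈ L, w ∉ K ∧ ∀ u ∈ P, w * u * w⁻¹ * u⁻¹ ∈ K := by
    intro d
    induction d with
    | zero =>
      intro j hj l hl _ hlK
      rw [add_zero] at hj
      rw [hj, hn, Subgroup.mem_bot] at hl
      rw [hl] at hlK
      exact absurd K.one_mem hlK
    | succ d ih =>
      intro j hj l hl hlL hlK
      by_cases hall : ∀ u ∈ P, l * u * l⁻¹ * u⁻¹ ∈ K
      · exact ⟨l, hlL, hlK, hall⟩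
      · push Not at hall
        obtain ⟨u, hu, huK⟩ := hall
        apply ih (j + 1) (by omega) (l * u * l⁻¹ * u⁻¹)
        · rw [Subgroup.lowerCentralSeries_succ]
          have h1 := Subgroup.commutator_mem_commutator hl hu
          rwa [commutatorElement_def] at h1
        · have h1 : u * l⁻¹ * u⁻¹ ∈ L := hLn u hu l⁻¹ (L.inv_mem hlL)
          have h2 := L.mul_mem hlL h1
          have e : l * (u * l⁻¹ * u⁻¹) = l * u * l⁻¹ * u⁻¹ := by group
          rwa [e] at h2
        · exact huK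
  obtain ⟨l₀, hl₀, hl₀K⟩ := SetLike.not_le_iff_exists.mp hLK
  exact key n 0 (by omega) l₀ (by rw [Subgroup.lowerCentralSeries_zero]; exact hLP hl₀) hl₀ hl₀K

/-! ### The `p`-part of `N ∩ Z(H)` -/

/-- the `p`-elements of `N` lying in the centre of `H` -/
def zp (N H : Subgroup G) (p : ℕ) : Subgroup G where
  carrier := {z | z ∈ N ∧ z ∈ H ∧ z ∈ Subgroup.centralizer (H : Set G) ∧ ∃ k : ℕ, z ^ (p ^ k) = 1}
  one_mem' := ⟨N.one_mem, H.one_mem, Subgroup.one_mem _, 0, one_pow _⟩
  mul_mem' := by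
    rintro a b ⟨ha, ha', ha'', k, hk⟩ ⟨hb, hb', hb'', l, hl⟩
    refine ⟨N.mul_mem ha hb, H.mul_mem ha' hb', Subgroup.mul_mem _ ha'' hb'', k + l, ?_⟩
    have hc : Commute a b := Subgroup.mem_centralizer_iff.mp hb'' a ha'
    have h1 : a ^ p ^ (k + l) = 1 := by rw [pow_add, pow_mul, hk, one_pow]
    have h2 : b ^ p ^ (k + l) = 1 := by rw [pow_add, mul_comm, pow_mul, hl, one_pow]
    rw [hc.mul_pow, h1, h2, one_mul]
  inv_mem' := by
    rintro a ⟨ha, ha', ha'', k, hk⟩
    exact ⟨N.inv_mem ha, H.inv_mem ha', Subgroup.inv_mem _ ha'', k, by rw [inv_pow, hk, inv_one]⟩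

theorem mem_zp (N H : Subgroup G) (p : ℕ) (z : G) :
    z ∈ zp N H p ↔
      z ∈ N ∧ z ∈ H ∧ z ∈ Subgroup.centralizer (H : Set G) ∧ ∃ k : ℕ, z ^ (p ^ k) = 1 :=
  Iff.rfl

theorem isPGroup_zp (N H : Subgroup G) (p : ℕ) : IsPGroup p (zp N H p) := by
  rintro ⟨z, hz⟩
  obtain ⟨k, hk⟩ := ((mem_zp N H p z).mp hz).2.2.2
  exact ⟨k, Subtype.ext (by simpa using hk)⟩

theorem zp_conj (N : Subgroup G) [hN : N.Normal] (C : Subgroup G) (s : ℕ) (u : G)
    (hu : ∀ c ∈ C, u * c * u⁻¹ ∈ C) (hu' : ∀ c ∈ C, u⁻¹ * c * u ∈ C) (t : G)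
    (ht : t ∈ zp N C s) : u * t * u⁻¹ ∈ zp N C s := by
  obtain ⟨h1, h2, h3, k, hk⟩ := (mem_zp N C s t).mp ht
  refine (mem_zp N C s _).mpr ⟨hN.conj_mem t h1 u, hu t h2, ?_, k, ?_⟩
  · rw [Subgroup.mem_centralizer_iff]
    intro c hc
    have h4 := Subgroup.mem_centralizer_iff.mp h3 (u⁻¹ * c * u) (hu' c hc)
    calc c * (u * t * u⁻¹) = u * (u⁻¹ * c * u * t) * u⁻¹ := by group
      _ = u * (t * (u⁻¹ * c * u)) * u⁻¹ := by rw [h4]
      _ = u * t * u⁻¹ * c := by group
  · rw [conj_pow, hk]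
    simp

/-- elements acting trivially on `A` modulo the centre of `G` -/
def commSub (A : Subgroup G) : Subgroup G where
  carrier := {g | ∀ u ∈ A, g * u * g⁻¹ * u⁻¹ ∈ Subgroup.center G}
  one_mem' := by
    intro u _
    have e : (1 : G) * u * (1 : G)⁻¹ * u⁻¹ = 1 := by group
    rw [e]
    exact Subgroup.one_mem _
  mul_mem' := by
    intro a b ha hb u hu
    have h1 := ha u hu
    have h2 := hb u hu
    have h3 := Subgroup.mul_mem _ h2 h1
    have hc := Subgroup.mem_center_iff.mp h2 a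
    have e : a * b * u * (a * b)⁻¹ * u⁻¹ = (b * u * b⁻¹ * u⁻¹) * (a * u * a⁻¹ * u⁻¹) := by
      calc a * b * u * (a * b)⁻¹ * u⁻¹ = a * (b * u * b⁻¹ * u⁻¹) * u * a⁻¹ * u⁻¹ := by group
        _ = (b * u * b⁻¹ * u⁻¹) * a * u * a⁻¹ * u⁻¹ := by rw [hc]
        _ = (b * u * b⁻¹ * u⁻¹) * (a * u * a⁻¹ * u⁻¹) := by group
    rw [e]
    exact h3
  inv_mem' := by
    intro a ha u hu
    have h1 := ha u hu
    have h2 := Subgroup.inv_mem _ h1
    have hc := Subgroup.mem_center_iff.mp h2 a⁻¹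
    have e : a⁻¹ * u * a⁻¹⁻¹ * u⁻¹ = (a * u * a⁻¹ * u⁻¹)⁻¹ := by
      calc a⁻¹ * u * a⁻¹⁻¹ * u⁻¹ = a⁻¹ * (a * u * a⁻¹ * u⁻¹)⁻¹ * a := by group
        _ = (a * u * a⁻¹ * u⁻¹)⁻¹ * a⁻¹ * a := by rw [hc]
        _ = (a * u * a⁻¹ * u⁻¹)⁻¹ := by group
    rw [e]
    exact h2

theorem mem_commSub (A : Subgroup G) (g : G) :
    g ∈ commSub A ↔ ∀ u ∈ A, g * u * g⁻¹ * u⁻¹ ∈ Subgroup.center G :=
  Iff.rfl

/-! ### An orbit of cosets -/

theorem orb_bound [Finite G] (C N0 Q : Subgroup G) (w : G) (hwC : w ∉ C)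
    (hw : ∀ h ∈ Q, h * w * h⁻¹ ∈ N0)
    (hQC : ∀ h ∈ Q, ∀ c ∈ C, h * c * h⁻¹ ∈ C)
    (hfix : ∀ t ∈ Q, w⁻¹ * t * w * t⁻¹ ∈ C → t ∈ C) :
    C.relIndex Q + 1 ≤ C.relIndex N0 := by
  have hf : ∀ u v : Q,
      (QuotientGroup.mk (⟨(u : G) * w * (u : G)⁻¹, hw (u : G) u.2⟩ : N0) : N0 ⧸ C.subgroupOf N0) =
        QuotientGroup.mk (⟨(v : G) * w * (v : G)⁻¹, hw (v : G) v.2⟩ : N0) →
      (QuotientGroup.mk u : Q ⧸ C.subgroupOf Q) = QuotientGroup.mk v := by
    intro u v huv
    rw [QuotientGroup.eq] at huv ⊢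
    rw [Subgroup.mem_subgroupOf] at huv ⊢
    have h1 : ((u : G) * w * (u : G)⁻¹)⁻¹ * ((v : G) * w * (v : G)⁻¹) ∈ C := huv
    have h2 := hQC (u : G)⁻¹ (Q.inv_mem u.2) _ h1
    have e : (u : G)⁻¹ * (((u : G) * w * (u : G)⁻¹)⁻¹ * ((v : G) * w * (v : G)⁻¹)) * (u : G)⁻¹⁻¹ =
        w⁻¹ * ((u : G)⁻¹ * v) * w * ((u : G)⁻¹ * v)⁻¹ := by group
    rw [e] at h2
    exact hfix ((u : G)⁻¹ * v) (Q.mul_mem (Q.inv_mem u.2) v.2) h2
  have hne : ∀ h : Q,
      (QuotientGroup.mk (⟨(h : G) * w * (h : G)⁻¹, hw (h : G) h.2⟩ : N0) : N0 ⧸ C.subgroupOf N0) ≠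
        QuotientGroup.mk (1 : N0) := by
    intro h h1
    rw [QuotientGroup.eq, Subgroup.mem_subgroupOf] at h1
    have h2 : ((h : G) * w * (h : G)⁻¹)⁻¹ * 1 ∈ C := h1
    have h3 : (h : G) * w * (h : G)⁻¹ ∈ C := by
      have h5 := C.inv_mem h2
      rwa [mul_one, inv_inv] at h5
    have h4 := hQC (h : G)⁻¹ (Q.inv_mem h.2) _ h3
    have e : (h : G)⁻¹ * ((h : G) * w * (h : G)⁻¹) * (h : G)⁻¹⁻¹ = w := by group
    rw [e] at h4
    exact hwC h4
  have hinj1 : Function.Injective (fun ξ : Q ⧸ C.subgroupOf Q =>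
      (QuotientGroup.mk (⟨((ξ.out : Q) : G) * w * ((ξ.out : Q) : G)⁻¹,
        hw ((ξ.out : Q) : G) (ξ.out : Q).2⟩ : N0) : N0 ⧸ C.subgroupOf N0)) := by
    intro ξ ξ' hs
    have h1 := hf ξ.out ξ'.out hs
    rw [QuotientGroup.out_eq', QuotientGroup.out_eq'] at h1
    exact h1
  have hinj2 : Function.Injective
      (fun _ : Unit => (QuotientGroup.mk (1 : N0) : N0 ⧸ C.subgroupOf N0)) :=
    fun a b _ => Subsingleton.elim a b
  have hφ := Function.Injective.sumElim hinj1 hinj2 (fun ξ _ => hne ξ.out)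
  have hcard := Nat.card_le_card_of_injective _ hφ
  rw [Nat.card_sum, Nat.card_unique (α := Unit)] at hcard
  exact hcard

/-! ### Nilpotency criterion -/

theorem nilpotent_of_pow_central {H : Type*} [Group H] [Finite H] (p : ℕ) [Fact p.Prime]
    (h : ∀ z : H, ∃ a : ℕ, z ^ (p ^ a) ∈ Subgroup.center H) : Group.IsNilpotent H := by
  have hq : IsPGroup p (H ⧸ Subgroup.center H) := by
    intro ξ
    induction ξ using QuotientGroup.induction_on with
    | H z =>
      obtain ⟨a, ha⟩ := h z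
      refine ⟨a, ?_⟩
      rw [← QuotientGroup.mk_pow, QuotientGroup.eq_one_iff]
      exact ha
  exact Group.of_quotient_center_nilpotent hq.isNilpotent

/-! ### The main argument -/

section Main

variable [Finite G] {r : ℕ} [hr : Fact r.Prime] {R : Sylow r G} {N : Subgroup G} [hN : N.Normal]
  {m : ℕ}

theorem relt_mem (hRN : (R : Subgroup G) ≤ N) (x : G) (k : ℕ) (hx : x ^ (r ^ k) = 1) : x ∈ N := by
  obtain ⟨g, hg⟩ := S4134.exists_conj_mem_sylow r R x k hx
  have h1 := hN.conj_mem _ (hRN hg) g⁻¹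
  have e : g⁻¹ * (g * x * g⁻¹) * g⁻¹⁻¹ = x := by group
  rwa [e] at h1

theorem cent_le
    (hm : ∀ x ∈ N, x ∉ Subgroup.center G → (Subgroup.centralizer ({x} : Set G)).index = m)
    (a b : G) (ha : a ∈ N) (hb : b ∈ N) (haZ : a ∉ Subgroup.center G) (hab : a * b = b * a)
    (hco : (orderOf a).Coprime (orderOf b)) :
    Subgroup.centralizer ({a} : Set G) ≤ Subgroup.centralizer ({b} : Set G) := by
  have e := S4134.cent_mul a b hab hco
  have habZ : a * b ∉ Subgroup.center G := by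
    intro hc
    have h1 := (S4134.index_eq_one_iff_central (a * b)).mpr hc
    rw [Subgroup.index_eq_one, e] at h1
    have h2 : Subgroup.centralizer ({a} : Set G) = ⊤ := top_le_iff.mp (h1 ▸ inf_le_left)
    exact haZ ((S4134.index_eq_one_iff_central a).mp (Subgroup.index_eq_one.mpr h2))
  have h3 : Subgroup.centralizer ({a * b} : Set G) = Subgroup.centralizer ({a} : Set G) :=
    S4134.eq_of_le_of_index_eq _ _ (by rw [e]; exact inf_le_left)
      ((hm (a * b) (N.mul_mem ha hb) habZ).trans (hm a ha haZ).symm)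
  rw [← h3, e]
  exact inf_le_right

theorem exists_relt (hR : ¬ (R : Subgroup G) ≤ Subgroup.center G) (hRN : (R : Subgroup G) ≤ N)
    (hm : ∀ x ∈ N, x ∉ Subgroup.center G → (Subgroup.centralizer ({x} : Set G)).index = m)
    (y : G) (hy : y ∈ N) (hyZ : y ∉ Subgroup.center G) :
    ∃ x, x ∈ Subgroup.centralizer ({y} : Set G) ∧ x ∉ Subgroup.center G ∧
      ∃ k : ℕ, x ^ (r ^ k) = 1 := by
  by_contra hcon
  push Not at hcon
  obtain ⟨x₁, hx₁R, hx₁Z⟩ := SetLike.not_le_iff_exists.mp hR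
  have hx₁N : x₁ ∈ N := hRN hx₁R
  have hi1 := hm x₁ hx₁N hx₁Z
  have hi2 := hm y hy hyZ
  have hm0 : m ≠ 0 := by rw [← hi1]; exact Subgroup.index_ne_zero_of_finite
  have hcard : Nat.card (Subgroup.centralizer ({x₁} : Set G)) =
      Nat.card (Subgroup.centralizer ({y} : Set G)) := by
    have h1 := Subgroup.card_mul_index (Subgroup.centralizer ({x₁} : Set G))
    have h2 := Subgroup.card_mul_index (Subgroup.centralizer ({y} : Set G))
    rw [hi1] at h1
    rw [hi2, ← h1] at h2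
    exact (Nat.eq_of_mul_eq_mul_right (Nat.pos_of_ne_zero hm0) h2).symm
  obtain ⟨S⟩ : Nonempty (Sylow r (Subgroup.centralizer ({y} : Set G))) := inferInstance
  have hS := S.card_eq_multiplicity
  have hD : IsPGroup r ((R : Subgroup G) ⊓ Subgroup.centralizer ({x₁} : Set G) : Subgroup G) :=
    R.isPGroup'.to_le inf_le_left
  obtain ⟨e, he⟩ := hD.exists_card_eq
  have hdvd : r ^ e ∣ Nat.card (Subgroup.centralizer ({y} : Set G)) := by
    rw [← he, ← hcard]
    exact Subgroup.card_dvd_of_le inf_le_right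
  have hle : e ≤ (Nat.card (Subgroup.centralizer ({y} : Set G))).factorization r :=
    (Nat.Prime.pow_dvd_iff_le_factorization hr.1 Nat.card_pos.ne').mp hdvd
  have hDS : Nat.card ((R : Subgroup G) ⊓ Subgroup.centralizer ({x₁} : Set G) : Subgroup G) ≤
      Nat.card S := by
    rw [he, hS]
    exact Nat.pow_le_pow_right hr.1.pos hle
  have hED : (R : Subgroup G) ⊓ Subgroup.center G ≤
      (R : Subgroup G) ⊓ Subgroup.centralizer ({x₁} : Set G) :=
    inf_le_inf_left _ (Subgroup.center_le_centralizer _)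
  have hlt : Nat.card ((R : Subgroup G) ⊓ Subgroup.center G : Subgroup G) <
      Nat.card ((R : Subgroup G) ⊓ Subgroup.centralizer ({x₁} : Set G) : Subgroup G) := by
    by_contra hge
    push Not at hge
    have h1 := Subgroup.eq_of_le_of_card_ge hED hge
    have hx₁D : x₁ ∈ (R : Subgroup G) ⊓ Subgroup.centralizer ({x₁} : Set G) :=
      Subgroup.mem_inf.mpr ⟨hx₁R, (S4134.mem_cent x₁ x₁).mpr rfl⟩
    rw [← h1] at hx₁D
    exact hx₁Z (Subgroup.mem_inf.mp hx₁D).2
  have hSE : Nat.card S ≤ Nat.card ((R : Subgroup G) ⊓ Subgroup.center G : Subgroup G) := by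
    have hmem : ∀ s : S, ((s : Subgroup.centralizer ({y} : Set G)) : G) ∈
        (R : Subgroup G) ⊓ Subgroup.center G := by
      intro s
      obtain ⟨k, hk⟩ := S.isPGroup' s
      have hk' : ((s : Subgroup.centralizer ({y} : Set G)) : G) ^ (r ^ k) = 1 := by
        simpa using congrArg Subtype.val (congrArg Subtype.val hk)
      have hsZ : ((s : Subgroup.centralizer ({y} : Set G)) : G) ∈ Subgroup.center G := by
        by_contra hnz
        exact hcon _ (s : Subgroup.centralizer ({y} : Set G)).2 hnz k hk'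
      obtain ⟨g, hg⟩ := S4134.exists_conj_mem_sylow r R _ k hk'
      have hcomm := Subgroup.mem_center_iff.mp hsZ g
      have e2 : g * ((s : Subgroup.centralizer ({y} : Set G)) : G) * g⁻¹ =
          ((s : Subgroup.centralizer ({y} : Set G)) : G) := by
        rw [hcomm, mul_inv_cancel_right]
      rw [e2] at hg
      exact Subgroup.mem_inf.mpr ⟨hg, hsZ⟩
    apply Nat.card_le_card_of_injective
      (fun s : S => (⟨_, hmem s⟩ : ((R : Subgroup G) ⊓ Subgroup.center G : Subgroup G)))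
    intro s t hst
    have h1 := congrArg Subtype.val hst
    exact Subtype.ext (Subtype.ext h1)
  omega

theorem good_le (hR : ¬ (R : Subgroup G) ≤ Subgroup.center G) (hRN : (R : Subgroup G) ≤ N)
    (hm : ∀ x ∈ N, x ∉ Subgroup.center G → (Subgroup.centralizer ({x} : Set G)).index = m)
    (y : G) (hy : y ∈ N) (hyZ : y ∉ Subgroup.center G) (hyr : (orderOf y).Coprime r) :
    ∀ z ∈ N, z ∈ Subgroup.centralizer ({y} : Set G) →
      Subgroup.centralizer ({y} : Set G) ≤ Subgroup.centralizer ({z} : Set G) := by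
  obtain ⟨x, hxC, hxZ, k, hxk⟩ := exists_relt hR hRN hm y hy hyZ
  have hxN : x ∈ N := relt_mem hRN x k hxk
  have hox : orderOf x ∣ r ^ k := orderOf_dvd_of_pow_eq_one hxk
  have hyx : y * x = x * y := (S4134.mem_cent y x).mp hxC
  have hcoyx : (orderOf y).Coprime (orderOf x) :=
    Nat.Coprime.coprime_dvd_right hox (Nat.Coprime.pow_right k hyr)
  have h1 : Subgroup.centralizer ({y} : Set G) ≤ Subgroup.centralizer ({x} : Set G) :=
    cent_le hm y x hy hxN hyZ hyx hcoyx
  intro z hzN hzC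
  obtain ⟨i, j, a, hdec, hu, hj⟩ := S4134.exists_decomp r hr.1 z
  have hziN : z ^ i ∈ N := N.zpow_mem hzN i
  have hzjN : z ^ j ∈ N := N.zpow_mem hzN j
  have hziC : z ^ i ∈ Subgroup.centralizer ({y} : Set G) := Subgroup.zpow_mem _ hzC i
  have hzjC : z ^ j ∈ Subgroup.centralizer ({y} : Set G) := Subgroup.zpow_mem _ hzC j
  have hA : Subgroup.centralizer ({y} : Set G) ≤ Subgroup.centralizer ({z ^ i} : Set G) := by
    apply cent_le hm y (z ^ i) hy hziN hyZ ((S4134.mem_cent y (z ^ i)).mp hziC)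
    exact Nat.Coprime.coprime_dvd_right (orderOf_dvd_of_pow_eq_one hu)
      (Nat.Coprime.pow_right a hyr)
  have hB : Subgroup.centralizer ({y} : Set G) ≤ Subgroup.centralizer ({z ^ j} : Set G) := by
    refine h1.trans ?_
    apply cent_le hm x (z ^ j) hxN hzjN hxZ ((S4134.mem_cent x (z ^ j)).mp (h1 hzjC))
    exact Nat.Coprime.coprime_dvd_left hox
      (Nat.Coprime.pow_left k ((Nat.Prime.coprime_iff_not_dvd hr.1).mpr hj))
  intro g hg
  have hgi := (S4134.mem_cent _ g).mp (hA hg)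
  have hgj := (S4134.mem_cent _ g).mp (hB hg)
  rw [S4134.mem_cent]
  calc z * g = z ^ i * z ^ j * g := by rw [← hdec]
    _ = z ^ i * (z ^ j * g) := mul_assoc _ _ _
    _ = z ^ i * (g * z ^ j) := by rw [hgj]
    _ = (z ^ i * g) * z ^ j := (mul_assoc _ _ _).symm
    _ = (g * z ^ i) * z ^ j := by rw [hgi]
    _ = g * (z ^ i * z ^ j) := mul_assoc _ _ _
    _ = g * z := by rw [← hdec]

theorem good_eq (hR : ¬ (R : Subgroup G) ≤ Subgroup.center G) (hRN : (R : Subgroup G) ≤ N)
    (hm : ∀ x ∈ N, x ∉ Subgroup.center G → (Subgroup.centralizer ({x} : Set G)).index = m)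
    (y : G) (hy : y ∈ N) (hyZ : y ∉ Subgroup.center G) (hyr : (orderOf y).Coprime r) :
    ∀ z ∈ N, z ∈ Subgroup.centralizer ({y} : Set G) → z ∉ Subgroup.center G →
      Subgroup.centralizer ({z} : Set G) = Subgroup.centralizer ({y} : Set G) := by
  intro z hzN hzC hzZ
  exact (S4134.eq_of_le_of_index_eq _ _ (good_le hR hRN hm y hy hyZ hyr z hzN hzC)
    ((hm y hy hyZ).trans (hm z hzN hzZ).symm)).symm

end Main

/-! ### Consequences of the "good centralizer" property -/

section Abs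

variable [Finite G] {N : Subgroup G} [hN : N.Normal] (C : Subgroup G)

theorem zp_relIndex_dvd
    (hGood : ∀ z ∈ N, z ∈ C → z ∉ Subgroup.center G → Subgroup.centralizer ({z} : Set G) = C)
    (n : G) (hn : ∀ g : G, g * n * g⁻¹ ∉ C) (s : ℕ) :
    (Subgroup.center G).relIndex (zp N C s) ∣ (Subgroup.centralizer ({n} : Set G)).index := by
  have h1 : (Subgroup.center G).relIndex (zp N C s) ∣
      Nat.card ↥{y : G | ∃ x : G, x * n * x⁻¹ = y} := by
    refine semireg_dvd (zp N C s) (Subgroup.center G) {y : G | ∃ x : G, x * n * x⁻¹ = y} ?_ ?_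
    · rintro u - x ⟨g, rfl⟩
      exact ⟨u * g, by group⟩
    · rintro x ⟨g, rfl⟩ u hu
      constructor
      · intro h
        by_contra huZ
        have hCu := hGood u ((mem_zp N C s u).mp hu).1 ((mem_zp N C s u).mp hu).2.1 huZ
        have h2 : g * n * g⁻¹ ∈ Subgroup.centralizer ({u} : Set G) := by
          rw [S4134.mem_cent]
          calc u * (g * n * g⁻¹) = (u * (g * n * g⁻¹) * u⁻¹) * u := by group
            _ = g * n * g⁻¹ * u := by rw [h]
        rw [hCu] at h2
        exact hn g h2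
      · intro huZ
        have h2 := Subgroup.mem_center_iff.mp huZ (g * n * g⁻¹)
        rw [← h2]
        group
  have h2 := Lib.Helper73.card_conj_mul_card_centralizer n
  have h3 := Subgroup.card_mul_index (Subgroup.centralizer ({n} : Set G))
  have h4 : Nat.card ↥{y : G | ∃ x : G, x * n * x⁻¹ = y} =
      (Subgroup.centralizer ({n} : Set G)).index := by
    have h5 : Nat.card {y : G // ∃ x : G, x * n * x⁻¹ = y} *
        Nat.card (Subgroup.centralizer ({n} : Set G)) =
        (Subgroup.centralizer ({n} : Set G)).index *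
          Nat.card (Subgroup.centralizer ({n} : Set G)) := by
      rw [h2, mul_comm, h3]
    exact Nat.eq_of_mul_eq_mul_right Nat.card_pos h5
  rw [← h4]
  exact h1

theorem zp_relIndex_le (s : ℕ) [hs : Fact s.Prime] (S : Sylow s G)
    (hdvd : (Subgroup.center G).relIndex (zp N C s) ∣ C.index) :
    (Subgroup.center G).relIndex (zp N C s) ≤ C.relIndex S := by
  have h1 : C.index ∣ C.relIndex S * (S : Subgroup G).index := by
    have h2 := Subgroup.relIndex_mul_index (inf_le_right : C ⊓ (S : Subgroup G) ≤ S)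
    rw [Subgroup.inf_relIndex_right] at h2
    rw [h2]
    exact Subgroup.index_dvd_of_le inf_le_left
  have h3 : (Subgroup.center G).relIndex (zp N C s) ∣ Nat.card (zp N C s) :=
    Subgroup.relIndex_dvd_card _ _
  obtain ⟨e, he⟩ := (isPGroup_zp N C s).exists_card_eq
  rw [he] at h3
  obtain ⟨e', -, he'⟩ := (Nat.dvd_prime_pow hs.1).mp h3
  have hcop : ((Subgroup.center G).relIndex (zp N C s)).Coprime (S : Subgroup G).index := by
    rw [he']
    exact Nat.Coprime.pow_left e' ((Nat.Prime.coprime_iff_not_dvd hs.1).mpr S.not_dvd_index)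
  have h4 := hcop.dvd_of_dvd_mul_right (hdvd.trans h1)
  exact Nat.le_of_dvd
    (Nat.pos_of_dvd_of_pos (Subgroup.relIndex_dvd_card C (S : Subgroup G)) Nat.card_pos) h4

theorem relIndex_lt_zp
    (hGood : ∀ z ∈ N, z ∈ C → z ∉ Subgroup.center G → Subgroup.centralizer ({z} : Set G) = C)
    (s : ℕ) [hs : Fact s.Prime] (P : Subgroup G)
    (hPC : ∀ u ∈ P, ∀ c ∈ C, u * c * u⁻¹ ∈ C) (hcop : (C.relIndex P).Coprime s)
    (hne : ¬ zp N C s ≤ Subgroup.center G) :
    C.relIndex P < (Subgroup.center G).relIndex (zp N C s) := by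
  have h1 : C.relIndex P ∣
      Nat.card ↥{t : G | t ∈ zp N C s ∧ t ∉ zp N C s ⊓ Subgroup.center G} := by
    refine semireg_dvd P C {t : G | t ∈ zp N C s ∧ t ∉ zp N C s ⊓ Subgroup.center G} ?_ ?_
    · rintro u hu t ⟨ht, htZ⟩
      have hu' : ∀ c ∈ C, u⁻¹ * c * u ∈ C := by
        intro c hc
        have h2 := hPC u⁻¹ (P.inv_mem hu) c hc
        rwa [inv_inv] at h2
      refine ⟨zp_conj N C s u (hPC u hu) hu' t ht, ?_⟩
      intro hmem
      apply htZ
      refine Subgroup.mem_inf.mpr ⟨ht, ?_⟩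
      have h2 := (Subgroup.mem_inf.mp hmem).2
      have h3 := (inferInstance : (Subgroup.center G).Normal).conj_mem _ h2 u⁻¹
      have e : u⁻¹ * (u * t * u⁻¹) * u⁻¹⁻¹ = t := by group
      rwa [e] at h3
    · rintro t ⟨ht, htZ⟩ u hu
      have htZ' : t ∉ Subgroup.center G := fun h => htZ (Subgroup.mem_inf.mpr ⟨ht, h⟩)
      have hCt := hGood t ((mem_zp N C s t).mp ht).1 ((mem_zp N C s t).mp ht).2.1 htZ'
      rw [← hCt, S4134.mem_cent]
      constructor
      · intro h
        calc t * u = (u * t * u⁻¹) * u := by rw [h]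
          _ = u * t := by group
      · intro h
        rw [← h]
        group
  have h2 := card_split (zp N C s) (Subgroup.center G)
  have h3 := relIndex_mul_card_inf (zp N C s) (Subgroup.center G)
  obtain ⟨e, he⟩ := (isPGroup_zp N C s).exists_card_eq
  have ha1 : (Subgroup.center G).relIndex (zp N C s) ≠ 1 :=
    fun h => hne (Subgroup.relIndex_eq_one.mp h)
  have ha0 : (Subgroup.center G).relIndex (zp N C s) ≠ 0 :=
    (Nat.pos_of_dvd_of_pos (Subgroup.relIndex_dvd_card _ _) Nat.card_pos).ne'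
  exact arith_aux _ _ _ _ _ s e hs.1 h1 h2 h3 he hcop ha1 ha0

/-- if every noncentral element of `N` is conjugate into `C`, then `N` has two class sizes and
Itô's theorem applies. -/
theorem nilpotent_of_conj_cover
    (hGood : ∀ z ∈ N, z ∈ C → z ∉ Subgroup.center G → Subgroup.centralizer ({z} : Set G) = C)
    (hE : ∀ n ∈ N, n ∉ Subgroup.center G → ∃ g : G, g * n * g⁻¹ ∈ C) : Group.IsNilpotent N := by
  have hcent : ∀ n' : N, Subgroup.centralizer ({n'} : Set N) =
      (Subgroup.centralizer ({(n' : G)} : Set G)).subgroupOf N := by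
    intro n'
    ext c
    rw [Subgroup.mem_subgroupOf, S4134.mem_cent, S4134.mem_cent]
    constructor
    · intro h
      exact congrArg Subtype.val h
    · intro h
      exact Subtype.ext h
  have hidx : ∀ n' : N, (Subgroup.centralizer ({n'} : Set N)).index = 1 ∨
      (Subgroup.centralizer ({n'} : Set N)).index = C.relIndex N := by
    intro n'
    rw [hcent n']
    by_cases hZ : (n' : G) ∈ Subgroup.center G
    · left
      have h1 : Subgroup.centralizer ({(n' : G)} : Set G) = ⊤ := by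
        rw [Subgroup.centralizer_eq_top_iff_subset, Set.singleton_subset_iff]
        exact hZ
      rw [h1]
      exact Subgroup.relIndex_top_left N
    · right
      obtain ⟨g, hg⟩ := hE n' n'.2 hZ
      have hgN : g * (n' : G) * g⁻¹ ∈ N := hN.conj_mem _ n'.2 g
      have hgZ : g * (n' : G) * g⁻¹ ∉ Subgroup.center G := by
        intro hc
        apply hZ
        have h3 := (inferInstance : (Subgroup.center G).Normal).conj_mem _ hc g⁻¹
        have e : g⁻¹ * (g * (n' : G) * g⁻¹) * g⁻¹⁻¹ = (n' : G) := by group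
        rwa [e] at h3
      have hC := hGood _ hgN hg hgZ
      have hsm : MulAut.conj g • Subgroup.centralizer ({(n' : G)} : Set G) = C := by
        rw [← hC]
        ext c
        rw [Subgroup.mem_pointwise_smul_iff_inv_smul_mem, MulAut.smul_def, MulAut.conj_inv_apply,
          S4134.mem_cent, S4134.mem_cent]
        constructor
        · intro h
          calc g * (n' : G) * g⁻¹ * c = g * ((n' : G) * (g⁻¹ * c * g)) * g⁻¹ := by group
            _ = g * (g⁻¹ * c * g * (n' : G)) * g⁻¹ := by rw [h]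
            _ = c * (g * (n' : G) * g⁻¹) := by group
        · intro h
          calc (n' : G) * (g⁻¹ * c * g) = g⁻¹ * (g * (n' : G) * g⁻¹ * c) * g := by group
            _ = g⁻¹ * (c * (g * (n' : G) * g⁻¹)) * g := by rw [h]
            _ = g⁻¹ * c * g * (n' : G) := by group
      have h4 := Subgroup.relIndex_pointwise_smul (MulAut.conj g)
        (Subgroup.centralizer ({(n' : G)} : Set G)) N
      rw [hsm, Subgroup.Normal.conj_smul_eq_self g N] at h4
      exact h4.symm
  by_cases hall : ∀ n' : N, (Subgroup.centralizer ({n'} : Set N)).index = 1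
  · apply nilpotent_of_pow_central 2
    intro z
    refine ⟨0, ?_⟩
    rw [pow_zero, pow_one]
    exact (S4134.index_eq_one_iff_central z).mp (hall z)
  · push Not at hall
    obtain ⟨n₁, hn₁⟩ := hall
    have hb : (Subgroup.centralizer ({n₁} : Set N)).index = C.relIndex N := by
      rcases hidx n₁ with h | h
      · exact absurd h hn₁
      · exact h
    have hb1 : 1 < C.relIndex N := by
      have h0 : (Subgroup.centralizer ({n₁} : Set N)).index ≠ 0 :=
        Subgroup.index_ne_zero_of_finite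
      rw [← hb]
      omega
    obtain ⟨p, hp, a, -, hP⟩ := S4134.result (C.relIndex N) hb1 hidx ⟨n₁, hb⟩
    haveI := hp
    obtain ⟨P⟩ : Nonempty (Sylow p N) := inferInstance
    obtain ⟨-, ⟨K, -, hcompl, hKc, hKP⟩, -⟩ := hP P
    have hKcen : ∀ k' ∈ K, k' ∈ Subgroup.center N := by
      intro k' hk'
      rw [Subgroup.mem_center_iff]
      intro t
      obtain ⟨⟨k₁, u₁⟩, ht⟩ := hcompl.2 t
      have ht' : (k₁ : N) * (u₁ : N) = t := ht
      have h1 : (k₁ : N) * k' = k' * (k₁ : N) :=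
        congrArg Subtype.val (hKc.is_comm.comm ⟨(k₁ : N), k₁.2⟩ ⟨k', hk'⟩)
      have h2 : k' * (u₁ : N) = (u₁ : N) * k' := hKP k' hk' (u₁ : N) u₁.2
      rw [← ht']
      calc (k₁ : N) * (u₁ : N) * k' = (k₁ : N) * ((u₁ : N) * k') := mul_assoc _ _ _
        _ = (k₁ : N) * (k' * (u₁ : N)) := by rw [h2]
        _ = ((k₁ : N) * k') * (u₁ : N) := (mul_assoc _ _ _).symm
        _ = (k' * (k₁ : N)) * (u₁ : N) := by rw [h1]
        _ = k' * ((k₁ : N) * (u₁ : N)) := mul_assoc _ _ _
    apply nilpotent_of_pow_central p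
    intro z
    obtain ⟨⟨k, u⟩, hku⟩ := hcompl.2 z
    have hku' : (k : N) * (u : N) = z := hku
    obtain ⟨e, he⟩ := P.isPGroup' ⟨(u : N), u.2⟩
    have he' : (u : N) ^ (p ^ e) = 1 := by simpa using congrArg Subtype.val he
    refine ⟨e, ?_⟩
    have hc : Commute (k : N) (u : N) := hKP (k : N) k.2 (u : N) u.2
    rw [← hku', hc.mul_pow, he', mul_one]
    exact hKcen _ (K.pow_mem k.2 _)

end Abs

/-! ### The main theorem -/

section Final

variable [Finite G] {r : ℕ} [hr : Fact r.Prime] {R : Sylow r G} {N : Subgroup G} [hN : N.Normal]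
  {m : ℕ}

theorem nilpotent_of_qelt (hR : ¬ (R : Subgroup G) ≤ Subgroup.center G)
    (hRN : (R : Subgroup G) ≤ N)
    (hm : ∀ x ∈ N, x ∉ Subgroup.center G → (Subgroup.centralizer ({x} : Set G)).index = m)
    (q : ℕ) [hq : Fact q.Prime] (hqr : q ≠ r) (y₀ : G) (hy₀ : y₀ ∈ N)
    (hy₀Z : y₀ ∉ Subgroup.center G) (k₀ : ℕ) (hy₀q : y₀ ^ (q ^ k₀) = 1) :
    Group.IsNilpotent N := by
  obtain ⟨Q, hQ⟩ := (S4134.isPGroup_zpowers q y₀ k₀ hy₀q).exists_le_sylow
  have hy₀Q : y₀ ∈ (Q : Subgroup G) := hQ (Subgroup.mem_zpowers y₀)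
  obtain ⟨y, hyL, hyZ, hyQ⟩ := exists_second_center q (Q : Subgroup G) Q.isPGroup'
    (Subgroup.center G) ((Q : Subgroup G) ⊓ N) inf_le_left
    (fun u hu l hl => Subgroup.mem_inf.mpr
      ⟨(Q : Subgroup G).mul_mem ((Q : Subgroup G).mul_mem hu (Subgroup.mem_inf.mp hl).1)
        ((Q : Subgroup G).inv_mem hu), hN.conj_mem _ (Subgroup.mem_inf.mp hl).2 u⟩)
    (fun hle => hy₀Z (hle (Subgroup.mem_inf.mpr ⟨hy₀Q, hy₀⟩)))
  have hyQ' : y ∈ (Q : Subgroup G) := (Subgroup.mem_inf.mp hyL).1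
  have hyN : y ∈ N := (Subgroup.mem_inf.mp hyL).2
  obtain ⟨ky, hky⟩ := Q.isPGroup' ⟨y, hyQ'⟩
  have hky' : y ^ (q ^ ky) = 1 := by simpa using congrArg Subtype.val hky
  have hqr' : Nat.Coprime q r := (Nat.coprime_primes hq.1 hr.1).mpr hqr
  have hyr : (orderOf y).Coprime r :=
    Nat.Coprime.coprime_dvd_left (orderOf_dvd_of_pow_eq_one hky') (Nat.Coprime.pow_left ky hqr')
  have hGle := good_le hR hRN hm y hyN hyZ hyr
  have hGood := good_eq hR hRN hm y hyN hyZ hyr
  obtain ⟨x, hxC, hxZ, kx, hxk⟩ := exists_relt hR hRN hm y hyN hyZ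
  have hCm := hm y hyN hyZ
  have hyC : y ∈ Subgroup.centralizer ({y} : Set G) := (S4134.mem_cent y y).mpr rfl
  have hQC : ∀ u ∈ (Q : Subgroup G), ∀ c ∈ Subgroup.centralizer ({y} : Set G),
      u * c * u⁻¹ ∈ Subgroup.centralizer ({y} : Set G) :=
    fun u hu c hc => norm_of_comm_central y u (hyQ u hu) c hc
  obtain ⟨C, hCdef⟩ : ∃ C : Subgroup G, C = Subgroup.centralizer ({y} : Set G) := ⟨_, rfl⟩
  rw [← hCdef] at hGle hGood hxC hCm hyC hQC
  by_cases hE : ∀ n ∈ N, n ∉ Subgroup.center G → ∃ g : G, g * n * g⁻¹ ∈ C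
  · exact nilpotent_of_conj_cover C hGood hE
  · exfalso
    push Not at hE
    obtain ⟨n₀, hn₀N, hn₀Z, hn₀⟩ := hE
    have hnm : (Subgroup.centralizer ({n₀} : Set G)).index = C.index := by
      rw [hCm]
      exact hm n₀ hn₀N hn₀Z
    have hdvd : ∀ s : ℕ, (Subgroup.center G).relIndex (zp N C s) ∣ C.index := by
      intro s
      rw [← hnm]
      exact zp_relIndex_dvd C hGood n₀ hn₀ s
    have hxN : x ∈ N := relt_mem hRN x kx hxk
    have hxM : x ∈ zp N C r := (mem_zp N C r x).mpr ⟨hxN, hxC,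
      Subgroup.mem_centralizer_iff.mpr
        (fun c hc => ((S4134.mem_cent x c).mp (hGle x hxN hxC hc)).symm), kx, hxk⟩
    have hyM : y ∈ zp N C q := (mem_zp N C q y).mpr ⟨hyN, hyC,
      Subgroup.mem_centralizer_iff.mpr
        (fun c hc => ((S4134.mem_cent y c).mp (hGle y hyN hyC hc)).symm), ky, hky'⟩
    have hCx : Subgroup.centralizer ({x} : Set G) = C := hGood x hxN hxC hxZ
    obtain ⟨R₁, hR₁⟩ := (isPGroup_zp N C r).exists_le_sylow
    have hxR₁ : x ∈ (R₁ : Subgroup G) := hR₁ hxM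
    obtain ⟨w, hwR₁, hwZ, hw⟩ := exists_second_center r (R₁ : Subgroup G) R₁.isPGroup'
      (Subgroup.center G) (R₁ : Subgroup G) le_rfl
      (fun u hu l hl => (R₁ : Subgroup G).mul_mem ((R₁ : Subgroup G).mul_mem hu hl)
        ((R₁ : Subgroup G).inv_mem hu))
      (fun hle => hxZ (hle hxR₁))
    obtain ⟨kw, hkw⟩ := R₁.isPGroup' ⟨w, hwR₁⟩
    have hkw' : w ^ (r ^ kw) = 1 := by simpa using congrArg Subtype.val hkw
    have hwN : w ∈ N := relt_mem hRN w kw hkw'
    have haq : (Subgroup.center G).relIndex (zp N C q) ≤ C.relIndex Q :=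
      zp_relIndex_le C q Q (hdvd q)
    have hMq : ¬ zp N C q ≤ Subgroup.center G := fun hle => hyZ (hle hyM)
    have hMr : ¬ zp N C r ≤ Subgroup.center G := fun hle => hxZ (hle hxM)
    by_cases hwC : w ∈ C
    · -- both Sylow subgroups normalize `C`
      have hcopQ : (C.relIndex Q).Coprime r := by
        obtain ⟨e, he⟩ := Q.isPGroup'.exists_card_eq
        have h1 := Subgroup.relIndex_dvd_card C (Q : Subgroup G)
        rw [he] at h1
        exact Nat.Coprime.coprime_dvd_left h1 (Nat.Coprime.pow_left e hqr')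
      have hBr : C.relIndex Q < (Subgroup.center G).relIndex (zp N C r) :=
        relIndex_lt_zp C hGood r Q hQC hcopQ hMr
      have hCw : Subgroup.centralizer ({w} : Set G) = C := hGood w hwN hwC hwZ
      have hR₁C : ∀ u ∈ (R₁ : Subgroup G), ∀ c ∈ C, u * c * u⁻¹ ∈ C := by
        intro u hu c hc
        rw [← hCw] at hc ⊢
        exact norm_of_comm_central w u (hw u hu) c hc
      have hcopR : (C.relIndex R₁).Coprime q := by
        obtain ⟨e, he⟩ := R₁.isPGroup'.exists_card_eq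
        have h1 := Subgroup.relIndex_dvd_card C (R₁ : Subgroup G)
        rw [he] at h1
        exact Nat.Coprime.coprime_dvd_left h1 (Nat.Coprime.pow_left e hqr'.symm)
      have hAq : C.relIndex R₁ < (Subgroup.center G).relIndex (zp N C q) :=
        relIndex_lt_zp C hGood q R₁ hR₁C hcopR hMq
      have har : (Subgroup.center G).relIndex (zp N C r) ≤ C.relIndex R₁ :=
        zp_relIndex_le C r R₁ (hdvd r)
      omega
    · -- `w` acts on `zp N C r` trivially modulo the centre but does not centralize it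
      have hQzp : ∀ h ∈ (Q : Subgroup G), ∀ u ∈ zp N C r, h⁻¹ * u * h ∈ zp N C r := by
        intro h hh u hu
        have h1 := zp_conj N C r h⁻¹ (hQC h⁻¹ ((Q : Subgroup G).inv_mem hh)) (by
          intro c hc
          have h2 := hQC h hh c hc
          rwa [inv_inv]) u hu
        rwa [inv_inv] at h1
      have hwN0 : ∀ h ∈ (Q : Subgroup G), h * w * h⁻¹ ∈ commSub (zp N C r) := by
        intro h hh
        refine (mem_commSub _ _).mpr (fun u hu => ?_)
        have h1 := hw _ (hR₁ (hQzp h hh u hu))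
        have h2 := (inferInstance : (Subgroup.center G).Normal).conj_mem _ h1 h
        have e : h * (w * (h⁻¹ * u * h) * w⁻¹ * (h⁻¹ * u * h)⁻¹) * h⁻¹ =
            h * w * h⁻¹ * u * (h * w * h⁻¹)⁻¹ * u⁻¹ := by group
        rwa [e] at h2
      have hN0C : ∀ g ∈ commSub (zp N C r), ∀ c ∈ C, g * c * g⁻¹ ∈ C := by
        intro g hg c hc
        rw [← hCx] at hc ⊢
        have h1 := Subgroup.inv_mem _ ((mem_commSub _ _).mp hg x hxM)
        have e : (g * x * g⁻¹ * x⁻¹)⁻¹ = x * g * x⁻¹ * g⁻¹ := by group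
        rw [e] at h1
        exact norm_of_comm_central x g h1 c hc
      have hcopN0 : (C.relIndex (commSub (zp N C r))).Coprime q := by
        obtain ⟨S⟩ : Nonempty (Sylow q (commSub (zp N C r))) := inferInstance
        have hle : (S : Subgroup (commSub (zp N C r))) ≤ C.subgroupOf (commSub (zp N C r)) := by
          intro g hg
          rw [Subgroup.mem_subgroupOf]
          obtain ⟨kg, hkg⟩ := S.isPGroup' ⟨g, hg⟩
          have hkg' : (g : G) ^ (q ^ kg) = 1 := by
            simpa using congrArg Subtype.val (congrArg Subtype.val hkg)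
          have h1 := (mem_commSub _ _).mp g.2 x hxM
          have h2 := comm_of_coprime_central (g : G) x (q ^ kg) (r ^ kx)
            (Nat.Coprime.pow _ _ hqr') hkg' hxk h1
          have h8 : (g : G) ∈ Subgroup.centralizer ({x} : Set G) := by
            rw [S4134.mem_cent]
            calc x * (g : G) = ((g : G) * x * (g : G)⁻¹) * (g : G) := by rw [h2]
              _ = (g : G) * x := by group
          rw [hCx] at h8
          exact h8
        have h3 := Subgroup.index_dvd_of_le hle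
        have h4 := S.not_dvd_index
        have h5 : ¬ q ∣ C.relIndex (commSub (zp N C r)) := fun hd => h4 (hd.trans h3)
        exact ((Nat.Prime.coprime_iff_not_dvd hq.1).mpr h5).symm
      have hkq : C.relIndex (commSub (zp N C r)) < (Subgroup.center G).relIndex (zp N C q) :=
        relIndex_lt_zp C hGood q (commSub (zp N C r)) hN0C hcopN0 hMq
      have hfix : ∀ t ∈ (Q : Subgroup G), w⁻¹ * t * w * t⁻¹ ∈ C → t ∈ C := by
        intro h hh hc
        obtain ⟨c, hcdef⟩ : ∃ c, c = w⁻¹ * h * w * h⁻¹ := ⟨_, rfl⟩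
        rw [← hcdef] at hc
        have hu' : h⁻¹ * x * h ∈ zp N C r := hQzp h hh x hxM
        have hz₂ := hw x hxR₁
        have hcx : c * x = x * c :=
          ((S4134.mem_cent x c).mp (by rw [hCx]; exact hc)).symm
        have hz12 : w * (h⁻¹ * x * h) * w⁻¹ * (h⁻¹ * x * h)⁻¹ = w * x * w⁻¹ * x⁻¹ := by
          have e1 : w * (h⁻¹ * x * h) * w⁻¹ * (h⁻¹ * x * h)⁻¹ =
              h⁻¹ * (w * (c * x * c⁻¹) * w⁻¹ * x⁻¹) * h := by
            rw [hcdef]; group
          have e2 : c * x * c⁻¹ = x := by rw [hcx]; group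
          rw [e1, e2]
          have h7 := Subgroup.mem_center_iff.mp hz₂ h⁻¹
          rw [h7]
          group
        have hv : h⁻¹ * x * h * x⁻¹ ∈ zp N C r :=
          Subgroup.mul_mem _ hu' (Subgroup.inv_mem _ hxM)
        have hwv : w * (h⁻¹ * x * h * x⁻¹) = (h⁻¹ * x * h * x⁻¹) * w := by
          have hc2 := Subgroup.mem_center_iff.mp hz₂
          calc w * (h⁻¹ * x * h * x⁻¹)
              = (w * (h⁻¹ * x * h) * w⁻¹ * (h⁻¹ * x * h)⁻¹) * (h⁻¹ * x * h * x⁻¹) *
                  (w * x * w⁻¹ * x⁻¹)⁻¹ * w := by group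
            _ = (w * x * w⁻¹ * x⁻¹) * (h⁻¹ * x * h * x⁻¹) * (w * x * w⁻¹ * x⁻¹)⁻¹ * w := by
                rw [hz12]
            _ = (h⁻¹ * x * h * x⁻¹) * (w * x * w⁻¹ * x⁻¹) * (w * x * w⁻¹ * x⁻¹)⁻¹ * w := by
                rw [← hc2 (h⁻¹ * x * h * x⁻¹)]
            _ = (h⁻¹ * x * h * x⁻¹) * w := by group
        have hvZ : h⁻¹ * x * h * x⁻¹ ∈ Subgroup.center G := by
          by_contra hvnZ
          have hCv := hGood _ ((mem_zp N C r _).mp hv).1 ((mem_zp N C r _).mp hv).2.1 hvnZ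
          apply hwC
          rw [← hCv, S4134.mem_cent]
          exact hwv.symm
        obtain ⟨kh, hkh⟩ := Q.isPGroup' ⟨h, hh⟩
        have hkh' : h ^ (q ^ kh) = 1 := by simpa using congrArg Subtype.val hkh
        have hkh'' : h⁻¹ ^ (q ^ kh) = 1 := by rw [inv_pow, hkh', inv_one]
        have hvZ' : h⁻¹ * x * h⁻¹⁻¹ * x⁻¹ ∈ Subgroup.center G := by
          rw [inv_inv]
          exact hvZ
        have h6 := comm_of_coprime_central h⁻¹ x (q ^ kh) (r ^ kx)
          (Nat.Coprime.pow _ _ hqr') hkh'' hxk hvZ'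
        rw [inv_inv] at h6
        rw [← hCx, S4134.mem_cent]
        calc x * h = h * (h⁻¹ * x * h) := by group
          _ = h * x := by rw [h6]
      have horb : C.relIndex Q + 1 ≤ C.relIndex (commSub (zp N C r)) :=
        orb_bound C (commSub (zp N C r)) Q w hwC hwN0 hQC hfix
      omega

theorem main (r : ℕ) [hr : Fact r.Prime] (R : Sylow r G)
    (hR : ¬ (R : Subgroup G) ≤ Subgroup.center G) (N : Subgroup G) [hN : N.Normal]
    (hRN : (R : Subgroup G) ≤ N) (m : ℕ)
    (h : ∀ x ∈ N, (Subgroup.centralizer ({x} : Set G)).index = 1 ∨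
      (Subgroup.centralizer ({x} : Set G)).index = m) :
    Group.IsNilpotent N := by
  have hm : ∀ x ∈ N, x ∉ Subgroup.center G →
      (Subgroup.centralizer ({x} : Set G)).index = m := by
    intro x hx hxZ
    rcases h x hx with h1 | h1
    · exact absurd ((S4134.index_eq_one_iff_central x).mp h1) hxZ
    · exact h1
  by_cases hex : ∃ (q : ℕ) (y : G), q.Prime ∧ q ≠ r ∧ y ∈ N ∧ y ∉ Subgroup.center G ∧
      ∃ k : ℕ, y ^ (q ^ k) = 1
  · obtain ⟨q, y, hq, hqr, hyN, hyZ, k, hk⟩ := hex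
    haveI : Fact q.Prime := ⟨hq⟩
    exact nilpotent_of_qelt hR hRN hm q hqr y hyN hyZ k hk
  · push Not at hex
    apply nilpotent_of_pow_central r
    intro z
    obtain ⟨i, j, a, hdec, hu, hj⟩ := S4134.exists_decomp r hr.1 (z : G)
    have hzj : (z : G) ^ j ∈ Subgroup.center G := by
      apply S4134.mem_of_prime_pow_parts (Subgroup.center G) (orderOf ((z : G) ^ j))
        ((z : G) ^ j) rfl
      rintro i' ⟨s, k, hs, hsk⟩
      by_cases hsr : s = r
      · have h1 : orderOf (((z : G) ^ j) ^ i') ∣ r ^ k := by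
          rw [← hsr]
          exact orderOf_dvd_of_pow_eq_one hsk
        have h2 : orderOf (((z : G) ^ j) ^ i') ∣ orderOf ((z : G) ^ j) :=
          orderOf_dvd_of_mem_zpowers (Subgroup.zpow_mem_zpowers _ i')
        have h3 : (orderOf ((z : G) ^ j)).Coprime (r ^ k) :=
          Nat.Coprime.pow_right k ((Nat.Prime.coprime_iff_not_dvd hr.1).mpr hj).symm
        have h4 : orderOf (((z : G) ^ j) ^ i') = 1 := by
          have h5 := Nat.dvd_gcd h2 h1
          rw [h3.gcd_eq_one] at h5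
          exact Nat.dvd_one.mp h5
        rw [orderOf_eq_one_iff] at h4
        rw [h4]
        exact Subgroup.one_mem _
      · by_contra hnZ
        exact hex s (((z : G) ^ j) ^ i') hs hsr (N.zpow_mem (N.zpow_mem z.2 j) i') hnZ k hsk
    refine ⟨a, ?_⟩
    have hza : (z : G) ^ (r ^ a) = ((z : G) ^ j) ^ (r ^ a) := by
      have hc : Commute ((z : G) ^ i) ((z : G) ^ j) := Commute.zpow_zpow_self (z : G) i j
      calc (z : G) ^ (r ^ a) = ((z : G) ^ i * (z : G) ^ j) ^ (r ^ a) := by rw [← hdec]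
        _ = ((z : G) ^ i) ^ (r ^ a) * ((z : G) ^ j) ^ (r ^ a) := hc.mul_pow _
        _ = ((z : G) ^ j) ^ (r ^ a) := by rw [hu, one_mul]
    have hzc : (z : G) ^ (r ^ a) ∈ Subgroup.center G := by
      rw [hza]
      exact Subgroup.pow_mem _ hzj _
    rw [Subgroup.mem_center_iff]
    intro t
    apply Subtype.ext
    exact Subgroup.mem_center_iff.mp hzc (t : G)

end Final

end Cfsg.Agent.Lib.Helper64.TwoSizes
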